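import Mathlib
import Cfsg.Agent.R2.Spec.X7.N6.E1

/-!
# Box X7, `n = 6`, packet N6-E (helper9): two neighbouring orders, the finite check

* `pair_lt`, `pair_gt` : `T = M e` and `N` are element orders, `N` prime to `M`;
* `chk`, `chk_spec` : the finite check.
-/

set_option autoImplicit false
set_option maxHeartbeats 1000000

namespace Cfsg.Agent.R2.Spec.X7.N6

variable {p q : ℕ} {s : ℤ} {c c5 M : ℕ}

namespace SixN

/-- `q ^ 3 < M` -/
lemma q3_lt (h : SixN p q s c c5 M) : q ^ 3 < M := by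
  have h1 := h.lo
  have h3 : (3 : ℤ) ≤ q := by exact_mod_cast h.q3
  have key : (q : ℤ) ^ 3 < M := by
    rcases h.c5_or with h2 | h2
    · rw [h2] at h1
      push_cast at h1
      nlinarith [mul_nonneg (by linarith : (0 : ℤ) ≤ (q : ℤ) - 3) (by positivity : (0 : ℤ) ≤ (q : ℤ) ^ 3)]
    · have h9 : (9 : ℤ) ≤ q := by exact_mod_cast h.q9 h2
      rw [h2] at h1
      push_cast at h1
      nlinarith [mul_nonneg (by linarith : (0 : ℤ) ≤ (q : ℤ) - 9) (by positivity : (0 : ℤ) ≤ (q : ℤ) ^ 3)]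
  exact_mod_cast key

lemma two_lt (h : SixN p q s c c5 M) : 2 * (((q : ℤ) + 1) ^ 2 + 1) < M := by
  have h1 := h.lo
  have h3 : (3 : ℤ) ≤ q := by exact_mod_cast h.q3
  rcases h.c5_or with h2 | h2
  · rw [h2] at h1
    push_cast at h1
    nlinarith [mul_nonneg (by linarith : (0 : ℤ) ≤ (q : ℤ) - 3) (sq_nonneg (q : ℤ)),
      mul_nonneg (mul_nonneg (by linarith : (0 : ℤ) ≤ (q : ℤ) - 3) (by linarith : (0 : ℤ) ≤ (q : ℤ))) (sq_nonneg (q : ℤ))]
  · have h5 : (9 : ℤ) ≤ q := by exact_mod_cast h.q9 h2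
    rw [h2] at h1
    push_cast at h1
    nlinarith [mul_nonneg (by linarith : (0 : ℤ) ≤ (q : ℤ) - 9) (sq_nonneg (q : ℤ)),
      mul_nonneg (mul_nonneg (by linarith : (0 : ℤ) ≤ (q : ℤ) - 9) (by linarith : (0 : ℤ) ≤ (q : ℤ))) (sq_nonneg (q : ℤ)),
      mul_nonneg (by linarith : (0 : ℤ) ≤ (q : ℤ) - 9) (by linarith : (0 : ℤ) ≤ (q : ℤ))]

/-- `s² ∤ p x` with `x` prime to `s` -/
lemma sq_not (h : SixN p q s c c5 M) {x y : ℤ} (hx : IsCoprime (s ^ 2) x) (he : s ^ 2 * y = p * x) : False := by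
  have h1 : s ^ 2 ∣ p := hx.dvd_of_dvd_mul_right ⟨y, he.symm⟩
  have h2 := Int.le_of_dvd (by exact_mod_cast h.hp.pos) h1
  have h3 : (3 : ℤ) ≤ q := by exact_mod_cast h.q3
  have h4 : (p : ℤ) ≤ q := by exact_mod_cast h.p_le
  rw [h.sq_s] at h2
  nlinarith

lemma c_not (h : SixN p q s c c5 M) {x y : ℤ} (he : (c : ℤ) * x * y = 1 ∨ (c : ℤ) * x * y = -1) : False := by
  have h1 : (c : ℤ) ∣ 1 := by
    rcases he with he | he
    · exact ⟨x * y, by linarith⟩
    · exact ⟨-(x * y), by linarith⟩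
  have h2 := Int.le_of_dvd one_pos h1
  rcases h.c_or with h3 | h3 <;> rw [h3] at h2 <;> norm_num at h2

lemma c5_pos (h : SixN p q s c c5 M) : (1 : ℤ) ≤ c5 := by
  rcases h.c5_or with h2 | h2 <;> rw [h2] <;> norm_num

theorem pair_lt (h : SixN p q s c c5 M) {e N : ℕ} (hN : Up p s c N) (hcop : Nat.Coprime N M)
    (hlt : M * e < N) (he : 0 < e) (hq3 : q = 3 → 72 < N) :
    (N : ℤ) ≤ 2 * (c5 * (q + 1) + 1) * ((N : ℤ) - (M * e : ℕ)) := by
  have hbig : q ^ 3 < N := by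
    have h1 := h.q3_lt
    have h2 : M ≤ M * e := Nat.le_mul_of_pos_right _ he
    omega
  have hγ : (0 : ℤ) < (N : ℤ) - (M * e : ℕ) := by
    have : ((M * e : ℕ) : ℤ) < N := by exact_mod_cast hlt
    linarith
  have h3 : (3 : ℤ) ≤ q := by exact_mod_cast h.q3
  have hb := h.two_lt
  have hc5 := h.c5_pos
  have hez : (0 : ℤ) < e := by exact_mod_cast he
  rcases h.bracket' (e := e) (α := -1) (β := 1) (γ := (N : ℤ) - (M * e : ℕ)) hN hcop hbig hq3 (by ring) with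
    h1 | h1 | ⟨h1, -⟩ | h1
  · rwa [abs_of_pos hγ] at h1
  · exfalso
    rw [abs_one] at h1
    nlinarith
  · exfalso
    rw [abs_one] at h1
    linarith
  · exfalso
    set γ := (N : ℤ) - (M * e : ℕ) with hγd
    rcases h1 with ⟨h1, j, -, h2⟩ | ⟨h1, -⟩ | ⟨h1, -⟩ | ⟨h1, -⟩ | ⟨-, j, -, h2⟩
    · exact h.c_not (Or.inl h2)
    · nlinarith
    · nlinarith
    · have : 0 < s ^ 2 + 2 * s + 2 := by nlinarith [sq_nonneg (s + 1)]
      nlinarith [mul_pos hez this]
    · refine h.sq_not (x := s ^ 2 - 1) (y := -(j * γ)) ⟨1, -1, by ring⟩ (by linear_combination -h2)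

theorem pair_gt (h : SixN p q s c c5 M) {e N : ℕ} (hN : Up p s c N) (hcop : Nat.Coprime N M)
    (hlt : N < M * e) (hbig : q ^ 3 < N) (hq3 : q = 3 → 72 < N) :
    (N : ℤ) ≤ 2 * (c5 * (q + 1) + 1) * (((M * e : ℕ) : ℤ) - N) ∨ (e : ℤ) = c5 * (((M * e : ℕ) : ℤ) - N) ∨
      ∃ j : ℤ, (c5 : ℤ) = e * j ∧ j * (((M * e : ℕ) : ℤ) - N) = s ^ 2 + 2 * s + 2 ∧
        N * j = (s ^ 3 - 1) * (s + 1) := by
  have hγ : (0 : ℤ) < ((M * e : ℕ) : ℤ) - N := by
    have : (N : ℤ) < ((M * e : ℕ) : ℤ) := by exact_mod_cast hlt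
    linarith
  have h3 : (3 : ℤ) ≤ q := by exact_mod_cast h.q3
  have hb := h.two_lt
  have hc5 := h.c5_pos
  rcases h.bracket' (e := e) (α := 1) (β := -1) (γ := ((M * e : ℕ) : ℤ) - N) hN hcop hbig hq3 (by ring) with
    h1 | h1 | ⟨h1, -⟩ | h1
  · left
    rwa [abs_of_pos hγ] at h1
  · exfalso
    rw [abs_neg, abs_one] at h1
    nlinarith
  · exfalso
    rw [abs_neg, abs_one] at h1
    linarith
  · right
    set γ := ((M * e : ℕ) : ℤ) - N with hγd
    have hpp : s ^ 2 + 2 * s + 2 ≠ 0 := by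
      have : 0 < s ^ 2 + 2 * s + 2 := by nlinarith [sq_nonneg (s + 1)]
      exact this.ne'
    rcases h1 with ⟨h1, j, -, h2⟩ | ⟨h1, j, -, h2⟩ | ⟨h1, -⟩ | ⟨h1, j, h5, h2⟩ | ⟨-, j, -, h2⟩
    · exact absurd (h.c_not (Or.inr h2)) id
    · left
      linarith
    · left
      linarith
    · right
      refine ⟨j, ?_, by linarith, h5⟩
      have e1 : (c5 : ℤ) * (s ^ 2 + 2 * s + 2) = (e * j) * (s ^ 2 + 2 * s + 2) := by
        linear_combination j * h1 - c5 * h2
      exact mul_right_cancel₀ hpp e1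
    · exact absurd (h.sq_not (x := s ^ 2 - 1) (y := j * γ) ⟨1, -1, by ring⟩ (by linear_combination h2)) id

end SixN

/-! ### the finite check -/

/-- boolean version of `Up` -/
def upB (p : ℕ) (s : ℤ) (c : ℕ) (E : ℕ) : Bool :=
  ((s ^ 5 - 1).natAbs % (c * E) == 0) || ((s ^ 6 - 1).natAbs % (c * E * (s - 1).natAbs) == 0) ||
  ((s ^ 4 - 1).natAbs % E == 0) || ((p * (s ^ 4 - 1)).natAbs % (c * E) == 0) ||
  (((s ^ 3 - 1) * (s + 1)).natAbs % E == 0) || ((p * (s ^ 3 - 1)).natAbs % E == 0) ||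
  ((p * (s ^ 2 - 1)).natAbs % E == 0) || ((p == 3) && ((9 * (s ^ 2 - 1)).natAbs % E == 0)) ||
  ((p == 5) && (25 % E == 0))

private theorem nd {a : ℕ} {b : ℤ} (h : (a : ℤ) ∣ b) : (b.natAbs % a == 0) = true := by
  rw [beq_iff_eq]
  exact Nat.mod_eq_zero_of_dvd (Int.natCast_dvd.mp h)

theorem Up.toB {E : ℕ} (h : Up p s c E) : upB p s c E = true := by
  unfold upB
  simp only [Bool.or_eq_true, Bool.and_eq_true]
  rcases h with h1 | h1 | h1 | h1 | h1 | h1 | h1 | ⟨h0, h1⟩ | ⟨h0, h1⟩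
  · refine Or.inl (Or.inl (Or.inl (Or.inl (Or.inl (Or.inl (Or.inl (Or.inl (nd ?_))))))))
    push_cast
    exact h1
  · refine Or.inl (Or.inl (Or.inl (Or.inl (Or.inl (Or.inl (Or.inl (Or.inr ?_)))))))
    rw [beq_iff_eq]
    refine Nat.mod_eq_zero_of_dvd ?_
    have h2 := Int.natAbs_dvd_natAbs.mpr h1
    rw [Int.natAbs_mul, Int.natAbs_mul, Int.natAbs_natCast, Int.natAbs_natCast] at h2
    exact h2
  · exact Or.inl (Or.inl (Or.inl (Or.inl (Or.inl (Or.inl (Or.inr (nd h1)))))))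
  · refine Or.inl (Or.inl (Or.inl (Or.inl (Or.inl (Or.inr (nd ?_))))))
    push_cast
    exact h1
  · exact Or.inl (Or.inl (Or.inl (Or.inl (Or.inr (nd h1)))))
  · exact Or.inl (Or.inl (Or.inl (Or.inr (nd h1))))
  · exact Or.inl (Or.inl (Or.inr (nd h1)))
  · exact Or.inl (Or.inr ⟨by rw [beq_iff_eq]; exact h0, nd h1⟩)
  · exact Or.inr ⟨by rw [beq_iff_eq]; exact h0, by rw [beq_iff_eq]; exact Nat.mod_eq_zero_of_dvd h1⟩

/-- boolean test of primality (trial division) -/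
def prB (n : ℕ) : Bool := decide (2 ≤ n) && (List.range n).all fun m => decide (m < 2) || !(n % m == 0)

theorem prB_of {n : ℕ} (h : n.Prime) : prB n = true := by
  unfold prB
  simp only [Bool.and_eq_true, decide_eq_true_eq, List.all_eq_true, Bool.or_eq_true, Bool.not_eq_true', beq_eq_false_iff_ne]
  refine ⟨h.two_le, fun m hm => ?_⟩
  rw [List.mem_range] at hm
  rcases Nat.lt_or_ge m 2 with h2 | h2
  · exact Or.inl h2
  · right
    intro h0
    rcases (Nat.dvd_prime h).mp (Nat.dvd_of_mod_eq_zero h0) with h1 | h1 <;> omega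

/-- the check for given numbers of `L₆(s)` : `low` are orders of the section, `hit` numbers one of which is divisible by `M` -/
def chk1 (p : ℕ) (s : ℤ) (low hit : List ℕ) : Bool :=
  let c := Nat.gcd 6 (s - 1).natAbs
  let M := (s ^ 5 - 1).natAbs / (Nat.gcd 5 (s - 1).natAbs * (s - 1).natAbs)
  !((hit.any fun H => H % M == 0) && (low.all fun E => upB p s c E))

theorem SixN.M_eq (h : SixN p q s c c5 M) :
    M = (s ^ 5 - 1).natAbs / (Nat.gcd 5 (s - 1).natAbs * (s - 1).natAbs) := by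
  have h1 : (s ^ 5 - 1).natAbs = M * (c5 * (s - 1).natAbs) := by
    rw [← h.hM, Int.natAbs_mul, Int.natAbs_mul, Int.natAbs_natCast, Int.natAbs_natCast]
  rw [h1, ← h.hc5]
  refine (Nat.mul_div_cancel _ (Nat.mul_pos ?_ ?_)).symm
  · rcases h.c5_or with h2 | h2 <;> rw [h2] <;> norm_num
  · exact Int.natAbs_pos.mpr h.s_ne

theorem SW.chk1_false {W : ℕ → Prop} (h : SW p q s c c5 M W) {low hit : List ℕ} (hl : ∀ E ∈ low, W E)
    (hh : ∃ H ∈ hit, M ∣ H) : chk1 p s low hit = false := by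
  unfold chk1
  simp only
  rw [← h.n.M_eq, ← h.n.hc, Bool.not_eq_false', Bool.and_eq_true]
  constructor
  · rw [List.any_eq_true]
    obtain ⟨H, h1, h2⟩ := hh
    exact ⟨H, h1, by rw [beq_iff_eq]; exact Nat.mod_eq_zero_of_dvd h2⟩
  · rw [List.all_eq_true]
    exact fun E hE => (h.up E (hl E hE)).toB

/-- all `q = p ^ f ≤ Q`, both signs, for given lists -/
def chkQ (Q : ℕ) (v : ℕ) (low hit : List ℕ) : Bool :=
  (List.range (Q + 1)).all fun p => !(prB p) || (p == v) || (p == 2) ||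
    (List.range 8).all fun f => (f == 0) || decide (Q < p ^ f) ||
      (chk1 p (p ^ f : ℕ) low hit && chk1 p (-((p ^ f : ℕ) : ℤ)) low hit)

theorem SW.chkQ_false {W : ℕ → Prop} (h : SW p q s c c5 M W) {Q v : ℕ} (hQ : q ≤ Q) (hQ8 : Q < 256) (hvp : v ≠ p)
    {low hit : List ℕ} (hl : ∀ E ∈ low, W E) (hh : ∃ H ∈ hit, M ∣ H) : chkQ Q v low hit = false := by
  by_contra hcon
  rw [Bool.not_eq_false] at hcon
  unfold chkQ at hcon
  rw [List.all_eq_true] at hcon
  have hp := h.n.hp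
  have h1 := hcon p (by rw [List.mem_range]; have := h.n.p_le; omega)
  rw [prB_of hp] at h1
  have e1 : (p == v) = false := by rw [beq_eq_false_iff_ne]; exact fun h0 => hvp h0.symm
  have e2 : (p == 2) = false := by rw [beq_eq_false_iff_ne]; exact h.n.hp2
  rw [e1, e2] at h1
  simp only [Bool.not_true, Bool.or_false, Bool.false_or] at h1
  rw [List.all_eq_true] at h1
  obtain ⟨f, hf, hqf⟩ := h.n.hq
  have hf8 : f < 8 := by
    by_contra h8
    have h2 : 2 ^ 8 ≤ 2 ^ f := Nat.pow_le_pow_right (by norm_num) (not_lt.mp h8)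
    have h3 : 2 ^ f ≤ p ^ f := Nat.pow_le_pow_left hp.two_le f
    omega
  have h2 := h1 f (by rw [List.mem_range]; exact hf8)
  have e3 : (f == 0) = false := by rw [beq_eq_false_iff_ne]; omega
  have e4 : decide (Q < p ^ f) = false := by rw [decide_eq_false_iff_not]; omega
  rw [e3, e4, ← hqf] at h2
  simp only [Bool.false_or, Bool.and_eq_true] at h2
  have h3 := h.chk1_false hl hh
  rcases h.n.hs with h4 | h4
  · rw [h4] at h3
    rw [h2.1] at h3
    exact Bool.noConfusion h3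
  · rw [h4] at h3
    rw [h2.2] at h3
    exact Bool.noConfusion h3

/-- all `u = v ^ g ≤ U` -/
def chk (Q U u0 : ℕ) (low hit : ℕ → ℕ → List ℕ) : Bool :=
  (List.range (U + 1)).all fun v => !(prB v) ||
    (List.range 10).all fun g => (g == 0) || decide (U < v ^ g) || decide (v ^ g < u0) ||
      chkQ Q v (low v (v ^ g)) (hit v (v ^ g))

theorem SW.chk_false {W : ℕ → Prop} (h : SW p q s c c5 M W) {Q U u0 : ℕ} {low hit : ℕ → ℕ → List ℕ}
    (hchk : chk Q U u0 low hit = true) (hQ8 : Q < 256) (hU : U < 1024) {v u : ℕ} (hv : v.Prime)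
    (hu : ∃ g, 1 ≤ g ∧ u = v ^ g) (hvp : v ≠ p) (hQ : q ≤ Q) (hUu : u ≤ U) (hu0 : u0 ≤ u)
    (hl : ∀ E ∈ low v u, W E) (hh : ∃ H ∈ hit v u, M ∣ H) : False := by
  unfold chk at hchk
  rw [List.all_eq_true] at hchk
  obtain ⟨g, hg, hug⟩ := hu
  have hvu : v ≤ u := by
    rw [hug]
    exact Nat.le_self_pow (by omega) v
  have h1 := hchk v (by rw [List.mem_range]; omega)
  rw [prB_of hv] at h1
  simp only [Bool.not_true, Bool.false_or] at h1
  rw [List.all_eq_true] at h1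
  have hg10 : g < 10 := by
    by_contra h8
    have h2 : 2 ^ 10 ≤ 2 ^ g := Nat.pow_le_pow_right (by norm_num) (not_lt.mp h8)
    have h3 : 2 ^ g ≤ v ^ g := Nat.pow_le_pow_left hv.two_le g
    omega
  have h2 := h1 g (by rw [List.mem_range]; exact hg10)
  have e3 : (g == 0) = false := by rw [beq_eq_false_iff_ne]; omega
  have e4 : decide (U < v ^ g) = false := by rw [decide_eq_false_iff_not]; omega
  have e5 : decide (v ^ g < u0) = false := by rw [decide_eq_false_iff_not]; omega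
  rw [e3, e4, e5, ← hug] at h2
  simp only [Bool.false_or] at h2
  rw [h.chkQ_false hQ hQ8 hvp hl hh] at h2
  exact Bool.noConfusion h2

end Cfsg.Agent.R2.Spec.X7.N6
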