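import Mathlib
import Cfsg.Agent.R2.Spec.X7.N6.E4

/-!
# Box X7, `n = 6`, packet N6-E (helper9): values of cyclotomic polynomials (generated by a script)
-/

set_option autoImplicit false
set_option maxHeartbeats 1000000

namespace Cfsg.Agent.R2.Spec.X7.N6.Cy

/-- the cyclotomic polynomial of index `4` -/
def cy4 (y : ℤ) : ℤ := y ^ 2 + 1

/-- the cyclotomic polynomial of index `5` -/
def cy5 (y : ℤ) : ℤ := y ^ 4 + y ^ 3 + y ^ 2 + y + 1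

/-- the cyclotomic polynomial of index `6` -/
def cy6 (y : ℤ) : ℤ := y ^ 2 - y + 1

/-- the cyclotomic polynomial of index `7` -/
def cy7 (y : ℤ) : ℤ := y ^ 6 + y ^ 5 + y ^ 4 + y ^ 3 + y ^ 2 + y + 1

/-- the cyclotomic polynomial of index `8` -/
def cy8 (y : ℤ) : ℤ := y ^ 4 + 1

/-- the cyclotomic polynomial of index `9` -/
def cy9 (y : ℤ) : ℤ := y ^ 6 + y ^ 3 + 1

/-- the cyclotomic polynomial of index `10` -/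
def cy10 (y : ℤ) : ℤ := y ^ 4 - y ^ 3 + y ^ 2 - y + 1

/-- the cyclotomic polynomial of index `12` -/
def cy12 (y : ℤ) : ℤ := y ^ 4 - y ^ 2 + 1

/-- the cyclotomic polynomial of index `14` -/
def cy14 (y : ℤ) : ℤ := y ^ 6 - y ^ 5 + y ^ 4 - y ^ 3 + y ^ 2 - y + 1

/-- the cyclotomic polynomial of index `15` -/
def cy15 (y : ℤ) : ℤ := y ^ 8 - y ^ 7 + y ^ 5 - y ^ 4 + y ^ 3 - y + 1

/-- the cyclotomic polynomial of index `18` -/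
def cy18 (y : ℤ) : ℤ := y ^ 6 - y ^ 3 + 1

/-- the cyclotomic polynomial of index `20` -/
def cy20 (y : ℤ) : ℤ := y ^ 8 - y ^ 6 + y ^ 4 - y ^ 2 + 1

/-- the cyclotomic polynomial of index `24` -/
def cy24 (y : ℤ) : ℤ := y ^ 8 - y ^ 4 + 1

/-- the cyclotomic polynomial of index `30` -/
def cy30 (y : ℤ) : ℤ := y ^ 8 + y ^ 7 - y ^ 5 - y ^ 4 - y ^ 3 + y + 1

theorem cop7_9 (y : ℤ) : IsCoprime (cy7 y) (cy9 y) :=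
  ⟨y ^ 5 - y ^ 4 + y ^ 3 - y + 1, -y ^ 5 - y ^ 3, by unfold cy7 cy9; ring⟩

theorem cop7_15 (y : ℤ) : IsCoprime (cy7 y) (cy15 y) :=
  ⟨-y ^ 7 + y ^ 5 - y ^ 4 + y ^ 3 - 2 * y + 1, y ^ 5 + 2 * y ^ 4 + 2 * y ^ 3 + 2 * y ^ 2 + y, by unfold cy7 cy15; ring⟩

theorem cop9_15 (y : ℤ) : IsCoprime (cy9 y) (cy15 y) :=
  ⟨y ^ 7 - y ^ 6 - y ^ 3 + y ^ 2, -y ^ 5 + y + 1, by unfold cy9 cy15; ring⟩

theorem cop7_10 (y : ℤ) : IsCoprime (cy7 y) (cy10 y) :=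
  ⟨y ^ 3 - 2 * y ^ 2 + y, -y ^ 5 + y ^ 3 + 1, by unfold cy7 cy10; ring⟩

theorem cop9_10 (y : ℤ) : IsCoprime (cy9 y) (cy10 y) :=
  ⟨-y ^ 3 - y ^ 2 - y, y ^ 5 + 2 * y ^ 4 + 2 * y ^ 3 + 2 * y ^ 2 + 2 * y + 1, by unfold cy9 cy10; ring⟩

theorem cop15_10 (y : ℤ) : IsCoprime (cy15 y) (cy10 y) :=
  ⟨y ^ 2 + y + 1, -y ^ 6 - y ^ 5, by unfold cy15 cy10; ring⟩

theorem cop7_12 (y : ℤ) : IsCoprime (cy7 y) (cy12 y) :=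
  ⟨-2 * y ^ 3 + 2 * y ^ 2 - 1, 2 * y ^ 5 + 2 * y ^ 3 + y ^ 2 + y + 2, by unfold cy7 cy12; ring⟩

theorem cop9_12 (y : ℤ) : IsCoprime (cy9 y) (cy12 y) :=
  ⟨-y ^ 3, y ^ 5 + y ^ 3 + y ^ 2 + 1, by unfold cy9 cy12; ring⟩

theorem cop15_12 (y : ℤ) : IsCoprime (cy15 y) (cy12 y) :=
  ⟨y ^ 3 + 2 * y ^ 2 + y, -y ^ 7 - y ^ 6 - y ^ 4 - y + 1, by unfold cy15 cy12; ring⟩

theorem cop10_12 (y : ℤ) : IsCoprime (cy10 y) (cy12 y) :=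
  ⟨-2 * y ^ 3 - 2 * y ^ 2 + y + 2, 2 * y ^ 3 + y - 1, by unfold cy10 cy12; ring⟩

theorem cop7_5 (y : ℤ) : IsCoprime (cy7 y) (cy5 y) :=
  ⟨-y ^ 3 - y, y ^ 5 + y ^ 3 + 1, by unfold cy7 cy5; ring⟩

theorem cop9_5 (y : ℤ) : IsCoprime (cy9 y) (cy5 y) :=
  ⟨-y ^ 3 - y ^ 2 - y, y ^ 5 + 1, by unfold cy9 cy5; ring⟩

theorem cop7_4 (y : ℤ) : IsCoprime (cy7 y) (cy4 y) :=
  ⟨-y, y ^ 5 + y ^ 4 + y + 1, by unfold cy7 cy4; ring⟩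

theorem cop9_4 (y : ℤ) : IsCoprime (cy9 y) (cy4 y) :=
  ⟨y, -y ^ 5 + y ^ 3 - y ^ 2 - y + 1, by unfold cy9 cy4; ring⟩

theorem cop5_4 (y : ℤ) : IsCoprime (cy5 y) (cy4 y) :=
  ⟨1, -y ^ 2 - y, by unfold cy5 cy4; ring⟩

theorem cop7_6 (y : ℤ) : IsCoprime (cy7 y) (cy6 y) :=
  ⟨1, -y ^ 4 - 2 * y ^ 3 - 2 * y ^ 2 - y, by unfold cy7 cy6; ring⟩

theorem cop9_6 (y : ℤ) : IsCoprime (cy9 y) (cy6 y) :=
  ⟨1, -y ^ 4 - y ^ 3, by unfold cy9 cy6; ring⟩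

theorem cop5_6 (y : ℤ) : IsCoprime (cy5 y) (cy6 y) :=
  ⟨-y, y ^ 3 + 2 * y ^ 2 + 2 * y + 1, by unfold cy5 cy6; ring⟩

theorem cop4_6 (y : ℤ) : IsCoprime (cy4 y) (cy6 y) :=
  ⟨-y + 1, y, by unfold cy4 cy6; ring⟩

theorem odd7 (y : ℤ) : cy7 y % 2 = 1 := by
  have h : y % 2 = 0 ∨ y % 2 = 1 := by omega
  unfold cy7
  rcases h with h | h <;> simp [pow_succ, Int.add_emod, Int.sub_emod, Int.mul_emod, h]

theorem cop7_14 (y : ℤ) : IsCoprime (cy7 y) (cy14 y) :=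
  cop_of_k (α := -y + 1) (β := y + 1) (k := 2 ^ 1) (by unfold cy7 cy14; ring) ((cop2 (odd7 y)).pow_right)

theorem odd9 (y : ℤ) : cy9 y % 2 = 1 := by
  have h : y % 2 = 0 ∨ y % 2 = 1 := by omega
  unfold cy9
  rcases h with h | h <;> simp [pow_succ, Int.add_emod, Int.sub_emod, Int.mul_emod, h]

theorem cop9_18 (y : ℤ) : IsCoprime (cy9 y) (cy18 y) :=
  cop_of_k (α := -y ^ 3 + 1) (β := y ^ 3 + 1) (k := 2 ^ 1) (by unfold cy9 cy18; ring) ((cop2 (odd9 y)).pow_right)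

theorem odd15 (y : ℤ) : cy15 y % 2 = 1 := by
  have h : y % 2 = 0 ∨ y % 2 = 1 := by omega
  unfold cy15
  rcases h with h | h <;> simp [pow_succ, Int.add_emod, Int.sub_emod, Int.mul_emod, h]

theorem cop15_30 (y : ℤ) : IsCoprime (cy15 y) (cy30 y) :=
  cop_of_k (α := -y ^ 7 - y ^ 6 - y ^ 5 + y ^ 2 + y + 1) (β := y ^ 7 - y ^ 6 + y ^ 5 + y ^ 2 - y + 1) (k := 2 ^ 1) (by unfold cy15 cy30; ring) ((cop2 (odd15 y)).pow_right)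

theorem odd5 (y : ℤ) : cy5 y % 2 = 1 := by
  have h : y % 2 = 0 ∨ y % 2 = 1 := by omega
  unfold cy5
  rcases h with h | h <;> simp [pow_succ, Int.add_emod, Int.sub_emod, Int.mul_emod, h]

theorem cop5_10 (y : ℤ) : IsCoprime (cy5 y) (cy10 y) :=
  cop_of_k (α := -y + 1) (β := y + 1) (k := 2 ^ 1) (by unfold cy5 cy10; ring) ((cop2 (odd5 y)).pow_right)

theorem sq7 (u : ℤ) : cy7 u * cy14 u = cy7 (u ^ 2) := by unfold cy7 cy14; ring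

theorem sq9 (u : ℤ) : cy9 u * cy18 u = cy9 (u ^ 2) := by unfold cy9 cy18; ring

theorem sq15 (u : ℤ) : cy15 u * cy30 u = cy15 (u ^ 2) := by unfold cy15 cy30; ring

theorem sq5 (u : ℤ) : cy5 u * cy10 u = cy5 (u ^ 2) := by unfold cy5 cy10; ring

theorem sq20 (u : ℤ) : cy20 u = cy10 (u ^ 2) := by unfold cy20 cy10; ring

theorem sq24 (u : ℤ) : cy24 u = cy12 (u ^ 2) := by unfold cy24 cy12; ring

theorem sq8 (u : ℤ) : cy8 u = cy4 (u ^ 2) := by unfold cy8 cy4; ring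

theorem sq12 (u : ℤ) : cy12 u = cy6 (u ^ 2) := by unfold cy12 cy6; ring

/-- the product of the orders of `E₈(u)` -/
theorem e8_dvd {N u : ℤ} (h7 : cy7 u ∣ N) (h14 : cy14 u ∣ N) (h9 : cy9 u ∣ N) (h18 : cy18 u ∣ N) (h15 : cy15 u ∣ N)
    (h30 : cy30 u ∣ N) (h20 : cy20 u ∣ N) (h24 : cy24 u ∣ N) :
    cy7 (u ^ 2) * cy9 (u ^ 2) * cy15 (u ^ 2) * cy10 (u ^ 2) * cy12 (u ^ 2) ∣ N := by
  have a7 := (cop7_14 u).mul_dvd h7 h14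
  have a9 := (cop9_18 u).mul_dvd h9 h18
  have a15 := (cop15_30 u).mul_dvd h15 h30
  rw [sq7] at a7
  rw [sq9] at a9
  rw [sq15] at a15
  rw [sq20] at h20
  rw [sq24] at h24
  have b1 := (cop7_9 (u ^ 2)).mul_dvd a7 a9
  have b2 := ((cop7_15 (u ^ 2)).mul_left (cop9_15 (u ^ 2))).mul_dvd b1 a15
  have b3 := (((cop7_10 (u ^ 2)).mul_left (cop9_10 (u ^ 2))).mul_left (cop15_10 (u ^ 2))).mul_dvd b2 h20
  exact ((((cop7_12 (u ^ 2)).mul_left (cop9_12 (u ^ 2))).mul_left (cop15_12 (u ^ 2))).mul_left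
    (cop10_12 (u ^ 2))).mul_dvd b3 h24

/-- the product of the orders of `E₇(u)` -/
theorem e7_dvd {N u : ℤ} (h7 : cy7 u ∣ N) (h14 : cy14 u ∣ N) (h9 : cy9 u ∣ N) (h18 : cy18 u ∣ N) (h5 : cy5 u ∣ N)
    (h10 : cy10 u ∣ N) (h8 : cy8 u ∣ N) (h12 : cy12 u ∣ N) :
    cy7 (u ^ 2) * cy9 (u ^ 2) * cy5 (u ^ 2) * cy4 (u ^ 2) * cy6 (u ^ 2) ∣ N := by
  have a7 := (cop7_14 u).mul_dvd h7 h14
  have a9 := (cop9_18 u).mul_dvd h9 h18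
  have a5 := (cop5_10 u).mul_dvd h5 h10
  rw [sq7] at a7
  rw [sq9] at a9
  rw [sq5] at a5
  rw [sq8] at h8
  rw [sq12] at h12
  have b1 := (cop7_9 (u ^ 2)).mul_dvd a7 a9
  have b2 := ((cop7_5 (u ^ 2)).mul_left (cop9_5 (u ^ 2))).mul_dvd b1 a5
  have b3 := (((cop7_4 (u ^ 2)).mul_left (cop9_4 (u ^ 2))).mul_left (cop5_4 (u ^ 2))).mul_dvd b2 h8
  exact ((((cop7_6 (u ^ 2)).mul_left (cop9_6 (u ^ 2))).mul_left (cop5_6 (u ^ 2))).mul_left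
    (cop4_6 (u ^ 2))).mul_dvd b3 h12

end Cfsg.Agent.R2.Spec.X7.N6.Cy
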