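import Cfsg.Agent.R2.Spec.X7.N6.EB
import Cfsg.Agent.R2.Spec.X7.N6.ECy
import Cfsg.Agent.H437.Iso.Untw
import Cfsg.Agent.H378.AdjE7
import Cfsg.Agent.H378.AdjE8
import Cfsg.Agent.H426.LieFam

/-!
# Box X7, `n = 6`, packet N6-E (helper9): `S = E₈(u)`, `S = E₇(u)`
-/

set_option autoImplicit false
set_option maxHeartbeats 1000000

namespace Cfsg.Agent.R2.Spec.X7.N6

open CoxeterSystem Cfsg Cfsg.Lie Cfsg.Lie.ChevalleyDatum
open Cfsg.Agent.ChevalleyStructure.CoxeterGeom Cfsg.Agent.ChevalleyStructure.CoxeterGeomTypes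
open Cfsg.Agent.BpExc.FamInst Cfsg.Agent.BpExc.RowsUntw Cfsg.Agent.Nodes.RGDChev Cfsg.Agent.BpExc.FamExt
open Cfsg.Agent.H378.AdjTab Cfsg.Agent.H378.CycTab Cfsg.Agent.H378.ExcAdj
open Cfsg.Agent.H493.PGTorus Cfsg.Agent.H129.WData Cfsg.Agent.H437.Iso
open Cfsg.Agent.R2.Spec.X7.N6.Cy

universe u

theorem ht_E8 : ∀ r < chevE8.nroots, Tits.Roots.ht (vec chevE8 8 r) < 30 := by
  unfold Tits.Roots.ht vec; decide +kernel

theorem ht_E7 : ∀ r < chevE7.nroots, Tits.Roots.ht (vec chevE7 7 r) < 18 := by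
  unfold Tits.Roots.ht vec; decide +kernel

section

variable {F : Type u} [Field F] [Finite F] {v : ℕ} [Fact v.Prime] [CharP F v]

theorem e8_bound (x : ↥(chevE8.group F)) :
    ∃ b m : ℕ, orderOf x = v ^ b * m ∧ ¬ v ∣ m ∧ m ≤ (Nat.card F + 1) ^ 8 ∧ (b ≠ 0 → v ^ (b - 1) < 30) := by
  let cs : CoxeterSystem CoxeterMatrix.E₈ CoxeterMatrix.E₈.Group := CoxeterMatrix.E₈.toCoxeterSystem
  have := finite_W e8T cs
  refine EB.order_bound e8T cs (fun a ha => ?_) x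
  obtain ⟨r, hr, rfl⟩ := (isRoot_iff e8T cs a).1 ha
  exact_mod_cast ht_E8 r hr

theorem e7_bound (x : ↥(chevE7.group F)) :
    ∃ b m : ℕ, orderOf x = v ^ b * m ∧ ¬ v ∣ m ∧ m ≤ (Nat.card F + 1) ^ 7 ∧ (b ≠ 0 → v ^ (b - 1) < 18) := by
  let cs : CoxeterSystem CoxeterMatrix.E₇ CoxeterMatrix.E₇.Group := CoxeterMatrix.E₇.toCoxeterSystem
  have := finite_W e7T cs
  refine EB.order_bound e7T cs (fun a ha => ?_) x
  obtain ⟨r, hr, rfl⟩ := (isRoot_iff e7T cs a).1 ha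
  exact_mod_cast ht_E7 r hr

end

section

variable {F : Type u} [Field F] [Finite F]

theorem e8_ord {L : List (Fin 8 × Mat 8)} (hL : ChainOK H378.AdjE8.Am L)
    {f : ℕ} {c : Fin (f + 1) → ℤ} {V : Fin (f + 1) → Fin 8 → ℤ} {U : Fin 8 → ℤ} (h : EigOK (hd L) c V U)
    {m : ℕ} (hm : 0 < m) (hdv : (m : ℤ) = pv c (Nat.card F : ℕ)) : ∃ x : ↥(chevE8.group F), orderOf x = m := by
  let cs : CoxeterSystem CoxeterMatrix.E₈ CoxeterMatrix.E₈.Group := CoxeterMatrix.E₈.toCoxeterSystem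
  have := finite_W e8T cs
  exact exists_order_one e8T cs inv_E8 H378.AdjE8.hA hL h hm (dvd_of_eq hdv)

theorem e7_ord {L : List (Fin 7 × Mat 7)} (hL : ChainOK H378.AdjE7.Am L)
    {f : ℕ} {c : Fin (f + 1) → ℤ} {V : Fin (f + 1) → Fin 7 → ℤ} {U : Fin 7 → ℤ} (h : EigOK (hd L) c V U)
    {m : ℕ} (hm : 0 < m) (hdv : (m : ℤ) = pv c (Nat.card F : ℕ)) :
    ∃ x : ↥(chevE7.group F), m ∣ orderOf x * Nat.gcd 2 (Nat.card F - 1) := by
  let cs : CoxeterSystem CoxeterMatrix.E₇ CoxeterMatrix.E₇.Group := CoxeterMatrix.E₇.toCoxeterSystem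
  have := finite_W e7T cs
  obtain ⟨x, -, -, h1, -⟩ := exists_comm_torus e7T cs inv_E7 two_ne_zero H378.AdjE7.hA hL h h (F := F) hm hm
    (dvd_of_eq hdv) (dvd_of_eq hdv)
  exact ⟨x, h1⟩

end

/-! ### lower bounds -/

theorem low_E8 {y : ℤ} (hy : 4 ≤ y) : 135 * y ^ 28 ≤ 256 * (cy7 y * cy9 y * cy15 y * cy10 y * cy12 y) := by
  have hy0 : 0 ≤ y := by linarith
  have p1 : ∀ n : ℕ, 0 ≤ y ^ n := fun n => pow_nonneg hy0 n
  have p2 : ∀ n : ℕ, 4 * y ^ n ≤ y ^ (n + 1) := fun n => by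
    rw [pow_succ]
    nlinarith [p1 n]
  have k1 : y ^ 6 ≤ cy7 y := by
    unfold cy7
    linarith [p1 5, p1 4, p1 3, p1 2]
  have k2 : y ^ 6 ≤ cy9 y := by
    unfold cy9
    linarith [p1 3]
  have k3 : 3 * y ^ 8 ≤ 4 * cy15 y := by
    unfold cy15
    have h2 := p2 7
    have h3 := p2 4
    have h4 := p2 2
    have h5 := p2 1
    norm_num at h2 h3 h4 h5
    linarith [p1 4, p1 2]
  have k4 : 3 * y ^ 4 ≤ 4 * cy10 y := by
    unfold cy10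
    have h2 := p2 3
    have h3 := p2 1
    norm_num at h2 h3
    linarith [p1 2]
  have k5 : 15 * y ^ 4 ≤ 16 * cy12 y := by
    unfold cy12
    have h2 := p2 3
    have h3 := p2 2
    norm_num at h2 h3
    linarith
  have z1 := p1 6
  have z3 : 0 ≤ 3 * y ^ 8 := by linarith [p1 8]
  have z4 : 0 ≤ 3 * y ^ 4 := by linarith [p1 4]
  have z5 : 0 ≤ 15 * y ^ 4 := by linarith [p1 4]
  have m1 := mul_le_mul k1 k2 z1 (z1.trans k1)
  have m2 := mul_le_mul m1 k3 z3 (mul_nonneg (z1.trans k1) (z1.trans k2))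
  have m3 := mul_le_mul m2 k4 z4 (mul_nonneg (mul_nonneg (z1.trans k1) (z1.trans k2)) (z3.trans k3))
  have m4 := mul_le_mul m3 k5 z5
    (mul_nonneg (mul_nonneg (mul_nonneg (z1.trans k1) (z1.trans k2)) (z3.trans k3)) (z4.trans k4))
  linarith

theorem low_E7 {y : ℤ} (hy : 4 ≤ y) : 3 * y ^ 20 ≤ 4 * (cy7 y * cy9 y * cy5 y * cy4 y * cy6 y) := by
  have hy0 : 0 ≤ y := by linarith
  have p1 : ∀ n : ℕ, 0 ≤ y ^ n := fun n => pow_nonneg hy0 n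
  have k1 : y ^ 6 ≤ cy7 y := by
    unfold cy7
    linarith [p1 5, p1 4, p1 3, p1 2]
  have k2 : y ^ 6 ≤ cy9 y := by
    unfold cy9
    linarith [p1 3]
  have k3 : y ^ 4 ≤ cy5 y := by
    unfold cy5
    linarith [p1 3, p1 2]
  have k4 : y ^ 2 ≤ cy4 y := by
    unfold cy4
    linarith
  have k5 : 3 * y ^ 2 ≤ 4 * cy6 y := by
    unfold cy6
    nlinarith
  have z1 := p1 6
  have z3 := p1 4
  have z4 := p1 2
  have z5 : 0 ≤ 3 * y ^ 2 := by linarith [p1 2]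
  have m1 := mul_le_mul k1 k2 z1 (z1.trans k1)
  have m2 := mul_le_mul m1 k3 z3 (mul_nonneg (z1.trans k1) (z1.trans k2))
  have m3 := mul_le_mul m2 k4 z4 (mul_nonneg (mul_nonneg (z1.trans k1) (z1.trans k2)) (z3.trans k3))
  have m4 := mul_le_mul m3 k5 z5
    (mul_nonneg (mul_nonneg (mul_nonneg (z1.trans k1) (z1.trans k2)) (z3.trans k3)) (z4.trans k4))
  linarith

section

variable {p q : ℕ} {s : ℤ} {c c5 M : ℕ} {W : ℕ → Prop} {v u' : ℕ}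

/-- `b ≤ 2` -/
theorem SW.split (h : SW p q s c c5 M W) (hv : v.Prime) (hvu : v ≤ u') {b m B : ℕ} (hM : M = v ^ b * m) (hm : m ≤ B)
    (hb : b ≠ 0 → v ^ (b - 1) < 30) : M ≤ B ∨ 11 ≤ u' ∧ M ≤ u' ^ 2 * B := by
  by_cases hb0 : b = 0
  · left
    rw [hM, hb0, pow_zero, one_mul]
    exact hm
  · right
    have h11 : 11 ≤ v := h.n.prime_geE hv (by rw [hM]; exact (dvd_pow_self v hb0).mul_right _)
    refine ⟨h11.trans hvu, ?_⟩
    have h1 := hb hb0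
    have hb2 : b ≤ 2 := by
      by_contra hcon
      have h2 : v ^ 2 ≤ v ^ (b - 1) := Nat.pow_le_pow_right hv.pos (by omega)
      have h3 : 11 ^ 2 ≤ v ^ 2 := Nat.pow_le_pow_left h11 2
      omega
    have h2 : v ^ b ≤ u' ^ 2 := (Nat.pow_le_pow_right hv.pos hb2).trans (Nat.pow_le_pow_left hvu 2)
    rw [hM]
    exact Nat.mul_le_mul h2 hm

theorem SW.e8_kill (h : SW p q s c c5 M W) (hv : v.Prime) (hvu : v ≤ u') {b m : ℕ} (hM : M = v ^ b * m)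
    (hm : m ≤ (u' + 1) ^ 8) (hb : b ≠ 0 → v ^ (b - 1) < 30)
    (hX : cy7 ((u' : ℤ) ^ 2) * cy9 ((u' : ℤ) ^ 2) * cy15 ((u' : ℤ) ^ 2) * cy10 ((u' : ℤ) ^ 2) * cy12 ((u' : ℤ) ^ 2) ∣ PI p s) :
    False := by
  have hu2 : 2 ≤ u' := hv.two_le.trans hvu
  have hy : (4 : ℤ) ≤ (u' : ℤ) ^ 2 := by
    have : (2 : ℤ) ^ 2 ≤ (u' : ℤ) ^ 2 := by
      have : (2 : ℤ) ≤ u' := by exact_mod_cast hu2
      gcongr
    linarith
  have hlow := low_E8 hy
  rw [← pow_mul] at hlow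
  norm_num at hlow
  set X := cy7 ((u' : ℤ) ^ 2) * cy9 ((u' : ℤ) ^ 2) * cy15 ((u' : ℤ) ^ 2) * cy10 ((u' : ℤ) ^ 2) * cy12 ((u' : ℤ) ^ 2) with hXd
  have hXpos : 0 < X := by
    have h1 : (0 : ℤ) < (u' : ℤ) ^ 56 := by
      have : (0 : ℤ) < u' := by exact_mod_cast (by omega : 0 < u')
      positivity
    linarith
  obtain ⟨X', hX'⟩ : ∃ X' : ℕ, (X' : ℤ) = X := ⟨X.toNat, Int.toNat_of_nonneg hXpos.le⟩
  rw [← hX'] at hlow hX
  have hlow' : 135 * u' ^ 56 ≤ 256 * X' := by exact_mod_cast hlow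
  have hXk : (X' : ℤ) ∣ (1 : ℕ) * PI p s := by rw [Nat.cast_one, one_mul]; exact hX
  rcases h.split hv hvu hM hm hb with h1 | ⟨h11, h1⟩
  · refine h.n.killE one_pos hXk (a1 := 256) (a2 := 135) (b1 := 256) (b2 := 6561) (d := 56) (e := 8) (r := 120) (u := u')
      (by omega) hlow' ?_ (by norm_num) ?_
    · have h2 : 2 * (u' + 1) ≤ 3 * u' := by omega
      calc 256 * M ≤ 256 * (u' + 1) ^ 8 := Nat.mul_le_mul_left _ h1
        _ = (2 * (u' + 1)) ^ 8 := by ring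
        _ ≤ (3 * u') ^ 8 := Nat.pow_le_pow_left h2 8
        _ = 6561 * u' ^ 8 := by ring
    · have h2 : 2 ^ 120 ≤ u' ^ 120 := Nat.pow_le_pow_left hu2 120
      calc 256 ^ 4 * 1 ^ 4 * (50 ^ 4 * 45 ^ 9) * 6561 ^ 13 < 81 * 8 ^ 9 * 135 ^ 4 * 256 ^ 13 * 2 ^ 120 := by norm_num
        _ ≤ 81 * 8 ^ 9 * 135 ^ 4 * 256 ^ 13 * u' ^ 120 := Nat.mul_le_mul_left _ h2
  · refine h.n.killE one_pos hXk (a1 := 256) (a2 := 135) (b1 := 11 ^ 8) (b2 := 12 ^ 8) (d := 56) (e := 10) (r := 94)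
      (u := u') (by omega) hlow' ?_ (by norm_num) ?_
    · have h2 : 11 * (u' + 1) ≤ 12 * u' := by omega
      calc 11 ^ 8 * M ≤ 11 ^ 8 * (u' ^ 2 * (u' + 1) ^ 8) := Nat.mul_le_mul_left _ h1
        _ = u' ^ 2 * (11 * (u' + 1)) ^ 8 := by ring
        _ ≤ u' ^ 2 * (12 * u') ^ 8 := Nat.mul_le_mul_left _ (Nat.pow_le_pow_left h2 8)
        _ = 12 ^ 8 * u' ^ 10 := by ring
    · have h2 : 11 ^ 94 ≤ u' ^ 94 := Nat.pow_le_pow_left h11 94
      calc 256 ^ 4 * 1 ^ 4 * (50 ^ 4 * 45 ^ 9) * (12 ^ 8) ^ 13 < 81 * 8 ^ 9 * 135 ^ 4 * (11 ^ 8) ^ 13 * 11 ^ 94 := by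
            norm_num
        _ ≤ 81 * 8 ^ 9 * 135 ^ 4 * (11 ^ 8) ^ 13 * u' ^ 94 := Nat.mul_le_mul_left _ h2

theorem SW.e7_kill (h : SW p q s c c5 M W) (hv : v.Prime) (hvu : v ≤ u') (hu3 : 3 ≤ u') {b m : ℕ} (hM : M = v ^ b * m)
    (hm : m ≤ (u' + 1) ^ 7) (hb : b ≠ 0 → v ^ (b - 1) < 30)
    (hX : cy7 ((u' : ℤ) ^ 2) * cy9 ((u' : ℤ) ^ 2) * cy5 ((u' : ℤ) ^ 2) * cy4 ((u' : ℤ) ^ 2) * cy6 ((u' : ℤ) ^ 2) ∣
      2 * PI p s) : False := by
  have hy : (4 : ℤ) ≤ (u' : ℤ) ^ 2 := by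
    have : (2 : ℤ) ^ 2 ≤ (u' : ℤ) ^ 2 := by
      have : (2 : ℤ) ≤ u' := by exact_mod_cast (by omega : 2 ≤ u')
      gcongr
    linarith
  have hlow := low_E7 hy
  rw [← pow_mul] at hlow
  norm_num at hlow
  set X := cy7 ((u' : ℤ) ^ 2) * cy9 ((u' : ℤ) ^ 2) * cy5 ((u' : ℤ) ^ 2) * cy4 ((u' : ℤ) ^ 2) * cy6 ((u' : ℤ) ^ 2) with hXd
  have hXpos : 0 < X := by
    have h1 : (0 : ℤ) < (u' : ℤ) ^ 40 := by
      have : (0 : ℤ) < u' := by exact_mod_cast (by omega : 0 < u')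
      positivity
    linarith
  obtain ⟨X', hX'⟩ : ∃ X' : ℕ, (X' : ℤ) = X := ⟨X.toNat, Int.toNat_of_nonneg hXpos.le⟩
  rw [← hX'] at hlow hX
  have hlow' : 3 * u' ^ 40 ≤ 4 * X' := by exact_mod_cast hlow
  have hXk : (X' : ℤ) ∣ (2 : ℕ) * PI p s := hX
  rcases h.split hv hvu hM hm hb with h1 | ⟨h11, h1⟩
  · refine h.n.killE two_pos hXk (a1 := 4) (a2 := 3) (b1 := 3 ^ 7) (b2 := 4 ^ 7) (d := 40) (e := 7) (r := 69) (u := u')
      (by omega) hlow' ?_ (by norm_num) ?_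
    · have h2 : 3 * (u' + 1) ≤ 4 * u' := by omega
      calc 3 ^ 7 * M ≤ 3 ^ 7 * (u' + 1) ^ 7 := Nat.mul_le_mul_left _ h1
        _ = (3 * (u' + 1)) ^ 7 := by ring
        _ ≤ (4 * u') ^ 7 := Nat.pow_le_pow_left h2 7
        _ = 4 ^ 7 * u' ^ 7 := by ring
    · have h2 : 3 ^ 69 ≤ u' ^ 69 := Nat.pow_le_pow_left hu3 69
      calc 4 ^ 4 * 2 ^ 4 * (50 ^ 4 * 45 ^ 9) * (4 ^ 7) ^ 13 < 81 * 8 ^ 9 * 3 ^ 4 * (3 ^ 7) ^ 13 * 3 ^ 69 := by norm_num
        _ ≤ 81 * 8 ^ 9 * 3 ^ 4 * (3 ^ 7) ^ 13 * u' ^ 69 := Nat.mul_le_mul_left _ h2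
  · refine h.n.killE two_pos hXk (a1 := 4) (a2 := 3) (b1 := 11 ^ 7) (b2 := 12 ^ 7) (d := 40) (e := 9) (r := 43)
      (u := u') (by omega) hlow' ?_ (by norm_num) ?_
    · have h2 : 11 * (u' + 1) ≤ 12 * u' := by omega
      calc 11 ^ 7 * M ≤ 11 ^ 7 * (u' ^ 2 * (u' + 1) ^ 7) := Nat.mul_le_mul_left _ h1
        _ = u' ^ 2 * (11 * (u' + 1)) ^ 7 := by ring
        _ ≤ u' ^ 2 * (12 * u') ^ 7 := Nat.mul_le_mul_left _ (Nat.pow_le_pow_left h2 7)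
        _ = 12 ^ 7 * u' ^ 9 := by ring
    · have h2 : 11 ^ 43 ≤ u' ^ 43 := Nat.pow_le_pow_left h11 43
      calc 4 ^ 4 * 2 ^ 4 * (50 ^ 4 * 45 ^ 9) * (12 ^ 7) ^ 13 < 81 * 8 ^ 9 * 3 ^ 4 * (11 ^ 7) ^ 13 * 11 ^ 43 := by
            norm_num
        _ ≤ 81 * 8 ^ 9 * 3 ^ 4 * (11 ^ 7) ^ 13 * u' ^ 43 := Nat.mul_le_mul_left _ h2

end

/-! ### the rows -/

section

variable {p q : ℕ} {s : ℤ} {c c5 M : ℕ}

open Cfsg.Agent.H426.LieFam in
theorem not_e8 {S : Type*} [Group S] [Finite S] (hS : Sec p q s c c5 M S) {v f : ℕ} (hI : Fam.Is v f S Fam.e8)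
    (hv : v.Prime) : False := by
  have h := hS.sw
  obtain ⟨F, _, _, _, hcard, ⟨e⟩⟩ := hI
  have hvf : Fact v.Prime := ⟨hv⟩
  have hN : Nat.card F = v ^ f := by rw [Nat.card_eq_fintype_card, hcard]
  have hf : f ≠ 0 := by
    intro h0
    rw [h0, pow_zero] at hcard
    have := Fintype.one_lt_card (α := F)
    omega
  have hvu : v ≤ Nat.card F := by rw [hN]; exact Nat.le_self_pow hf v
  have hu2 : (2 : ℤ) ≤ ((Nat.card F : ℕ) : ℤ) := by exact_mod_cast hv.two_le.trans hvu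
  obtain ⟨x, hx⟩ := hS.elt
  obtain ⟨b, m, h1, -, h2, h3⟩ := e8_bound (v := v) (e x)
  rw [MulEquiv.orderOf_eq, hx] at h1
  set U : ℤ := ((Nat.card F : ℕ) : ℤ) with hU
  have key : ∀ {P : ℤ}, 0 < P → (∀ m : ℕ, 0 < m → (m : ℤ) = P → ∃ x : ↥(chevE8.group F), orderOf x = m) → P ∣ PI p s := by
    intro P hP hex
    obtain ⟨y, hy⟩ := hex P.toNat (by omega) (Int.toNat_of_nonneg hP.le)
    have h4 := h.dvd_PI (E := P.toNat) ⟨e.symm y, by rw [MulEquiv.orderOf_eq]; exact hy⟩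
    rwa [Int.toNat_of_nonneg hP.le] at h4
  obtain ⟨t, ht, ht0⟩ : ∃ t : ℤ, U = t + 2 ∧ 0 ≤ t := ⟨U - 2, by ring, by linarith⟩
  refine h.e8_kill hv hvu h1 h2 h3 (e8_dvd ?_ ?_ ?_ ?_ ?_ ?_ ?_ ?_)
  · refine key (by unfold cy7; rw [← hU, ht]; ring_nf; positivity) fun m hm hd => ?_
    exact e8_ord H378.AdjE8.row7.1 H378.AdjE8.row7.2.2 hm (by rw [hd, pv7]; rfl)
  · refine key (by unfold cy14; rw [← hU, ht]; ring_nf; positivity) fun m hm hd => ?_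
    exact e8_ord H378.AdjE8.row14.1 H378.AdjE8.row14.2.2 hm (by rw [hd, pv14]; rfl)
  · refine key (by unfold cy9; rw [← hU, ht]; ring_nf; positivity) fun m hm hd => ?_
    exact e8_ord H378.AdjE8.row9.1 H378.AdjE8.row9.2.2 hm (by rw [hd, pv9]; rfl)
  · refine key (by unfold cy18; rw [← hU, ht]; ring_nf; positivity) fun m hm hd => ?_
    exact e8_ord H378.AdjE8.row18.1 H378.AdjE8.row18.2.2 hm (by rw [hd, pv18]; rfl)
  · refine key (by unfold cy15; rw [← hU, ht]; ring_nf; positivity) fun m hm hd => ?_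
    exact e8_ord H378.AdjE8.chain15 H378.AdjE8.tor15_15 hm (by rw [hd, pv15]; rfl)
  · refine key (by unfold cy30; rw [← hU, ht]; ring_nf; positivity) fun m hm hd => ?_
    exact e8_ord H378.AdjE8.chain30 H378.AdjE8.tor30_30 hm (by rw [hd, pv30]; rfl)
  · refine key (by unfold cy20; rw [← hU, ht]; ring_nf; positivity) fun m hm hd => ?_
    exact e8_ord H378.AdjE8.chain20 H378.AdjE8.tor20_20 hm (by rw [hd, pv20]; rfl)
  · refine key (by unfold cy24; rw [← hU, ht]; ring_nf; positivity) fun m hm hd => ?_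
    exact e8_ord H378.AdjE8.chain24 H378.AdjE8.tor24_24 hm (by rw [hd, pv24]; rfl)

theorem chkE7 : chkQ 10 2 [127, 43, 73, 57, 31, 11, 17, 13] [0] = true := by decide +kernel

open Cfsg.Agent.H426.LieFam in
theorem not_e7 {S : Type*} [Group S] [Finite S] (hS : Sec p q s c c5 M S) {v f : ℕ} (hI : Fam.Is v f S Fam.e7)
    (hv : v.Prime) (hvp : v ≠ p) : False := by
  have h := hS.sw
  obtain ⟨F, _, _, _, hcard, ⟨e⟩⟩ := hI
  have hvf : Fact v.Prime := ⟨hv⟩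
  have hN : Nat.card F = v ^ f := by rw [Nat.card_eq_fintype_card, hcard]
  have hf : f ≠ 0 := by
    intro h0
    rw [h0, pow_zero] at hcard
    have := Fintype.one_lt_card (α := F)
    omega
  have hvu : v ≤ Nat.card F := by rw [hN]; exact Nat.le_self_pow hf v
  have hu2 : (2 : ℤ) ≤ ((Nat.card F : ℕ) : ℤ) := by exact_mod_cast hv.two_le.trans hvu
  obtain ⟨x, hx⟩ := hS.elt
  obtain ⟨b, m, h1, -, h2, h3⟩ := e7_bound (v := v) (e x)
  rw [MulEquiv.orderOf_eq, hx] at h1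
  set U : ℤ := ((Nat.card F : ℕ) : ℤ) with hU
  have hex : ∀ {P : ℤ} {m : ℕ}, (m : ℤ) = P → (∃ x : ↥(chevE7.group F), m ∣ orderOf x * Nat.gcd 2 (Nat.card F - 1)) →
      P ∣ 2 * PI p s := by
    rintro P m rfl ⟨y, hy⟩
    have h4 := h.dvd_PI (E := orderOf (e.symm y)) ⟨e.symm y, rfl⟩
    rw [MulEquiv.orderOf_eq] at h4
    have h5 : ((orderOf y * Nat.gcd 2 (Nat.card F - 1) : ℕ) : ℤ) ∣ PI p s * 2 := by
      push_cast
      refine mul_dvd_mul h4 ?_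
      exact_mod_cast Nat.gcd_dvd_left 2 (Nat.card F - 1)
    rw [mul_comm 2]
    exact (Int.natCast_dvd_natCast.mpr hy).trans h5
  obtain ⟨t, ht, ht0⟩ : ∃ t : ℤ, U = t + 2 ∧ 0 ≤ t := ⟨U - 2, by ring, by linarith⟩
  have hnn : ∀ {P : ℤ}, 0 < P → ∃ m : ℕ, 0 < m ∧ (m : ℤ) = P := fun {P} hP =>
    ⟨P.toNat, by omega, Int.toNat_of_nonneg hP.le⟩
  obtain ⟨m7, p7, e7⟩ := hnn (P := cy7 U) (by unfold cy7; rw [ht]; ring_nf; positivity)
  obtain ⟨m14, p14, e14⟩ := hnn (P := cy14 U) (by unfold cy14; rw [ht]; ring_nf; positivity)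
  obtain ⟨m9, p9, e9⟩ := hnn (P := cy9 U) (by unfold cy9; rw [ht]; ring_nf; positivity)
  obtain ⟨m18, p18, e18⟩ := hnn (P := cy18 U) (by unfold cy18; rw [ht]; ring_nf; positivity)
  obtain ⟨m5, p5, e5⟩ := hnn (P := cy5 U) (by unfold cy5; rw [ht]; ring_nf; positivity)
  obtain ⟨m10, p10, e10⟩ := hnn (P := cy10 U) (by unfold cy10; rw [ht]; ring_nf; positivity)
  obtain ⟨m8, p8, e8⟩ := hnn (P := cy8 U) (by unfold cy8; rw [ht]; ring_nf; positivity)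
  obtain ⟨m12, p12, e12⟩ := hnn (P := cy12 U) (by unfold cy12; rw [ht]; ring_nf; positivity)
  have x7 := e7_ord (F := F) H378.AdjE7.chain7 H378.AdjE7.tor7_7 p7 (by rw [e7, pv7]; rfl)
  have x14 := e7_ord (F := F) H378.AdjE7.chain14 H378.AdjE7.tor14_14 p14 (by rw [e14, pv14]; rfl)
  have x9 := e7_ord (F := F) H378.AdjE7.chain9 H378.AdjE7.tor9_9 p9 (by rw [e9, pv9]; rfl)
  have x18 := e7_ord (F := F) H378.AdjE7.chain18 H378.AdjE7.tor18_18 p18 (by rw [e18, pv18]; rfl)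
  have x5 := e7_ord (F := F) H378.AdjE7.row5.1 H378.AdjE7.row5.2.2 p5 (by rw [e5, pv5]; rfl)
  have x10 := e7_ord (F := F) H378.AdjE7.row10.1 H378.AdjE7.row10.2.2 p10 (by rw [e10, pv10]; rfl)
  have x8 := e7_ord (F := F) H378.AdjE7.row8.1 H378.AdjE7.row8.2.2 p8 (by rw [e8, pv8]; rfl)
  have x12 := e7_ord (F := F) H378.AdjE7.chain12 H378.AdjE7.tor12_12 p12 (by rw [e12, pv12]; rfl)
  by_cases hu3 : 3 ≤ Nat.card F
  · exact h.e7_kill hv hvu hu3 h1 h2 (fun hb => (h3 hb).trans (by norm_num)) (e7_dvd (hex e7 x7) (hex e14 x14)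
      (hex e9 x9) (hex e18 x18) (hex e5 x5) (hex e10 x10) (hex e8 x8) (hex e12 x12))
  · have hu : Nat.card F = 2 := by
      have := hv.two_le.trans hvu
      omega
    have hv2 : v = 2 := by
      have := hv.two_le
      omega
    have hM : M ≤ 3 ^ 7 := by
      rcases h.split hv hvu h1 h2 (fun hb => (h3 hb).trans (by norm_num)) with h4 | ⟨h4, -⟩
      · rw [hu] at h4
        exact h4
      · omega
    have hq : q ≤ 10 := by
      by_contra hcon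
      have k1 := h.n.M_lo
      have k2 : 11 ^ 4 ≤ q ^ 4 := Nat.pow_le_pow_left (by omega) 4
      omega
    have hU2 : U = 2 := by rw [hU, hu]; norm_num
    have hone : Nat.gcd 2 (Nat.card F - 1) = 1 := by rw [hu]; norm_num
    have hW : ∀ {m n : ℕ}, m = n → (∃ x : ↥(chevE7.group F), m ∣ orderOf x * Nat.gcd 2 (Nat.card F - 1)) →
        ∃ x : S, orderOf x = n := by
      rintro m n rfl ⟨y, hy⟩
      rw [hone, mul_one] at hy
      exact h.mono _ _ hy ⟨e.symm y, MulEquiv.orderOf_eq _ _⟩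
    rw [hU2] at e7 e14 e9 e18 e5 e10 e8 e12
    norm_num [cy7] at e7
    norm_num [cy14] at e14
    norm_num [cy9] at e9
    norm_num [cy18] at e18
    norm_num [cy5] at e5
    norm_num [cy10] at e10
    norm_num [cy8] at e8
    norm_num [cy12] at e12
    have h4 := h.chkQ_false (Q := 10) (v := 2) (low := [127, 43, 73, 57, 31, 11, 17, 13]) (hit := [0]) hq (by norm_num)
      (by rw [← hv2]; exact hvp) (by
        intro E hE
        simp only [List.mem_cons, List.not_mem_nil, or_false] at hE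
        rcases hE with rfl | rfl | rfl | rfl | rfl | rfl | rfl | rfl
        · exact hW (by exact_mod_cast e7) x7
        · exact hW (by exact_mod_cast e14) x14
        · exact hW (by exact_mod_cast e9) x9
        · exact hW (by exact_mod_cast e18) x18
        · exact hW (by exact_mod_cast e5) x5
        · exact hW (by exact_mod_cast e10) x10
        · exact hW (by exact_mod_cast e8) x8
        · exact hW (by exact_mod_cast e12) x12) ⟨0, List.mem_singleton.mpr rfl, dvd_zero M⟩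
    rw [chkE7] at h4
    exact Bool.noConfusion h4

end

end Cfsg.Agent.R2.Spec.X7.N6
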