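import Mathlib
import Cfsg.Agent.R2.Spec.X7.N6.EB
import Cfsg.Agent.R2.Spec.X7.N6.E4
import Cfsg.Agent.H448.FprCent.SteTor
import Cfsg.Agent.R2.Spec.X1.TRc.TwF4

/-!
# Box X7, `n = 6`, packet N6-E (helper9): `S = ²F₄(u)`
-/

set_option autoImplicit false
set_option linter.unusedSectionVars false
set_option maxHeartbeats 1000000

namespace Cfsg.Agent.R2.Spec.X7.N6

section Bound

open CoxeterSystem Subgroup Cfsg Cfsg.Lie Cfsg.Lie.ChevalleyDatum
open Cfsg.Agent.ChevalleyStructure Cfsg.Agent.ChevalleyStructure.Elts Cfsg.Agent.ChevalleyStructure.CoxeterGeom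
  Cfsg.Agent.ChevalleyStructure.CoxeterGeomTypes Cfsg.Agent.ChevalleyStructure.NPerm
open Cfsg.Agent.Tits.Roots Cfsg.Agent.Tits.Core Cfsg.Agent.Nodes.Reps Cfsg.Agent.Nodes.BNOf
  Cfsg.Agent.Nodes.RGDChev Cfsg.Agent.Nodes.Bruhat
open Cfsg.Agent.KFacts.RgdField Cfsg.Agent.KFacts.RgdChevCoord Cfsg.Agent.BpExc Cfsg.Agent.BpExc.TorCent
  Cfsg.Agent.BpExc.TorChev Cfsg.Agent.BpExc.Tow Cfsg.Agent.BpExc.TowChev Cfsg.Agent.BpExc.Fr Cfsg.Agent.BpExc.Pair
  Cfsg.Agent.BpExc.LangFr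
open Cfsg.Agent.BpExc.FamExt Cfsg.Agent.BpExc.FamUntw Cfsg.Agent.BpExc.FamInst Cfsg.Agent.BpExc.FamField
open Cfsg.Agent.H129.TorusChar
open Cfsg.Agent.H378.TorDual Cfsg.Agent.H378.TorChar Cfsg.Agent.H378.TorFin Cfsg.Agent.H378.LatRoot
  Cfsg.Agent.H378.Regular
open Cfsg.Agent.H448.FprCent
open Cfsg.Agent.H493.F4End Cfsg.Agent.H493.F4Tor Cfsg.Agent.H659.TwF4Ord
open Cfsg.Agent.GpExc.Field (glMap emb coe_emb glMap_xG emb_injective coe_glMap)

universe u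

/-- **The bound for the elements of odd order of `²F₄(u)`.** -/
theorem tf4_bound {K : Type u} [Field K] [Fintype K] {m : ℕ} (hm : 1 ≤ m) (hK : Fintype.card K = 2 ^ (2 * m + 1))
    (x : ↥(twistedF4 K (2 ^ m))) (hx : Odd (orderOf x)) :
    ((orderOf x : ℕ) : ℝ) ≤ (Real.sqrt (2 ^ (2 * m + 1) : ℕ) + 1) ^ 4 := by
  have hKc := Cfsg.Agent.ChevalleyStructure.TwF4.Twisted.charP_two hK
  have h2 : Fact (Nat.Prime 2) := ⟨Nat.prime_two⟩
  obtain ⟨k, _, _, f, r', _, _, n, hk, hka, hn0, hn⟩ := exists_closure K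
  have hrr : r' = 2 := by
    have h1 : CharP K r' := RingHom.charP f f.injective r'
    exact CharP.eq K h1 hKc
  subst hrr
  let cs : CoxeterSystem CoxeterMatrix.F₄ CoxeterMatrix.F₄.Group := CoxeterMatrix.F₄.toCoxeterSystem
  have hWf := finite_W H493.F4Tor.hp cs
  set y0 : ↥(chevF4.group K) := inc K (2 ^ m) x with hy0
  set y : ↥(chevF4.group k) := emb hD f y0 with hy
  have hinj : Function.Injective (emb hD f) := emb_injective hD f
  have hox : orderOf y = orderOf x := by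
    rw [hy, orderOf_injective _ hinj, hy0, orderOf_injective _ (inc_injective (K := K) (2 ^ m))]
  have hodd0 : orderOf x ≠ 0 := by
    intro h0
    rw [h0] at hx
    exact absurd hx (by decide)
  obtain ⟨g0, hg0⟩ := H944.TorAnyChev.exists_conj_mem_TT H493.F4Tor.hp 2 hka (x := y) (q := orderOf x) hodd0
    (Nat.coprime_two_right.mpr hx) (by rw [← hox, pow_orderOf_eq_one])
  set c : ↥(chevF4.group k) := g0⁻¹ with hc
  set t : ↥(chevF4.group k) := c⁻¹ * y * c with ht0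
  have ht : t ∈ TT chevF4 k := by
    rw [ht0, hc, inv_inv]
    exact hg0
  have hstey : ste k m y = y := by
    rw [hy, hy0, ← emb_ste, ste_inc hK]
  set n0' : ↥(chevF4.group k) := c⁻¹ * ste k m c with hn0'
  have htt : n0' * ste k m t * n0'⁻¹ = t := by
    rw [ht0, map_mul, map_mul, map_inv, hstey, hn0']
    group
  obtain ⟨m', hm', w, g, hg, hgs, -⟩ := exists_form' H493.F4Tor.hp cs hk 2 (s := ste k m t) (t := t) (c := n0')
    (ste_TT (m := m) ht) ht (mul_inv_eq_iff_eq_mul.1 htt)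
  have hdet : ((LinearMap.det (rep cs H493.F4Tor.hp.isCartan w - Rl m) : ℤ) : k) ≠ 0 :=
    Cfsg.Agent.H448.FprCent.det_ne cs _ hm w k
  have hdet0 : LinearMap.det (rep cs H493.F4Tor.hp.isCartan w - Rl m) ≠ 0 := by
    intro h0
    rw [h0, Int.cast_zero] at hdet
    exact hdet rfl
  have hf : ∀ z, cX H493.F4Tor.hp t ((rep cs H493.F4Tor.hp.isCartan w - Rl m) z) = 1 := by
    intro z
    rw [LinearMap.sub_apply, (isMC_cX H493.F4Tor.hp ht).sub]
    have h1 := cX_rp H493.F4Tor.hp cs hk 2 hg (ste_TT (m := m) ht) z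
    rw [hgs, mul_inv_cancel_right] at h1
    rw [h1, cX_ste_all m ht, div_self ((isMC_cX H493.F4Tor.hp ht).ne_zero _)]
  have hord := EB.order_dvd_det H493.F4Tor.hp ht hdet0 hf (s := t) (fun a b h1 =>
    cX_inj H493.F4Tor.hp (pow_mem ht a) (pow_mem ht b) fun j => by
      rw [cX_pow H493.F4Tor.hp ht, cX_pow H493.F4Tor.hp ht, h1])
  have hot : orderOf t = orderOf x := by
    rw [← hox]
    have h1 : t = (MulAut.conj c⁻¹) y := by rw [ht0, MulAut.conj_apply, inv_inv]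
    rw [h1]
    exact orderOf_injective (MulAut.conj c⁻¹).toMonoidHom (MulAut.conj c⁻¹).injective y
  rw [hot] at hord
  have h5 := det_bound cs H493.F4Tor.hp.isCartan m w
  refine le_trans ?_ h5
  exact_mod_cast Nat.le_of_dvd (Int.natAbs_pos.mpr hdet0) hord

end Bound


/-! ### the divisibility -/

section Num

variable {p q : ℕ} {s : ℤ} {c c5 M : ℕ}

open Cfsg.Agent.H493.PGF4T (f1 f2 fp fm f6 fP fM)

theorem tf4_dvd {N : ℤ} (b : ℤ) (hb : b % 3 = 1 ∨ b % 3 = 2) (h1 : f1 b ∣ N) (h2 : f2 b ∣ N) (h3 : fp b ∣ N)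
    (h4 : fm b ∣ N) (h5 : f6 b ∣ N) (h6 : fP b ∣ N) (h7 : fM b ∣ N) {u : ℤ} (hu : u = 2 * b ^ 2) :
    (u ^ 4 - 1) * (u ^ 4 - u ^ 2 + 1) * (u ^ 2 - u + 1) ∣ 6 * N := by
  have c1 : IsCoprime (f1 b) (f2 b) :=
    cop_of_k (α := -1) (β := 1) (k := 2) (by unfold f1 f2; ring) (cop2 (by unfold f1; omega))
  have c2 : IsCoprime (fp b) (fm b) :=
    cop_of_k (α := -b + 1) (β := b + 1) (k := 2) (by unfold fp fm; ring) (cop2 (by unfold fp; omega))
  have c3 : IsCoprime (fP b) (fM b) :=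
    cop_of_k (α := -b + 1) (β := b + 1) (k := 2) (by unfold fP fM; ring) (cop2 (by unfold fP; omega))
  have x1 : u ^ 2 - 1 ∣ N := by
    have e : u ^ 2 - 1 = f1 b * f2 b := by unfold f1 f2; rw [hu]; ring
    rw [e]
    exact c1.mul_dvd h1 h2
  have x2 : u ^ 2 + 1 ∣ N := by
    have e : u ^ 2 + 1 = fp b * fm b := by unfold fp fm; rw [hu]; ring
    rw [e]
    exact c2.mul_dvd h3 h4
  have x3 : u ^ 4 - u ^ 2 + 1 ∣ N := by
    have e : u ^ 4 - u ^ 2 + 1 = fP b * fM b := by unfold fP fM; rw [hu]; ring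
    rw [e]
    exact c3.mul_dvd h6 h7
  have hodd : ∀ z : ℤ, (2 * b ^ 2 * z + 1) % 2 = 1 := fun z => by
    have : 2 * b ^ 2 * z + 1 = 2 * (b ^ 2 * z) + 1 := by ring
    omega
  have c4 : IsCoprime (u ^ 2 - 1) (u ^ 2 + 1) := by
    refine cop_of_k (α := -1) (β := 1) (k := 2) (by ring) (cop2 ?_)
    have e : u ^ 2 - 1 = 2 * b ^ 2 * (2 * b ^ 2) + 1 - 2 := by rw [hu]; ring
    have := hodd (2 * b ^ 2)
    omega
  have x4 : u ^ 4 - 1 ∣ N := by
    have e : u ^ 4 - 1 = (u ^ 2 - 1) * (u ^ 2 + 1) := by ring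
    rw [e]
    exact c4.mul_dvd x1 x2
  have hb2 : (b ^ 2) % 3 = 1 := by
    rcases hb with h | h <;> simp [pow_two, Int.mul_emod, h]
  have hu3 : u % 3 = 2 := by rw [hu]; omega
  have c5 : IsCoprime (u ^ 4 - u ^ 2 + 1) (u ^ 4 - 1) := by
    refine cop_of_k (α := u ^ 2 + 2) (β := -u ^ 2 - 1) (k := 3) (by ring) (cop3 (Or.inl ?_))
    have : u ^ 4 - u ^ 2 + 1 = 3 * (u ^ 2 * ((u / 3 + 1) * (u - 1))) + 1 := by
      have : u = 3 * (u / 3) + 2 := by omega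
      linear_combination (u ^ 2 * (u - 1)) * this
    omega
  have x5 : (u ^ 4 - 1) * (u ^ 4 - u ^ 2 + 1) ∣ N := c5.symm.mul_dvd x4 x3
  have x6 : u ^ 2 - u + 1 ∣ N := by
    have e : u ^ 2 - u + 1 = f6 b := by unfold f6; rw [hu]; ring
    rw [e]
    exact h5
  exact mul_dvd_of x5 x6 (α := -u - 1) (β := u ^ 7 + 2 * u ^ 6 - 3 * u ^ 4 - 3 * u ^ 3 + 4 * u + 5) (by ring)

/-- the element orders of `²F₄(8)` used in the finite check -/
def lowTF4 : List ℕ := [7, 9, 13, 5, 57, 109, 37]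

theorem chkTF4 : chkQ 6 2 lowTF4 [0] = true := by decide +kernel

open Cfsg.Agent.H493.PGF4T Cfsg.Agent.R2.Spec.X1.TRc in
theorem not_tf4D {K : Type*} [Field K] [Fintype K] {m : ℕ}
    (hm : 1 ≤ m) (hK : Fintype.card K = 2 ^ (2 * m + 1)) {W : ℕ → Prop} (h : SW p q s c c5 M W)
    (hup : ∀ E, W E → ∃ x : ↥(Cfsg.Lie.twistedF4 K (2 ^ m)), orderOf x = E)
    (hlo : ∀ x : ↥(Cfsg.Lie.twistedF4 K (2 ^ m)), W (orderOf x)) : False := by
  set B : ℤ := 2 ^ m with hB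
  have key : ∀ {F : ℤ → ℤ} {E : ℕ}, (∀ {r : ℕ}, (r : ℤ) ∣ F (2 ^ m) →
      ∃ x : ↥(Cfsg.Lie.twistedF4 K (2 ^ m)), orderOf x = r) → (E : ℤ) ∣ F B → W E := by
    intro F E h1 h2
    obtain ⟨x, hx⟩ := h1 h2
    rw [← hx]
    exact hlo x
  have w1 : ∀ {E : ℕ}, (E : ℤ) ∣ f1 B → W E := key (exists_order hK chainA_ok hThA certA_f1)
  have w2 : ∀ {E : ℕ}, (E : ℤ) ∣ f2 B → W E := key (exists_order hK chainA_ok hThA certA_f2)
  have w3 : ∀ {E : ℕ}, (E : ℤ) ∣ fp B → W E := key (exists_order hK chainB_ok hThB certB_fp)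
  have w4 : ∀ {E : ℕ}, (E : ℤ) ∣ fm B → W E := key (exists_order hK chainC_ok hThC certC_fm)
  have w5 : ∀ {E : ℕ}, (E : ℤ) ∣ f6 B → W E := key (exists_order hK chainD_ok hThD certD_f6)
  have w6 : ∀ {E : ℕ}, (E : ℤ) ∣ fP B → W E := key (exists_order hK chainEp_ok hThEp certEp_fP)
  have w7 : ∀ {E : ℕ}, (E : ℤ) ∣ fM B → W E := key (exists_order hK chainEm_ok hThEm certEm_fM)
  have hdv : ∀ {z : ℤ}, (∀ {E : ℕ}, (E : ℤ) ∣ z → W E) → z ∣ PI p s := by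
    intro z hz
    have h1 : W z.natAbs := hz (Int.natAbs_dvd.mpr dvd_rfl)
    exact Int.natAbs_dvd.mp (h.dvd_PI h1)
  have hu2 : 2 ≤ 2 ^ (2 * m + 1) := Nat.le_self_pow (by omega) 2
  obtain ⟨u, hu⟩ : ∃ u : ℕ, u = 2 ^ (2 * m + 1) := ⟨_, rfl⟩
  have huB : (u : ℤ) = 2 * B ^ 2 := by
    rw [hu, hB]
    push_cast
    ring
  obtain ⟨x, hx⟩ := hup M h.elt
  have hbd := tf4_bound hm hK x (by rw [hx]; exact h.n.M_oddE)
  rw [hx, ← hu] at hbd
  rcases Nat.lt_or_ge m 2 with hm2 | hm2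
  · have hm1 : m = 1 := by omega
    have hB2 : B = 2 := by rw [hB, hm1]; norm_num
    have hu8 : u = 8 := by rw [hu, hm1]; norm_num
    have hM : M ≤ 256 := by
      have h1 : Real.sqrt (u : ℕ) ≤ 3 := by
        rw [hu8]
        rw [show (3 : ℝ) = Real.sqrt (3 ^ 2) by rw [Real.sqrt_sq (by norm_num)]]
        exact Real.sqrt_le_sqrt (by norm_num)
      have h2 : (M : ℝ) ≤ (3 + 1) ^ 4 := hbd.trans (by
        have := Real.sqrt_nonneg ((u : ℕ) : ℝ)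
        gcongr)
      have h3 : (M : ℝ) ≤ 256 := h2.trans (by norm_num)
      exact_mod_cast h3
    have hq : q ≤ 6 := by
      by_contra hcon
      have k1 := h.n.M_lo
      have k2 : 7 ^ 4 ≤ q ^ 4 := Nat.pow_le_pow_left (by omega) 4
      omega
    have hvp : 2 ≠ p := fun h0 => h.n.hp2 h0.symm
    have hc := h.chkQ_false hq (by norm_num) hvp (low := lowTF4) (hit := [0]) (by
      intro E hE
      simp only [lowTF4, List.mem_cons, List.not_mem_nil, or_false] at hE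
      rcases hE with rfl | rfl | rfl | rfl | rfl | rfl | rfl
      · exact w1 (by rw [hB2]; unfold f1; norm_num)
      · exact w2 (by rw [hB2]; unfold f2; norm_num)
      · exact w3 (by rw [hB2]; unfold fp; norm_num)
      · exact w4 (by rw [hB2]; unfold fm; norm_num)
      · exact w5 (by rw [hB2]; unfold f6; norm_num)
      · exact w6 (by rw [hB2]; unfold fP; norm_num)
      · exact w7 (by rw [hB2]; unfold fM; norm_num)) ⟨0, List.mem_singleton.mpr rfl, dvd_zero M⟩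
    rw [chkTF4] at hc
    exact Bool.noConfusion hc
  · have hu32 : 32 ≤ u := by
      rw [hu]
      calc 32 = 2 ^ 5 := by norm_num
        _ ≤ 2 ^ (2 * m + 1) := Nat.pow_le_pow_right (by norm_num) (by omega)
    have hB3 : B % 3 = 1 ∨ B % 3 = 2 := by
      have h1 : ¬ (3 : ℤ) ∣ B := by
        rw [hB]
        intro h2
        have h4 : 3 ∣ 2 ^ m := by exact_mod_cast h2
        have h3 := Nat.prime_three.dvd_of_dvd_pow h4
        omega
      omega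
    have hX := tf4_dvd B hB3 (hdv w1) (hdv w2) (hdv w3) (hdv w4) (hdv w5) (hdv w6) (hdv w7) huB
    have hM : 100 * M ≤ 193 * u ^ 2 := by
      have hs0 := Real.sqrt_nonneg ((u : ℕ) : ℝ)
      have hs1 : Real.sqrt ((u : ℕ) : ℝ) * Real.sqrt ((u : ℕ) : ℝ) = u := Real.mul_self_sqrt (by positivity)
      have hur : (32 : ℝ) ≤ u := by exact_mod_cast hu32
      set y := Real.sqrt ((u : ℕ) : ℝ) with hy
      have hy1 : 28 / 5 ≤ y := by
        by_contra hcon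
        have : y < 28 / 5 := not_le.mp hcon
        nlinarith
      have h1 : (y + 1) ^ 2 ≤ 1389 / 1000 * u := by nlinarith
      have h2 : (y + 1) ^ 4 ≤ (1389 / 1000 * u) ^ 2 := by
        calc (y + 1) ^ 4 = ((y + 1) ^ 2) ^ 2 := by ring
          _ ≤ _ := by gcongr
      have h3 : (100 : ℝ) * M ≤ 193 * u ^ 2 := by
        have := hbd.trans h2
        nlinarith [sq_nonneg (u : ℝ)]
      exact_mod_cast h3
    have huz : (32 : ℤ) ≤ u := by exact_mod_cast hu32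
    obtain ⟨X, hXe⟩ : ∃ X : ℕ, (X : ℤ) = ((u : ℤ) ^ 4 - 1) * (u ^ 4 - u ^ 2 + 1) * (u ^ 2 - u + 1) := by
      refine ⟨(((u : ℤ) ^ 4 - 1) * (u ^ 4 - u ^ 2 + 1) * (u ^ 2 - u + 1)).toNat, ?_⟩
      rw [Int.toNat_of_nonneg]
      have h1 : (0 : ℤ) ≤ (u : ℤ) ^ 4 - 1 := by
        have : (0 : ℤ) < (u : ℤ) ^ 4 := by positivity
        linarith
      have h2 : (0 : ℤ) ≤ (u : ℤ) ^ 4 - u ^ 2 + 1 := by nlinarith [sq_nonneg ((u : ℤ) ^ 2 - 1), sq_nonneg ((u : ℤ))]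
      have h3 : (0 : ℤ) ≤ (u : ℤ) ^ 2 - u + 1 := by nlinarith
      positivity
    have hX' : (X : ℤ) ∣ (6 : ℕ) * PI p s := by
      rw [hXe]
      exact hX
    refine h.n.killE (by norm_num) hX' (a1 := 100) (a2 := 96) (b1 := 100) (b2 := 193) (d := 10) (e := 2) (r := 14)
      (u := u) (by omega) ?_ hM (by norm_num) ?_
    · have key : (96 : ℤ) * u ^ 10 ≤ 100 * X := by
        rw [hXe]
        have k1 : (1023 : ℤ) * u ^ 2 ≤ 1024 * (u ^ 2 - 1) := by nlinarith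
        have k2 : (31 : ℤ) * u ^ 2 ≤ 32 * (u ^ 2 - u + 1) := by nlinarith
        have k0 : (0 : ℤ) ≤ (u : ℤ) ^ 10 := by positivity
        have k3 : (1023 * 31 : ℤ) * u ^ 10 ≤
            1024 * 32 * (((u : ℤ) ^ 4 - 1) * (u ^ 4 - u ^ 2 + 1) * (u ^ 2 - u + 1)) := by
          calc (1023 * 31 : ℤ) * u ^ 10 = (u : ℤ) ^ 6 * (1023 * u ^ 2) * (31 * u ^ 2) := by ring
            _ ≤ ((u : ℤ) ^ 6 + 1) * (1024 * (u ^ 2 - 1)) * (32 * (u ^ 2 - u + 1)) := by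
              have k4 : (u : ℤ) ^ 6 ≤ u ^ 6 + 1 := by linarith
              have k5 : (0 : ℤ) ≤ 1024 * ((u : ℤ) ^ 2 - 1) := le_trans (by positivity) k1
              gcongr
            _ = 1024 * 32 * (((u : ℤ) ^ 4 - 1) * (u ^ 4 - u ^ 2 + 1) * (u ^ 2 - u + 1)) := by ring
        linarith
      exact_mod_cast key
    · have k1 : 32 ^ 14 ≤ u ^ 14 := Nat.pow_le_pow_left hu32 14
      calc 100 ^ 4 * 6 ^ 4 * (50 ^ 4 * 45 ^ 9) * 193 ^ 13 < 81 * 8 ^ 9 * 96 ^ 4 * 100 ^ 13 * 32 ^ 14 := by norm_num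
        _ ≤ 81 * 8 ^ 9 * 96 ^ 4 * 100 ^ 13 * u ^ 14 := Nat.mul_le_mul_left _ k1

end Num

end Cfsg.Agent.R2.Spec.X7.N6
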