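import Cfsg.Agent.R2.Spec.X7.Groups
import Cfsg.Agent.R2.Spec.X7.N6.L1

/-!
# Box X7, `n = 6`, packet N6-L (helper28): the element orders of `PSL_6(q)`, `PSU_6(q)`, `q` odd
-/

set_option autoImplicit false

namespace Cfsg.Agent.R2.Spec.X7.N6

open Finset Function Cfsg Cfsg.Agent.H426.LieFam
open Cfsg.Agent.H437.Win (count_stable sg' sg'_injective)

section

variable {F : Type*} [Field F] [Fintype F] {p f q : ℕ} [Fact p.Prime] [CharP F p]

theorem up_psl_mat (hq : q = p ^ f) (hF : Fintype.card F = q) (hp2 : p ≠ 2)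
    (g : Matrix.ProjectiveSpecialLinearGroup (Fin 6) F) :
    Up p (q : ℤ) (Nat.gcd 6 ((q : ℤ) - 1).natAbs) (orderOf g) := by
  classical
  obtain ⟨g, rfl⟩ := QuotientGroup.mk_surjective g
  set A : Matrix (Fin 6) (Fin 6) F := ((g : Matrix.SpecialLinearGroup (Fin 6) F) : Matrix (Fin 6) (Fin 6) F) with hA
  let K := AlgebraicClosure F
  have hCP : CharP K p := charP_of_injective_algebraMap (algebraMap F K).injective p
  have hdetA : A.det = 1 := g.2
  have hzp : (zp (q : ℤ) : K → K) = fun x => x ^ q := by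
    funext x
    rw [zp, zpow_natCast]
  have hinj : Injective (zp (q : ℤ) : K → K) := by
    rw [hzp]
    intro x y hxy
    apply (iterateFrobenius K p f).injective
    rw [iterateFrobenius_def, iterateFrobenius_def, ← hq]
    exact hxy
  have hcs : ∀ x, (A.map (algebraMap F K)).charpoly.roots.count (zp (q : ℤ) x) =
      (A.map (algebraMap F K)).charpoly.roots.count x := by
    intro x
    set Y : Matrix (Fin 6) (Fin 6) K := A.map (algebraMap F K) with hY
    have h1 : (Y.map (iterateFrobenius K p f)).charpoly.roots = Y.charpoly.roots.map (iterateFrobenius K p f) := by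
      rw [Matrix.charpoly_map]
      exact (IsAlgClosed.splits Y.charpoly).roots_map _
    have h2 : Y.map (iterateFrobenius K p f) = Y := by
      ext i j
      rw [hY, Matrix.map_apply, Matrix.map_apply, iterateFrobenius_def, ← map_pow, ← hq, ← hF, FiniteField.pow_card]
    rw [h2] at h1
    have h3 : Multiset.count (iterateFrobenius K p f x) (Y.charpoly.roots.map (iterateFrobenius K p f)) =
        Y.charpoly.roots.count x := Multiset.count_map_eq_count' _ _ (iterateFrobenius K p f).injective x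
    rw [← h1, iterateFrobenius_def, ← hq] at h3
    rw [hzp]
    exact h3
  obtain ⟨E, ⟨z, hz⟩, hE⟩ := six_mat hp2 A hdetA hinj hcs
  refine hE.mono ?_
  apply orderOf_dvd_of_pow_eq_one
  have h4 : g ^ E ∈ Subgroup.center (Matrix.SpecialLinearGroup (Fin 6) F) := by
    rw [Subgroup.mem_center_iff]
    intro h
    apply Subtype.ext
    show (h : Matrix (Fin 6) (Fin 6) F) * ((g ^ E : Matrix.SpecialLinearGroup (Fin 6) F) : Matrix (Fin 6) (Fin 6) F) =
      ((g ^ E : Matrix.SpecialLinearGroup (Fin 6) F) : Matrix (Fin 6) (Fin 6) F) * (h : Matrix (Fin 6) (Fin 6) F)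
    rw [Matrix.SpecialLinearGroup.coe_pow, ← hA, hz, Matrix.mul_smul, Matrix.smul_mul, Matrix.mul_one, Matrix.one_mul]
  rw [← QuotientGroup.mk_pow]
  exact (QuotientGroup.eq_one_iff _).2 h4

theorem up_psu_mat (hq : q = p ^ f) (hp2 : p ≠ 2) (g : PSU 6 F q) :
    Up p (-(q : ℤ)) (Nat.gcd 6 (-(q : ℤ) - 1).natAbs) (orderOf g) := by
  classical
  obtain ⟨g, rfl⟩ := QuotientGroup.mk_surjective g
  set A : Matrix (Fin 6) (Fin 6) F := ((g : Matrix.SpecialLinearGroup (Fin 6) F) : Matrix (Fin 6) (Fin 6) F) with hA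
  let K := AlgebraicClosure F
  have hCP : CharP K p := charP_of_injective_algebraMap (algebraMap F K).injective p
  set Y : Matrix (Fin 6) (Fin 6) K := A.map (algebraMap F K) with hY
  have hdetA : A.det = 1 := (g : Matrix.SpecialLinearGroup (Fin 6) F).2
  have hdet : Y.det = 1 := by
    rw [hY, show A.map (algebraMap F K) = (algebraMap F K).mapMatrix A from rfl, ← RingHom.map_det, hdetA, map_one]
  have hY1 : (Y.map (iterateFrobenius K p f)).charpoly = (Y⁻¹).charpoly := by
    have h1 := H149.PGU.charpoly_unitary hq g.2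
    rw [← hA] at h1
    have h2 : Y.map (iterateFrobenius K p f) = (A.map (iterateFrobenius F p f)).map (algebraMap F K) := by
      ext i j
      simp [hY, Matrix.map_apply, iterateFrobenius_def]
    have h3 : Y⁻¹ = (A⁻¹).map (algebraMap F K) := by
      apply Matrix.inv_eq_right_inv
      rw [hY, ← Matrix.map_mul, Matrix.mul_nonsing_inv _ (by rw [hdetA]; exact isUnit_one), Matrix.map_one _ (map_zero _) (map_one _)]
    rw [h2, h3, Matrix.charpoly_map, h1, Matrix.charpoly_map]
  have hzp : (zp (-(q : ℤ)) : K → K) = sg' q := by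
    funext x
    rw [zp, zpow_neg, zpow_natCast, sg']
  have hinj : Injective (zp (-(q : ℤ)) : K → K) := by
    rw [hzp]
    exact sg'_injective hq
  have hcs : ∀ x, Y.charpoly.roots.count (zp (-(q : ℤ)) x) = Y.charpoly.roots.count x := by
    intro x
    rw [hzp]
    exact count_stable hq hdet hY1 x
  obtain ⟨E, ⟨z, hz⟩, hE⟩ := six_mat hp2 A hdetA hinj hcs
  refine hE.mono ?_
  apply orderOf_dvd_of_pow_eq_one
  rw [← QuotientGroup.mk_pow, QuotientGroup.eq_one_iff, Subgroup.mem_center_iff]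
  intro h
  apply Subtype.ext
  apply Subtype.ext
  show ((h : Matrix.SpecialLinearGroup (Fin 6) F) : Matrix (Fin 6) (Fin 6) F) * A ^ E =
    A ^ E * ((h : Matrix.SpecialLinearGroup (Fin 6) F) : Matrix (Fin 6) (Fin 6) F)
  rw [hz, Matrix.mul_smul, Matrix.smul_mul, Matrix.mul_one, Matrix.one_mul]

end

universe u

/-- **N6-L** for `PSL_6(q)`. -/
theorem up_psl {p f : ℕ} (hp : p.Prime) (hp2 : p ≠ 2) {L : Type u} [Group L] [Finite L] (h : Fam.Is p f L (.psl 6)) (x : L) :
    Up p ((p ^ f : ℕ) : ℤ) (Nat.gcd 6 (((p ^ f : ℕ) : ℤ) - 1).natAbs) (orderOf x) := by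
  have hfp := Fact.mk hp
  obtain ⟨-, -, F, _, _, _, hF, ⟨e⟩⟩ := h
  rw [← orderOf_injective e.toMonoidHom e.injective x]
  exact up_psl_mat rfl hF hp2 (e x)

/-- **N6-L** for `PSU_6(q)`. -/
theorem up_psu {p f : ℕ} (hp : p.Prime) (hp2 : p ≠ 2) {L : Type u} [Group L] [Finite L] (h : Fam.Is p f L (.psu 6)) (x : L) :
    Up p (-((p ^ f : ℕ) : ℤ)) (Nat.gcd 6 (-((p ^ f : ℕ) : ℤ) - 1).natAbs) (orderOf x) := by
  have hfp := Fact.mk hp
  obtain ⟨-, -, F, _, _, _, hF, ⟨e0⟩⟩ := h
  have e : L ≃* PSU 6 F (p ^ f) := e0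
  rw [← orderOf_injective e.toMonoidHom e.injective x]
  exact up_psu_mat rfl hp2 (e x)

end Cfsg.Agent.R2.Spec.X7.N6
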