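import Cfsg.Agent.R2.Spec.X7.N6.SThree

/-!
# S3435, box X7, `n = 6`, packet N6-S (helper8): `v ∣ M`

* `SixN.up_le` : all orders are at most `2 q ^ 5`;
* `SixN.l2_char` : `S = L₂(M ^ j)`;
* `SixN.psp_char` : `S = PSp₄(u)`, `v ∣ M`.
-/

set_option autoImplicit false
set_option maxHeartbeats 1000000

namespace Cfsg.Agent.R2.Spec.X7.N6

variable {p q : ℕ} {s : ℤ} {c c5 M : ℕ}

lemma le_abs_of_dvd {a b : ℤ} (hb : b ≠ 0) (h : a ∣ b) : a ≤ |b| := Int.le_of_dvd (abs_pos.2 hb) ((dvd_abs _ _).2 h)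

lemma SixN.pow_ne (h : SixN p q s c c5 M) {k : ℕ} (hk : k ≠ 0) : s ^ k - 1 ≠ 0 := by
  intro h0
  have h1 : |s| ^ k = 1 := by rw [← abs_pow, show s ^ k = 1 by linarith, abs_one]
  have h2 : (3 : ℤ) ≤ |s| := by rw [h.abs_s]; exact_mod_cast h.q3
  have h3 : |s| ^ 1 ≤ |s| ^ k := pow_le_pow_right₀ (by linarith) (by omega)
  rw [h1, pow_one] at h3
  linarith

lemma SixN.pow_le (h : SixN p q s c c5 M) (k : ℕ) : |s ^ k - 1| ≤ (q : ℤ) ^ k + 1 := by
  have := abs_sub (s ^ k) 1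
  rw [abs_pow, h.abs_s] at this
  simpa using this

theorem SixN.up_le (h : SixN p q s c c5 M) {E : ℕ} (hu : Up p s c E) : (E : ℤ) ≤ 2 * (q : ℤ) ^ 5 := by
  have hq : (3 : ℤ) ≤ q := by exact_mod_cast h.q3
  have hq0 : (0 : ℤ) ≤ q := by linarith
  have hp0 : (p : ℤ) ≠ 0 := by exact_mod_cast h.hp.ne_zero
  have hp : (p : ℤ) ≤ q := by exact_mod_cast h.p_le
  have hpp : (0 : ℤ) ≤ p := by positivity
  have m2 : 3 * (q : ℤ) ≤ (q : ℤ) ^ 2 := by nlinarith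
  have m3 : 3 * (q : ℤ) ^ 2 ≤ (q : ℤ) ^ 3 := by nlinarith [sq_nonneg (q : ℤ)]
  have m4 : 3 * (q : ℤ) ^ 3 ≤ (q : ℤ) ^ 4 := by nlinarith [pow_nonneg hq0 3]
  have m5 : 3 * (q : ℤ) ^ 4 ≤ (q : ℤ) ^ 5 := by nlinarith [pow_nonneg hq0 4]
  have b1 : |s + 1| ≤ q + 1 := by
    have := abs_add_le s 1
    rw [h.abs_s] at this
    simpa using this
  have s1 : s + 1 ≠ 0 := by rcases h.s_cases with h1 | h1 <;> omega
  rcases hu with h1 | h1 | h1 | h1 | h1 | h1 | h1 | h1 | h1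
  · have h2 := le_abs_of_dvd (h.pow_ne (k := 5) (by norm_num)) ((dvd_mul_left (E : ℤ) c).trans h1)
    have h3 := h.pow_le 5
    linarith
  · have h2 : (E : ℤ) * (s - 1) ∣ (s + 1) * (s ^ 4 + s ^ 2 + 1) * (s - 1) := by
      rw [show (s + 1) * (s ^ 4 + s ^ 2 + 1) * (s - 1) = s ^ 6 - 1 by ring]
      exact (dvd_mul_left _ (c : ℤ)).trans (by rw [← mul_assoc]; exact h1)
    have h3 := Int.dvd_of_mul_dvd_mul_right h.s_ne h2
    have h5 : (0 : ℤ) < s ^ 4 + s ^ 2 + 1 := by positivity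
    have h4 := le_abs_of_dvd (mul_ne_zero s1 h5.ne') h3
    rw [abs_mul, abs_of_pos h5] at h4
    have h6 : s ^ 4 + s ^ 2 + 1 = (q : ℤ) ^ 4 + (q : ℤ) ^ 2 + 1 := by
      rw [show s ^ 4 = (s ^ 2) ^ 2 by ring, h.sq_s]; ring
    rw [h6] at h4
    have h7 : |s + 1| * ((q : ℤ) ^ 4 + (q : ℤ) ^ 2 + 1) ≤ (q + 1) * ((q : ℤ) ^ 4 + (q : ℤ) ^ 2 + 1) := by gcongr
    have h8 : ((q : ℤ) + 1) * ((q : ℤ) ^ 4 + (q : ℤ) ^ 2 + 1) =
      (q : ℤ) ^ 5 + (q : ℤ) ^ 4 + (q : ℤ) ^ 3 + (q : ℤ) ^ 2 + q + 1 := by ring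
    linarith
  · have h2 := le_abs_of_dvd (h.pow_ne (k := 4) (by norm_num)) h1
    have h3 := h.pow_le 4
    linarith
  · have h2 := le_abs_of_dvd (mul_ne_zero hp0 (h.pow_ne (k := 4) (by norm_num))) ((dvd_mul_left (E : ℤ) c).trans h1)
    rw [abs_mul, abs_of_nonneg hpp] at h2
    have h3 := h.pow_le 4
    have h4 : (p : ℤ) * |s ^ 4 - 1| ≤ q * ((q : ℤ) ^ 4 + 1) := by gcongr
    have h5 : (q : ℤ) * ((q : ℤ) ^ 4 + 1) = (q : ℤ) ^ 5 + q := by ring
    linarith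
  · have h2 := le_abs_of_dvd (mul_ne_zero (h.pow_ne (k := 3) (by norm_num)) s1) h1
    rw [abs_mul] at h2
    have h3 := h.pow_le 3
    have h4 : |s ^ 3 - 1| * |s + 1| ≤ ((q : ℤ) ^ 3 + 1) * (q + 1) := by gcongr
    have h5 : ((q : ℤ) ^ 3 + 1) * (q + 1) = (q : ℤ) ^ 4 + (q : ℤ) ^ 3 + q + 1 := by ring
    linarith
  · have h2 := le_abs_of_dvd (mul_ne_zero hp0 (h.pow_ne (k := 3) (by norm_num))) h1
    rw [abs_mul, abs_of_nonneg hpp] at h2
    have h3 := h.pow_le 3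
    have h4 : (p : ℤ) * |s ^ 3 - 1| ≤ q * ((q : ℤ) ^ 3 + 1) := by gcongr
    have h5 : (q : ℤ) * ((q : ℤ) ^ 3 + 1) = (q : ℤ) ^ 4 + q := by ring
    linarith
  · have h2 := le_abs_of_dvd (mul_ne_zero hp0 (h.pow_ne (k := 2) (by norm_num))) h1
    rw [abs_mul, abs_of_nonneg hpp] at h2
    have h3 := h.pow_le 2
    have h4 : (p : ℤ) * |s ^ 2 - 1| ≤ q * ((q : ℤ) ^ 2 + 1) := by gcongr
    have h5 : (q : ℤ) * ((q : ℤ) ^ 2 + 1) = (q : ℤ) ^ 3 + q := by ring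
    linarith
  · have h2 := le_abs_of_dvd (mul_ne_zero (by norm_num : (9 : ℤ) ≠ 0) (h.pow_ne (k := 2) (by norm_num))) h1.2
    rw [abs_mul, abs_of_nonneg (by norm_num : (0 : ℤ) ≤ 9)] at h2
    have h3 := h.pow_le 2
    linarith
  · have h2 : (E : ℤ) ≤ 25 := by exact_mod_cast Nat.le_of_dvd (by norm_num) h1.2
    linarith

/-- `Up` for `q = 9`, `s = - 9` -/
lemma not_up_nine (hu : Up 3 (-9) 2 591) : False := by
  rcases hu with h1 | h1 | h1 | h1 | h1 | h1 | h1 | h1 | h1 <;> norm_num at h1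

lemma SixN.nine (h : SixN p q s c c5 M) (hq : q = 9) (h5 : c5 = 5) : p = 3 ∧ c = 2 ∧ s = -9 := by
  obtain ⟨f, hf, hqf⟩ := h.hq
  have hs : s = -9 := by
    have h1 := (h.five h5).1
    rcases h.hs with h2 | h2 <;> omega
  refine ⟨?_, ?_, hs⟩
  · have h1 : p ∣ 3 ^ 2 := by
      rw [show 3 ^ 2 = q by rw [hq]; norm_num, hqf]
      exact dvd_pow_self p (by omega)
    exact (Nat.prime_dvd_prime_iff_eq h.hp Nat.prime_three).1 (h.hp.dvd_of_dvd_pow h1)
  · rw [h.hc, hs]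
    rfl

/-- `S = L₂(M ^ j)` -/
theorem SixN.l2_char (h : SixN p q s c c5 M) (hM : M.Prime) {u N j : ℕ} (hj : 1 ≤ j) (hu : u = M ^ j)
    (hN : 2 * N = u + 1) (uN : Up p s c N) : False := by
  have hq3 := h.q3
  have hcube : q * (3 * 3) ≤ q ^ 3 := by
    rw [show q ^ 3 = q * (q * q) by ring]
    exact Nat.mul_le_mul le_rfl (Nat.mul_le_mul hq3 hq3)
  rcases Nat.lt_or_ge 1 j with hj2 | hj2
  · -- `j ≥ 2`
    have h1 := h.up_le uN
    have h2 : M ^ 2 ≤ u := by rw [hu]; exact Nat.pow_le_pow_right hM.pos hj2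
    have h3 : (M : ℤ) ^ 2 ≤ 4 * (q : ℤ) ^ 5 := by
      have h4 : (M : ℤ) ^ 2 ≤ u := by exact_mod_cast h2
      have h5 : 2 * (N : ℤ) = u + 1 := by exact_mod_cast hN
      linarith
    have hq : (3 : ℤ) ≤ q := by exact_mod_cast hq3
    have hq5 : (0 : ℤ) < (q : ℤ) ^ 5 := by positivity
    rcases h.lo_lin with h4 | ⟨h4, h9⟩
    · have h5 : 2 * (q : ℤ) ^ 3 ≤ M := by
        have : 2 * q ^ 3 ≤ M := by omega
        exact_mod_cast this
      have h6 : (2 * (q : ℤ) ^ 3) ^ 2 ≤ (M : ℤ) ^ 2 := pow_le_pow_left₀ (by positivity) h5 2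
      have h7 : (2 * (q : ℤ) ^ 3) ^ 2 = 4 * ((q : ℤ) ^ 5 * q) := by ring
      nlinarith
    · have h5 : 8 * (q : ℤ) ^ 3 ≤ 5 * M := by
        have : 8 * q ^ 3 ≤ 5 * M := by omega
        exact_mod_cast this
      have h6 : (8 * (q : ℤ) ^ 3) ^ 2 ≤ (5 * (M : ℤ)) ^ 2 := pow_le_pow_left₀ (by positivity) h5 2
      have h7 : (8 * (q : ℤ) ^ 3) ^ 2 = 64 * ((q : ℤ) ^ 5 * q) := by ring
      have h8 : (5 * (M : ℤ)) ^ 2 = 25 * (M : ℤ) ^ 2 := by ring
      nlinarith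
  · have hj1 : j = 1 := by omega
    rw [hj1, pow_one] at hu
    rw [hu] at hN
    have hMN : (1 : ℤ) * (M * 1 : ℕ) + (-2) * N = -1 := by
      have h5 : 2 * (N : ℤ) = M + 1 := by exact_mod_cast hN
      push_cast
      linarith
    have hcop : Nat.Coprime N M := by
      refine Nat.coprime_of_dvd fun r hr h1 h2 => ?_
      have h3 : r ∣ 2 * N - M := Nat.dvd_sub (h1.mul_left 2) h2
      rw [show 2 * N - M = 1 by omega] at h3
      exact hr.one_lt.ne' (Nat.dvd_one.1 h3)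
    by_cases h3 : q = 3
    · obtain ⟨hp3, hc2⟩ := h.three_c h3
      rcases h.three h3 with ⟨h4, h5⟩ | ⟨h4, h5⟩
      · rw [h5] at hM
        norm_num at hM
      · rw [h4, hc2, hp3] at uN
        have := (not_up_three uN).2.2.2.2.2
        omega
    by_cases h9 : q = 9 ∧ c5 = 5
    · obtain ⟨hp3, hc2, hs⟩ := h.nine h9.1 h9.2
      have hM9 : M = 1181 := by
        rcases h.five_small h9.2 (by omega) with h4 | h4 | h4 | h4 | h4 | h4 | h4 | h4 <;> omega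
      have hN9 : N = 591 := by omega
      rw [hs, hc2, hp3, hN9] at uN
      exact not_up_nine uN
    -- now `M > 2 (q ^ 3 + q)`
    have hlo : (c5 = 1 ∧ (q ^ 3 + q) * 4 < M) ∨ (c5 = 5 ∧ (q ^ 3 + q) * 2 < M ∧ 11 ≤ q) := by
      have hodd := h.odd_q
      rw [Nat.odd_iff] at hodd
      rcases h.lo_nat with ⟨h5, h6⟩ | ⟨h5, h6, h10⟩
      · left
        have : (q ^ 3 + q) * 4 ≤ (q ^ 3 + q) * (q - 1) := Nat.mul_le_mul le_rfl (by omega)
        exact ⟨h5, by omega⟩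
      · right
        have h11 : 11 ≤ q := by
          have : q ≠ 9 := fun h12 => h9 ⟨h12, h5⟩
          omega
        have : (q ^ 3 + q) * 10 ≤ (q ^ 3 + q) * (q - 1) := Nat.mul_le_mul le_rfl (by omega)
        exact ⟨h5, by omega, h11⟩
    have hbig : q ^ 3 < N := by rcases hlo with h5 | h5 <;> omega
    rcases h.bracket' uN hcop hbig (fun h4 => absurd h4 h3) hMN with h1 | h1 | h1 | h1
    · have h2 : N ≤ 2 * (c5 * (q + 1) + 1) := by
        have h4 : (N : ℤ) ≤ 2 * (c5 * (q + 1) + 1) := by simpa using h1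
        exact_mod_cast h4
      rcases hlo with ⟨h5, -⟩ | ⟨h5, -, h9⟩ <;> rw [h5] at h2
      · omega
      · have h10 : q * (11 * 11) ≤ q ^ 3 := by
          rw [show q ^ 3 = q * (q * q) by ring]
          exact Nat.mul_le_mul le_rfl (Nat.mul_le_mul h9 h9)
        omega
    · have h2 : M < 2 * 2 * (q + 1) := by
        have h4 : (M : ℤ) < 2 * 2 * (q + 1) := by simpa using h1
        exact_mod_cast h4
      rcases hlo with ⟨h5, -⟩ | ⟨h5, -, h9⟩ <;> omega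
    · have h2 : M < 2 * 2 * ((q + 1) ^ 2 + 1) := by
        have h4 : (M : ℤ) < 2 * 2 * ((q + 1) ^ 2 + 1) := by simpa using h1.1
        exact_mod_cast h4
      have h6 : (q + 1) ^ 2 = q ^ 2 + 2 * q + 1 := by ring
      have h7 : q ^ 3 = q * q ^ 2 := by ring
      have h8 : 3 * q ^ 2 ≤ q * q ^ 2 := Nat.mul_le_mul hq3 le_rfl
      have h10 : 3 * q ≤ q ^ 2 := by rw [sq]; exact Nat.mul_le_mul hq3 le_rfl
      rcases hlo with ⟨h5, h11⟩ | ⟨h5, h11, h9⟩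
      · rw [h7] at h11
        omega
      · have h12 : 11 * q ^ 2 ≤ q * q ^ 2 := Nat.mul_le_mul h9 le_rfl
        rw [h7] at h11
        omega
    · have hs := h.s_cases
      have hso := h.odd_s
      rw [Int.odd_iff] at hso
      have hc5 := h.c5_or
      rcases h1 with ⟨h1, -⟩ | ⟨h1, -⟩ | ⟨h1, -⟩ | ⟨h1, -⟩ | ⟨h1, -⟩
      · rcases hc5 with h2 | h2 <;> rw [h2] at h1 <;> push_cast at h1 <;> omega
      · rcases hc5 with h2 | h2 <;> rw [h2] at h1 <;> push_cast at h1 <;> omega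
      · rcases hc5 with h2 | h2 <;> rw [h2] at h1 <;> push_cast at h1 <;> omega
      · have hG := h.G_ge
        rcases hc5 with h2 | h2 <;> rw [h2] at h1 <;> push_cast at h1 <;> linarith [hG.1]
      · rcases hc5 with h2 | h2 <;> rw [h2] at h1 <;> push_cast at h1 <;> omega

/-- `S = PSp₄(u)`, `v ∣ M` -/
theorem SixN.psp_char (h : SixN p q s c c5 M) {u v E : ℕ} {ε : ℤ} (hv : v.Prime) (hvM : v ∣ M) (hvu : v ∣ u)
    (hu : 2 ≤ u) (hε : ε = 1 ∨ ε = -1) (hM : (M : ℤ) ∣ (u + ε) * v) (hE : 2 * (E : ℤ) = v * (u - ε))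
    (uE : Up p s c E) : False := by
  have hv7 := h.prime_ge hv hvM
  have hvE : v ∣ E := by
    have h1 : (v : ℤ) ∣ 2 * E := ⟨_, hE⟩
    have h2 : v ∣ 2 * E := by exact_mod_cast h1
    exact (Nat.Coprime.dvd_mul_left ((Nat.coprime_primes hv Nat.prime_two).2 (by omega))).1 h2
  have h5 := h.up_prime hv hvM hvE uE
  obtain ⟨m, hm⟩ := hvM
  obtain ⟨k, hk⟩ := hvE
  have hv0 : (v : ℤ) ≠ 0 := by exact_mod_cast hv.ne_zero
  have hk2 : 2 * (k : ℤ) = u - ε := by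
    refine mul_left_cancel₀ hv0 ?_
    rw [hk] at hE
    push_cast at hE
    linarith
  have hmu : (m : ℤ) ∣ u + ε := by
    rw [hm] at hM
    push_cast at hM
    obtain ⟨t, ht⟩ := hM
    refine ⟨t, mul_left_cancel₀ hv0 ?_⟩
    linarith
  -- `c k ∣ m c₅ (s - 1)`
  have h6 : (c * k : ℤ) ∣ m * (c5 * (s - 1)) := by
    have h7 : (v : ℤ) * (c * k) ∣ v * (m * (c5 * (s - 1))) := by
      have h8 := h.hM
      rw [hm] at h8
      push_cast at h8
      have h9 : (v : ℤ) * (m * (c5 * (s - 1))) = s ^ 5 - 1 := by linarith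
      rw [h9, show (v : ℤ) * (c * k) = c * E by rw [hk]; push_cast; ring]
      exact h5
    exact Int.dvd_of_mul_dvd_mul_left hv0 h7
  have hmM : m ∣ M := ⟨v, by rw [hm]; ring⟩
  have hcop : Nat.Coprime (c * k) m := by
    refine Nat.coprime_of_dvd fun r hr h1 h2 => ?_
    have h7 := h.prime_ge hr (h2.trans hmM)
    rcases hr.dvd_mul.1 h1 with h8 | h8
    · have h9 : r ≤ 6 := by
        rcases h.c_or with h10 | h10 <;> rw [h10] at h8 <;> exact (Nat.le_of_dvd (by norm_num) h8).trans (by norm_num)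
      omega
    · have h9 : (r : ℤ) ∣ 2 * ε := by
        have h10 : 2 * ε = (u + ε) - 2 * k := by linarith
        rw [h10]
        exact dvd_sub ((Int.natCast_dvd_natCast.2 h2).trans hmu) (dvd_mul_of_dvd_right (Int.natCast_dvd_natCast.2 h8) _)
      have h10 : (r : ℤ) ∣ 2 := by
        rcases hε with h11 | h11 <;> rw [h11] at h9
        · simpa using h9
        · simpa using h9
      have := Int.le_of_dvd (by norm_num) h10
      omega
  have h7 : (c * k : ℤ) ∣ c5 * (s - 1) := by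
    have h8 : IsCoprime ((c * k : ℕ) : ℤ) (m : ℤ) := Nat.isCoprime_iff_coprime.2 hcop
    push_cast at h8
    exact h8.dvd_of_dvd_mul_left h6
  have h8 := h.e_le h7
  have hc2 : (2 : ℤ) ≤ c := by rcases h.c_or with h1 | h1 <;> rw [h1] <;> norm_num
  have h9 : (u : ℤ) ≤ c5 * (q + 1) + 1 := by
    have h10 : (u : ℤ) ≤ 2 * k + 1 := by rcases hε with h1 | h1 <;> rw [h1] at hk2 <;> linarith
    have h11 : 2 * (k : ℤ) ≤ c * k := by
      have : (0 : ℤ) ≤ k := by positivity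
      nlinarith
    linarith
  have h9' : u ≤ c5 * (q + 1) + 1 := by exact_mod_cast h9
  have hvle : v ≤ u := Nat.le_of_dvd (by omega) hvu
  have hMle : M ≤ (u + 1) * u := by
    have h10 : (0 : ℤ) < (u + ε) * v := by
      have h11 : (0 : ℤ) < u + ε := by rcases hε with h1 | h1 <;> rw [h1] <;> omega
      have h12 : (0 : ℤ) < v := by exact_mod_cast hv.pos
      positivity
    have h11 := Int.le_of_dvd h10 hM
    have h12 : ((u : ℤ) + ε) * v ≤ (u + 1) * u := by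
      have h13 : (u : ℤ) + ε ≤ u + 1 := by rcases hε with h1 | h1 <;> rw [h1] <;> linarith
      have h14 : (v : ℤ) ≤ u := by exact_mod_cast hvle
      gcongr
    exact_mod_cast h11.trans h12
  have hmono : ∀ b : ℕ, u ≤ b → (u + 1) * u ≤ (b + 1) * b := fun b hb => Nat.mul_le_mul (by omega) hb
  have hq3 := h.q3
  rcases h.lo_nat with ⟨h10, h11⟩ | ⟨h10, h11, h12⟩
  · have h13 := hmono (q + 2) (by rw [h10] at h9'; omega)
    obtain ⟨l, hl⟩ : ∃ l, q = l + 3 := ⟨q - 3, by omega⟩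
    rw [hl] at h11 h13
    rw [show l + 3 - 1 = l + 2 by omega] at h11
    have h14 : ((l + 3) ^ 3 + (l + 3)) * (l + 2) = (l + 3 + 2 + 1) * (l + 3 + 2) +
        (l ^ 4 + 11 * l ^ 3 + 45 * l ^ 2 + 75 * l + 30) := by ring
    omega
  · rcases Nat.lt_or_ge q 13 with h13 | h13
    · have h14 : M = 1181 ∨ M = 3221 := by
        rcases h.five_small h10 (by omega) with h1 | h1 | h1 | h1 | h1 | h1 | h1 | h1 <;> omega
      have hMp : M.Prime := by rcases h14 with h1 | h1 <;> rw [h1] <;> norm_num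
      have h15 : v = M := (Nat.prime_dvd_prime_iff_eq hv hMp).1 ⟨m, hm⟩
      rw [h10] at h9'
      omega
    · have h14 := hmono (5 * q + 6) (by rw [h10] at h9'; omega)
      obtain ⟨l, hl⟩ : ∃ l, q = l + 13 := ⟨q - 13, by omega⟩
      rw [hl] at h11 h14
      rw [show l + 13 - 1 = l + 12 by omega] at h11
      have h15 : ((l + 13) ^ 3 + (l + 13)) * (l + 12) = 5 * ((5 * (l + 13) + 6 + 1) * (5 * (l + 13) + 6)) +
        (l ^ 4 + 51 * l ^ 3 + 851 * l ^ 2 + 4731 * l + 960) := by ring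
      omega

end Cfsg.Agent.R2.Spec.X7.N6
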