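import Cfsg.Agent.R2.Spec.X7.N6.SThree

/-!
# S3435, box X7, `n = 6`, packet N6-S (helper8): `L₃(u)`, `U₃(u)`, the semisimple tori

* `SixN.l3_one` : `M` divides `(U² + U + 1) / d`;
* `SixN.l3_two` : `M` divides `(U² - 1) / d`.
-/

set_option autoImplicit false
set_option maxHeartbeats 1000000

namespace Cfsg.Agent.R2.Spec.X7.N6

variable {p q : ℕ} {s : ℤ} {c c5 M : ℕ}

/-- `s = t + 3` or `s = - t - 3` -/
lemma SixN.s_t (h : SixN p q s c c5 M) : ∃ t : ℤ, 0 ≤ t ∧ (s = t + 3 ∨ s = -t - 3) := by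
  rcases h.s_cases with h1 | h1
  · exact ⟨s - 3, by omega, Or.inl (by ring)⟩
  · exact ⟨-s - 3, by omega, Or.inr (by ring)⟩

lemma SixN.s_t9 (h : SixN p q s c c5 M) (h5 : c5 = 5) : ∃ t : ℤ, 0 ≤ t ∧ (s = t + 9 ∨ s = -t - 9) := by
  have h9 := (h.five h5).2
  rcases h.hs with h1 | h1
  · exact ⟨s - 9, by omega, Or.inl (by ring)⟩
  · exact ⟨-s - 9, by omega, Or.inr (by ring)⟩

lemma dvd_three {a b : ℤ} (h : a * b = 3) : a = 1 ∨ a = -1 ∨ a = 3 ∨ a = -3 := by
  have h1 : a ∣ 3 := ⟨b, h.symm⟩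
  have h2 := Int.le_of_dvd (by norm_num) h1
  have h3 := Int.le_of_dvd (by norm_num) ((neg_dvd).2 h1)
  have h4 : a ≠ 0 := by rintro rfl; norm_num at h
  have h5 : a ≠ 2 := by rintro rfl; omega
  have h6 : a ≠ -2 := by rintro rfl; omega
  omega

lemma SixN.phi_ge (h : SixN p q s c c5 M) : 61 ≤ s ^ 4 + s ^ 3 + s ^ 2 + s + 1 := by
  obtain ⟨t, ht, h1 | h1⟩ := h.s_t
  · rw [h1]
    have : (t + 3) ^ 4 + (t + 3) ^ 3 + (t + 3) ^ 2 + (t + 3) + 1 = 121 + (t ^ 4 + 13 * t ^ 3 + 64 * t ^ 2 + 142 * t) := by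
      ring
    rw [this]
    have : 0 ≤ t ^ 4 + 13 * t ^ 3 + 64 * t ^ 2 + 142 * t := by positivity
    linarith
  · rw [h1]
    have : (-t - 3) ^ 4 + (-t - 3) ^ 3 + (-t - 3) ^ 2 + (-t - 3) + 1 = 61 + (t ^ 4 + 11 * t ^ 3 + 46 * t ^ 2 + 86 * t) := by
      ring
    rw [this]
    have : 0 ≤ t ^ 4 + 11 * t ^ 3 + 46 * t ^ 2 + 86 * t := by positivity
    linarith

/-- the divisors of `c₅` -/
lemma SixN.j_cases (h : SixN p q s c c5 M) {e j γ : ℤ} (hγ : γ ≠ 0) (he : 0 ≤ e) (h1 : c5 * γ = e * (j * γ)) :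
    j = 1 ∨ (j = 5 ∧ c5 = 5) := by
  have h2 : (c5 : ℤ) = e * j := mul_right_cancel₀ hγ (by rw [h1]; ring)
  have hj : j ∣ c5 := ⟨e, by rw [h2]; ring⟩
  have hpos : 0 < (c5 : ℤ) := by rcases h.c5_or with h3 | h3 <;> rw [h3] <;> norm_num
  have hj0 : 0 < j := by
    rw [h2] at hpos
    exact pos_of_mul_pos_right hpos he
  rcases h.c5_or with h3 | h3
  · left
    rw [h3] at hj
    have := Int.le_of_dvd (by norm_num) hj
    push_cast at this
    omega
  · rw [h3] at hj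
    have h4 : j.toNat ∣ 5 := by
      have h5 : (j.toNat : ℤ) = j := Int.toNat_of_nonneg hj0.le
      have h6 : (j.toNat : ℤ) ∣ ((5 : ℕ) : ℤ) := by rw [h5]; exact hj
      exact Int.natCast_dvd_natCast.1 h6
    rcases (Nat.dvd_prime (by norm_num)).1 h4 with h5 | h5
    · left; omega
    · right; exact ⟨by omega, h3⟩

section zero

variable {d j : ℤ}

/-- `M` divides `(U² + U + 1) / d`: the zero case -/
lemma SixN.zeroA (h : SixN p q s c c5 M) (hd : d = 1 ∨ d = 3) (hj : j = 1 ∨ (j = 5 ∧ c5 = 5))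
    (hz : (d * (s ^ 2 + 2 * s + 2) - 3 * j) * (d * (s ^ 2 + 2 * s + 2) - j) = d * j * ((s ^ 3 - 1) * (s + 1))) :
    s = -3 ∧ d = 3 ∧ j = 1 := by
  obtain ⟨t, ht, h1⟩ := h.s_t
  rcases hj with rfl | ⟨rfl, h5⟩
  · rcases hd with rfl | rfl
    · exfalso
      rcases h1 with rfl | rfl
      · have h2 : 120 + 106 * t + 31 * t ^ 2 + 3 * t ^ 3 = 0 := by linear_combination hz
        have : 0 ≤ 106 * t + 31 * t ^ 2 + 3 * t ^ 3 := by positivity
        linarith
      · have h2 : 48 + 58 * t + 23 * t ^ 2 + 3 * t ^ 3 = 0 := by linear_combination -hz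
        have : 0 ≤ 58 * t + 23 * t ^ 2 + 3 * t ^ 3 := by positivity
        linarith
    · rcases h1 with rfl | rfl
      · exfalso
        have h2 : 2088 + 1950 * t + 681 * t ^ 2 + 105 * t ^ 3 + 6 * t ^ 4 = 0 := by linear_combination hz
        have : 0 ≤ 1950 * t + 681 * t ^ 2 + 105 * t ^ 3 + 6 * t ^ 4 := by positivity
        linarith
      · have h2 : 66 * t + 87 * t ^ 2 + 39 * t ^ 3 + 6 * t ^ 4 = 0 := by linear_combination hz
        have h3 : t = 0 := by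
          have h4 : 0 ≤ 87 * t ^ 2 + 39 * t ^ 3 + 6 * t ^ 4 := by positivity
          linarith
        exact ⟨by rw [h3]; norm_num, rfl, rfl⟩
  · exfalso
    obtain ⟨t, ht, h1⟩ := h.s_t9 h5
    rcases hd with rfl | rfl
    · rcases h1 with rfl | rfl
      · have h2 : 28144 + 12150 * t + 1983 * t ^ 2 + 145 * t ^ 3 + 4 * t ^ 4 = 0 := by linear_combination -hz
        have : 0 ≤ 12150 * t + 1983 * t ^ 2 + 145 * t ^ 3 + 4 * t ^ 4 := by positivity
        linarith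
      · have h2 : 26200 + 11610 * t + 1929 * t ^ 2 + 143 * t ^ 3 + 4 * t ^ 4 = 0 := by linear_combination -hz
        have : 0 ≤ 11610 * t + 1929 * t ^ 2 + 143 * t ^ 3 + 4 * t ^ 4 := by positivity
        linarith
    · rcases h1 with rfl | rfl
      · have h2 : 23376 + 12210 * t + 2337 * t ^ 2 + 195 * t ^ 3 + 6 * t ^ 4 = 0 := by linear_combination -hz
        have : 0 ≤ 12210 * t + 2337 * t ^ 2 + 195 * t ^ 3 + 6 * t ^ 4 := by positivity
        linarith
      · have h2 : 53400 + 22350 * t + 3471 * t ^ 2 + 237 * t ^ 3 + 6 * t ^ 4 = 0 := by linear_combination -hz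
        have : 0 ≤ 22350 * t + 3471 * t ^ 2 + 237 * t ^ 3 + 6 * t ^ 4 := by positivity
        linarith

/-- `M` divides `(U² - 1) / d`: the zero case -/
lemma SixN.zeroB (h : SixN p q s c c5 M) (hd : d = 1 ∨ d = 3) (hj : j = 1 ∨ (j = 5 ∧ c5 = 5))
    (hz : (d * (s ^ 2 + 2 * s + 2)) ^ 2 + 3 * j * (d * (s ^ 2 + 2 * s + 2)) + 3 * j ^ 2 =
      d * j * ((s ^ 3 - 1) * (s + 1))) : False := by
  obtain ⟨t, ht, h1⟩ := h.s_t
  rcases hj with rfl | ⟨rfl, h5⟩
  · rcases hd with rfl | rfl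
    · rcases h1 with rfl | rfl
      · have h2 : 239 + 162 * t + 38 * t ^ 2 + 3 * t ^ 3 = 0 := by linear_combination hz
        have : 0 ≤ 162 * t + 38 * t ^ 2 + 3 * t ^ 3 := by positivity
        linarith
      · have h2 : 13 + 30 * t + 16 * t ^ 2 + 3 * t ^ 3 = 0 := by linear_combination -hz
        have : 0 ≤ 30 * t + 16 * t ^ 2 + 3 * t ^ 3 := by positivity
        linarith
    · rcases h1 with rfl | rfl
      · have h2 : 2445 + 2118 * t + 702 * t ^ 2 + 105 * t ^ 3 + 6 * t ^ 4 = 0 := by linear_combination hz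
        have : 0 ≤ 2118 * t + 702 * t ^ 2 + 105 * t ^ 3 + 6 * t ^ 4 := by positivity
        linarith
      · have h2 : 105 + 150 * t + 108 * t ^ 2 + 39 * t ^ 3 + 6 * t ^ 4 = 0 := by linear_combination hz
        have : 0 ≤ 150 * t + 108 * t ^ 2 + 39 * t ^ 3 + 6 * t ^ 4 := by positivity
        linarith
  · obtain ⟨t, ht, h1⟩ := h.s_t9 h5
    rcases hd with rfl | rfl
    · rcases h1 with rfl | rfl
      · have h2 : 24609 + 11450 * t + 1948 * t ^ 2 + 145 * t ^ 3 + 4 * t ^ 4 = 0 := by linear_combination -hz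
        have : 0 ≤ 11450 * t + 1948 * t ^ 2 + 145 * t ^ 3 + 4 * t ^ 4 := by positivity
        linarith
      · have h2 : 23925 + 11050 * t + 1894 * t ^ 2 + 143 * t ^ 3 + 4 * t ^ 4 = 0 := by linear_combination -hz
        have : 0 ≤ 11050 * t + 1894 * t ^ 2 + 143 * t ^ 3 + 4 * t ^ 4 := by positivity
        linarith
    · rcases h1 with rfl | rfl
      · have h2 : 12771 + 10110 * t + 2232 * t ^ 2 + 195 * t ^ 3 + 6 * t ^ 4 = 0 := by linear_combination -hz
        have : 0 ≤ 10110 * t + 2232 * t ^ 2 + 195 * t ^ 3 + 6 * t ^ 4 := by positivity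
        linarith
      · have h2 : 46575 + 20670 * t + 3366 * t ^ 2 + 237 * t ^ 3 + 6 * t ^ 4 = 0 := by linear_combination -hz
        have : 0 ≤ 20670 * t + 3366 * t ^ 2 + 237 * t ^ 3 + 6 * t ^ 4 := by positivity
        linarith

/-- the unipotent case: the zero case -/
lemma SixN.zeroC (h : SixN p q s c c5 M) (hd : d = 1 ∨ d = 3) (hj : j = 1 ∨ (j = 5 ∧ c5 = 5))
    (hz : (d * (s ^ 2 + 2 * s + 2)) ^ 2 + 3 * j ^ 2 = 4 * d * j * ((s ^ 3 - 1) * (s + 1))) : False := by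
  obtain ⟨t, ht, h1⟩ := h.s_t
  rcases hj with rfl | ⟨rfl, h5⟩
  · rcases hd with rfl | rfl
    · rcases h1 with rfl | rfl
      · have h2 : 124 + 264 * t + 154 * t ^ 2 + 36 * t ^ 3 + 3 * t ^ 4 = 0 := by linear_combination -hz
        have : 0 ≤ 264 * t + 154 * t ^ 2 + 36 * t ^ 3 + 3 * t ^ 4 := by positivity
        linarith
      · have h2 : 196 + 288 * t + 154 * t ^ 2 + 36 * t ^ 3 + 3 * t ^ 4 = 0 := by linear_combination -hz
        have : 0 ≤ 288 * t + 154 * t ^ 2 + 36 * t ^ 3 + 3 * t ^ 4 := by positivity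
        linarith
    · have h2 : s * (s ^ 3 - 8 * s ^ 2 - 24 * s - 28) = 17 := by
        have h3 : 3 * (s * (s ^ 3 - 8 * s ^ 2 - 24 * s - 28)) = 3 * 17 := by linear_combination -hz
        linarith
      have h3 : s ∣ 17 := ⟨_, h2.symm⟩
      have h4 := Int.le_of_dvd (by norm_num) h3
      have h5 := Int.le_of_dvd (by norm_num) ((neg_dvd).2 h3)
      have h6 : s.natAbs ∣ 17 := Int.natAbs_dvd_natAbs.2 h3
      rcases (Nat.dvd_prime (by norm_num)).1 h6 with h7 | h7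
      · have := h.s_cases
        omega
      · have h8 : s = 17 ∨ s = -17 := by omega
        rcases h8 with rfl | rfl <;> norm_num at h2
  · obtain ⟨t, ht, h1⟩ := h.s_t9 h5
    rcases hd with rfl | rfl
    · rcases h1 with rfl | rfl
      · have h2 : 135324 + 59120 * t + 9658 * t ^ 2 + 700 * t ^ 3 + 19 * t ^ 4 = 0 := by linear_combination -hz
        have : 0 ≤ 59120 * t + 9658 * t ^ 2 + 700 * t ^ 3 + 19 * t ^ 4 := by positivity
        linarith
      · have h2 : 112500 + 51400 * t + 8794 * t ^ 2 + 668 * t ^ 3 + 19 * t ^ 4 = 0 := by linear_combination -hz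
        have : 0 ≤ 51400 * t + 8794 * t ^ 2 + 668 * t ^ 3 + 19 * t ^ 4 := by positivity
        linarith
    · rcases h1 with rfl | rfl
      · have h2 : 344916 + 153120 * t + 25362 * t ^ 2 + 1860 * t ^ 3 + 51 * t ^ 4 = 0 := by linear_combination -hz
        have : 0 ≤ 153120 * t + 25362 * t ^ 2 + 1860 * t ^ 3 + 51 * t ^ 4 := by positivity
        linarith
      · have h2 : 312300 + 141720 * t + 24066 * t ^ 2 + 1812 * t ^ 3 + 51 * t ^ 4 = 0 := by linear_combination -hz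
        have : 0 ≤ 141720 * t + 24066 * t ^ 2 + 1812 * t ^ 3 + 51 * t ^ 4 := by positivity
        linarith

end zero

end Cfsg.Agent.R2.Spec.X7.N6
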