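import Cfsg.Agent.R2.Spec.X7.N6.SL3

/-!
# S3435, box X7, `n = 6`, packet N6-S (helper8): `L₃(u)`, `U₃(u)`

* `SixN.l3_one` : `M` divides `(U² + U + 1) / d`;
* `SixN.l3_two` : `M` divides `(U² - 1) / d`;
* `SixN.l3_char` : `M` divides `v |U - 1| / d`, `v ∣ M`.
-/

set_option autoImplicit false
set_option maxHeartbeats 1000000

namespace Cfsg.Agent.R2.Spec.X7.N6

variable {p q : ℕ} {s : ℤ} {c c5 M : ℕ}

lemma sgn_facts {u : ℕ} {U : ℤ} (hU : U = u ∨ U = -(u : ℤ)) : U ^ 2 = (u : ℤ) ^ 2 ∧ U ≤ u ∧ -(u : ℤ) ≤ U := by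
  rcases hU with h | h <;> rw [h] <;> refine ⟨by ring, ?_, ?_⟩ <;> omega

/-- the number `U² + U + 1` -/
lemma nat_one {u T d : ℕ} {U : ℤ} (hU : U = u ∨ U = -(u : ℤ)) (e : (d : ℤ) * T = U ^ 2 + U + 1) :
    d * T = u ^ 2 + u + 1 ∨ d * T = u ^ 2 - u + 1 ∨ d * T = u ^ 2 - 1 := by
  have huu : u ≤ u ^ 2 := Nat.le_self_pow two_ne_zero u
  rcases hU with h | h
  · left
    rw [h] at e
    exact_mod_cast e
  · right; left
    rw [h] at e
    have h1 : ((d * T : ℕ) : ℤ) = ((u ^ 2 - u + 1 : ℕ) : ℤ) := by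
      push_cast [Nat.cast_sub huu]
      rw [e]
      ring
    exact_mod_cast h1

lemma nat_two {u T d : ℕ} {U : ℤ} (h2 : 2 ≤ u) (hU : U = u ∨ U = -(u : ℤ)) (e : (d : ℤ) * T = U ^ 2 - 1) :
    d * T = u ^ 2 + u + 1 ∨ d * T = u ^ 2 - u + 1 ∨ d * T = u ^ 2 - 1 := by
  right; right
  have h1 : ((d * T : ℕ) : ℤ) = ((u ^ 2 - 1 : ℕ) : ℤ) := by
    rw [Nat.cast_sub (Nat.one_le_pow _ _ (by omega))]
    push_cast
    rw [e, (sgn_facts hU).1]
  exact_mod_cast h1

/-- `q ^ 3 < N` from a comparison -/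
lemma SixN.big_of (h : SixN p q s c c5 M) {N u : ℕ} (h1 : M ≤ N + 2 * u) (h2 : u ^ 2 ≤ 3 * N + u) : q ^ 3 < N := by
  by_contra hcon
  push Not at hcon
  have hq := h.q3
  have hcube : q * (3 * 3) ≤ q ^ 3 := by
    rw [show q ^ 3 = q * (q * q) by ring]
    exact Nat.mul_le_mul le_rfl (Nat.mul_le_mul hq hq)
  rcases h.lo_lin with h3 | ⟨h3, h9⟩
  · -- `q ^ 3 < 2 u`, `u ^ 2 < 7 u`
    have h4 : q ^ 3 < 2 * u := by omega
    have h5 : u ^ 2 < 7 * u := by omega
    have h6 : u < 7 := by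
      rw [sq] at h5
      exact Nat.lt_of_mul_lt_mul_right h5
    omega
  · have h4 : 3 * q ^ 3 < 10 * u := by omega
    have h5 : u ^ 2 < 11 * u := by omega
    have h6 : u < 11 := by
      rw [sq] at h5
      exact Nat.lt_of_mul_lt_mul_right h5
    omega

theorem SixN.l3_one (h : SixN p q s c c5 M) {u d T N : ℕ} {U : ℤ} (hU : U = u ∨ U = -(u : ℤ)) (hU2 : U ≠ -2)
    (h2 : 2 ≤ u) (hd : d = 1 ∨ d = 3) (e1 : (d : ℤ) * T = U ^ 2 + U + 1) (e2 : (d : ℤ) * N = U ^ 2 - 1)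
    (hMT : M ∣ T) (uN : Up p s c N) : U = 13 ∧ s = -3 ∧ q = 3 ∧ d = 3 := by
  obtain ⟨hUsq, hUle, hUge⟩ := sgn_facts hU
  have hdz : (d : ℤ) = 1 ∨ (d : ℤ) = 3 := by rcases hd with h1 | h1 <;> rw [h1] <;> norm_num
  have hd0 : (d : ℤ) ≠ 0 := by rcases hdz with h1 | h1 <;> rw [h1] <;> norm_num
  have hY := nat_one hU e1
  have hMY : M ∣ d * T := hMT.mul_left d
  obtain ⟨e, rfl⟩ := hMT
  obtain ⟨γ, hγ⟩ : ∃ γ : ℤ, γ = (M * e : ℕ) - (N : ℤ) := ⟨_, rfl⟩
  have hdγ : (d : ℤ) * γ = U + 2 := by rw [hγ]; linear_combination e1 - e2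
  have hγ0 : γ ≠ 0 := by
    rintro rfl
    rw [mul_zero] at hdγ
    omega
  have hT0 : 0 < M * e := by
    rcases Nat.eq_zero_or_pos (M * e) with h0 | h0
    · exfalso
      rw [h0] at e1
      push_cast at e1
      nlinarith [sq_nonneg (2 * U + 1)]
    · exact h0
  have he : 0 < e := by
    rcases Nat.eq_zero_or_pos e with h0 | h0
    · rw [h0, mul_zero] at hT0; omega
    · exact h0
  have hMT : M ≤ M * e := Nat.le_mul_of_pos_right _ he
  have hγu : |γ| ≤ u + 2 := by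
    have h3 : |(d : ℤ) * γ| ≤ u + 2 := by rw [hdγ, abs_le]; omega
    rw [abs_mul] at h3
    have h4 : |γ| ≤ |(d : ℤ)| * |γ| := by
      have h5 : 1 ≤ |(d : ℤ)| := by rcases hdz with h1 | h1 <;> rw [h1] <;> norm_num
      have := abs_nonneg γ
      nlinarith
    linarith
  have hγu' := abs_le.1 hγu
  have hcop : Nat.Coprime N M := by
    refine Nat.coprime_of_dvd fun r hr h1 h3 => ?_
    have h4 := h.prime_ge hr h3
    have h5 : (r : ℤ) ∣ γ := by
      rw [hγ]
      exact dvd_sub (Int.natCast_dvd_natCast.2 (h3.mul_right e)) (Int.natCast_dvd_natCast.2 h1)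
    have h6 : (r : ℤ) ∣ 3 := by
      have h7 : (3 : ℤ) = d * N - d * γ * (U - 2) := by rw [e2, hdγ]; ring
      rw [h7]
      exact dvd_sub (dvd_mul_of_dvd_right (Int.natCast_dvd_natCast.2 h1) _)
        ((dvd_mul_of_dvd_right h5 _).mul_right _)
    have h7 := Int.le_of_dvd (by norm_num) h6
    omega
  have hdN : (u : ℤ) ^ 2 ≤ 3 * N + 1 := by
    rw [← hUsq]
    rcases hdz with h1 | h1 <;> rw [h1] at e2 <;> linarith
  have hdN' : u ^ 2 ≤ 3 * N + 1 := by exact_mod_cast hdN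
  have hbig : q ^ 3 < N := h.big_of (u := u) (by omega) (by omega)
  have hhalf : q = 3 ∧ N ≤ 72 → U = 13 ∧ s = -3 ∧ q = 3 ∧ d = 3 := by
    rintro ⟨h3, hN⟩
    obtain ⟨hp3, hc2⟩ := h.three_c h3
    have hu18 : u < 18 := by
      by_contra hcon
      have : 18 ^ 2 ≤ u ^ 2 := Nat.pow_le_pow_left (by omega) 2
      omega
    have hM : M = 121 ∨ M = 61 := by rcases h.three h3 with h4 | h4 <;> omega
    have hfin : ¬ (¬ M ∣ u ^ 2 + u + 1 ∧ ¬ M ∣ u ^ 2 - u + 1 ∧ ¬ M ∣ u ^ 2 - 1) := by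
      rintro ⟨h4, h5, h6⟩
      rcases hY with h1 | h1 | h1 <;> rw [h1] at hMY
      · exact h4 hMY
      · exact h5 hMY
      · exact h6 hMY
    have hs : M = 61 → s = -3 := fun h4 => by rcases h.three h3 with h5 | h5 <;> omega
    rcases chk_a3 hM h2 hu18 with ⟨h4, h5⟩ | ⟨h4, h5⟩ | h4
    · rw [h5] at hU
      rcases hU with h6 | h6
      · rw [h6] at e2
        refine ⟨h6, hs h4, h3, ?_⟩
        rcases hd with h7 | h7
        · rw [h7] at e2
          push_cast at e2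
          omega
        · exact h7
      · exfalso
        rw [h4, h6] at e1
        push_cast at e1
        rcases hdz with h7 | h7 <;> rw [h7] at e1 <;> omega
    · exfalso
      rw [h5] at hU
      rcases hU with h6 | h6
      · rw [h4, h6] at e1
        push_cast at e1
        rcases hdz with h7 | h7 <;> rw [h7] at e1 <;> omega
      · rw [h6] at e2
        push_cast at e2
        rcases hdz with h7 | h7 <;> rw [h7] at e2
        · omega
        · rw [hs h4, hc2, hp3] at uN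
          have := (not_up_three uN).2.2.2.1
          omega
    · exact absurd h4 hfin
  by_cases h3 : q = 3 ∧ N ≤ 72
  · exact hhalf h3
  have hq3' : q = 3 → 72 < N := by
    intro h4
    by_contra h5
    exact h3 ⟨h4, by omega⟩
  have hrel : (1 : ℤ) * (M * e : ℕ) + (-1) * N = γ := by rw [hγ]; ring
  rcases h.bracket1 uN hcop hbig hq3' (Or.inr rfl) hrel with h1 | ⟨h1, h4⟩ | ⟨h1, j, h4, h5⟩
  · exfalso
    refine h.small_a h2 hY hMY ?_
    obtain ⟨B, hB⟩ : ∃ B : ℕ, B = 2 * (c5 * (q + 1) + 1) := ⟨_, rfl⟩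
    have h4 : (N : ℤ) ≤ B * |γ| := by rw [hB]; push_cast; exact h1
    rw [← hB]
    -- `u ^ 2 - 1 ≤ B (u + 2)`
    have h5 : (d : ℤ) * |γ| ≤ u + 2 := by
      have h6 : (d : ℤ) * |γ| = |U + 2| := by
        rw [← hdγ, abs_mul, abs_of_nonneg (by positivity : (0 : ℤ) ≤ d)]
      rw [h6, abs_le]
      omega
    have h6 : (u : ℤ) ^ 2 - 1 ≤ B * (u + 2) := by
      calc (u : ℤ) ^ 2 - 1 = d * N := by rw [e2, hUsq]
        _ ≤ d * (B * |γ|) := by gcongr
        _ = B * (d * |γ|) := by ring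
        _ ≤ B * (u + 2) := by gcongr
    have h7 : (u : ℤ) < B + 3 := by
      by_contra hcon
      push Not at hcon
      nlinarith
    have h8 : u < B + 3 := by exact_mod_cast h7
    omega
  · exfalso
    have hphi := h.phi
    have hge := h.phi_ge
    have h5 : (M : ℤ) * e = γ * (s ^ 4 + s ^ 3 + s ^ 2 + s + 1) := by
      linear_combination γ * hphi - (M : ℤ) * h1
    have hγpos : 0 < γ := by
      have h6 : (0 : ℤ) < γ * (s ^ 4 + s ^ 3 + s ^ 2 + s + 1) := by rw [← h5]; exact_mod_cast hT0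
      exact pos_of_mul_pos_left h6 (by linarith)
    push_cast at e1
    have h6 : (U + 2) * ((s ^ 4 + s ^ 3 + s ^ 2 + s + 1) - (U - 1)) = 3 := by
      linear_combination e1 - d * h5 + (-(s ^ 4 + s ^ 3 + s ^ 2 + s + 1)) * hdγ
    rcases dvd_three h6 with h7 | h7 | h7 | h7
    · have : U = -1 := by omega
      omega
    · have : (d : ℤ) * γ > 0 := by positivity
      omega
    · have : U = 1 := by omega
      omega
    · have : (d : ℤ) * γ > 0 := by positivity
      omega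
  · exfalso
    have h5' : j * γ = s ^ 2 + 2 * s + 2 := by rw [h5]; ring
    have hj := h.j_cases (j := j) hγ0 (Int.natCast_nonneg e) (by rw [h5', h1]; ring)
    have hz : ((d : ℤ) * (s ^ 2 + 2 * s + 2) - 3 * j) * (d * (s ^ 2 + 2 * s + 2) - j) =
        d * j * ((s ^ 3 - 1) * (s + 1)) := by
      rw [← h5', ← h4]
      linear_combination ((d : ℤ) * j * γ * j - 3 * j * j + j * j * (U + 2 - 1)) * hdγ - (j ^ 2) * e2
    obtain ⟨h6, h7, h8⟩ := h.zeroA hdz hj hz
    -- then `q = 3`, `N = 56`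
    apply h3
    rw [h8, h6] at h4
    norm_num at h4
    have hq : q = 3 := by rcases h.hs with h9 | h9 <;> omega
    exact ⟨hq, by omega⟩

theorem SixN.l3_two (h : SixN p q s c c5 M) {u d T N : ℕ} {U : ℤ} (hU : U = u ∨ U = -(u : ℤ)) (hU2 : U ≠ -2)
    (h2 : 2 ≤ u) (hd : d = 1 ∨ d = 3) (e1 : (d : ℤ) * N = U ^ 2 + U + 1) (e2 : (d : ℤ) * T = U ^ 2 - 1)
    (hMT : M ∣ T) (uN : Up p s c N) : False := by
  obtain ⟨hUsq, hUle, hUge⟩ := sgn_facts hU
  have hdz : (d : ℤ) = 1 ∨ (d : ℤ) = 3 := by rcases hd with h1 | h1 <;> rw [h1] <;> norm_num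
  have hd0 : (d : ℤ) ≠ 0 := by rcases hdz with h1 | h1 <;> rw [h1] <;> norm_num
  have hY := nat_two h2 hU e2
  have hMY : M ∣ d * T := hMT.mul_left d
  obtain ⟨e, rfl⟩ := hMT
  obtain ⟨γ, hγ⟩ : ∃ γ : ℤ, γ = (M * e : ℕ) - (N : ℤ) := ⟨_, rfl⟩
  have hdγ : (d : ℤ) * γ = -(U + 2) := by rw [hγ]; linear_combination e2 - e1
  have hγ0 : γ ≠ 0 := by
    rintro rfl
    rw [mul_zero] at hdγ
    omega
  have hT0 : 0 < M * e := by
    rcases Nat.eq_zero_or_pos (M * e) with h0 | h0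
    · exfalso
      rw [h0, hUsq] at e2
      push_cast at e2
      have : (2 : ℤ) ≤ u := by exact_mod_cast h2
      nlinarith
    · exact h0
  have he : 0 < e := by
    rcases Nat.eq_zero_or_pos e with h0 | h0
    · rw [h0, mul_zero] at hT0; omega
    · exact h0
  have hMT : M ≤ M * e := Nat.le_mul_of_pos_right _ he
  have hγu : |γ| ≤ u + 2 := by
    have h3 : |(d : ℤ) * γ| ≤ u + 2 := by rw [hdγ, abs_le]; omega
    rw [abs_mul] at h3
    have h4 : |γ| ≤ |(d : ℤ)| * |γ| := by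
      have h5 : 1 ≤ |(d : ℤ)| := by rcases hdz with h1 | h1 <;> rw [h1] <;> norm_num
      have := abs_nonneg γ
      nlinarith
    linarith
  have hγu' := abs_le.1 hγu
  have hcop : Nat.Coprime N M := by
    refine Nat.coprime_of_dvd fun r hr h1 h3 => ?_
    have h4 := h.prime_ge hr h3
    have h5 : (r : ℤ) ∣ γ := by
      rw [hγ]
      exact dvd_sub (Int.natCast_dvd_natCast.2 (h3.mul_right e)) (Int.natCast_dvd_natCast.2 h1)
    have h6 : (r : ℤ) ∣ 3 := by
      have h7 : (3 : ℤ) = d * N - d * γ * (-U + 1) := by rw [e1, hdγ]; ring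
      rw [h7]
      exact dvd_sub (dvd_mul_of_dvd_right (Int.natCast_dvd_natCast.2 h1) _)
        ((dvd_mul_of_dvd_right h5 _).mul_right _)
    have h7 := Int.le_of_dvd (by norm_num) h6
    omega
  have hdN : (u : ℤ) ^ 2 ≤ 3 * N + u := by
    rw [← hUsq]
    rcases hdz with h1 | h1 <;> rw [h1] at e1 <;> linarith
  have hdN' : u ^ 2 ≤ 3 * N + u := by exact_mod_cast hdN
  have hbig : q ^ 3 < N := h.big_of (u := u) (by omega) hdN'
  have hq3' : q = 3 → 72 < N := by
    intro h3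
    by_contra hN
    have hu18 : u < 18 := by
      by_contra hcon
      have : 18 * 18 ≤ u ^ 2 := by rw [sq]; exact Nat.mul_le_mul (by omega) (by omega)
      have h6 : u ^ 2 ≤ 216 + u := by omega
      have h7 : u * 17 ≤ u ^ 2 - u := by
        rw [sq]
        have : u * 18 ≤ u * u := Nat.mul_le_mul le_rfl (by omega)
        omega
      omega
    have hM : M = 121 ∨ M = 61 := by rcases h.three h3 with h4 | h4 <;> omega
    rcases chk_a3 hM h2 hu18 with ⟨h4, h5⟩ | ⟨h4, h5⟩ | ⟨h4, h5, h6⟩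
    · rw [hUsq, h4, h5] at e2
      push_cast at e2
      rcases hdz with h7 | h7 <;> rw [h7] at e2 <;> omega
    · rw [hUsq, h4, h5] at e2
      push_cast at e2
      rcases hdz with h7 | h7 <;> rw [h7] at e2 <;> omega
    · rcases hY with h1 | h1 | h1 <;> rw [h1] at hMY
      · exact h4 hMY
      · exact h5 hMY
      · exact h6 hMY
  have hrel : (1 : ℤ) * (M * e : ℕ) + (-1) * N = γ := by rw [hγ]; ring
  rcases h.bracket1 uN hcop hbig hq3' (Or.inr rfl) hrel with h1 | ⟨h1, h4⟩ | ⟨h1, j, h4, h5⟩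
  · refine h.small_a h2 hY hMY ?_
    obtain ⟨B, hB⟩ : ∃ B : ℕ, B = 2 * (c5 * (q + 1) + 1) := ⟨_, rfl⟩
    have h4 : (N : ℤ) ≤ B * |γ| := by rw [hB]; push_cast; exact h1
    rw [← hB]
    have h5 : (d : ℤ) * |γ| ≤ u + 2 := by
      have h6 : (d : ℤ) * |γ| = |U + 2| := by
        rw [← abs_neg (U + 2), ← hdγ, abs_mul, abs_of_nonneg (by positivity : (0 : ℤ) ≤ d)]
      rw [h6, abs_le]
      omega
    have h6 : (u : ℤ) ^ 2 - u + 1 ≤ B * (u + 2) := by
      calc (u : ℤ) ^ 2 - u + 1 ≤ d * N := by rw [e1, hUsq]; linarith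
        _ ≤ d * (B * |γ|) := by gcongr
        _ = B * (d * |γ|) := by ring
        _ ≤ B * (u + 2) := by gcongr
    have h7 : (u : ℤ) < B + 3 := by
      by_contra hcon
      push Not at hcon
      nlinarith
    have h8 : u < B + 3 := by exact_mod_cast h7
    omega
  · have hphi := h.phi
    have hge := h.phi_ge
    have h5 : (M : ℤ) * e = γ * (s ^ 4 + s ^ 3 + s ^ 2 + s + 1) := by
      linear_combination γ * hphi - (M : ℤ) * h1
    have hγpos : 0 < γ := by
      have h6 : (0 : ℤ) < γ * (s ^ 4 + s ^ 3 + s ^ 2 + s + 1) := by rw [← h5]; exact_mod_cast hT0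
      exact pos_of_mul_pos_left h6 (by linarith)
    push_cast at e2
    -- `(U + 2) (U - 2) + 3 = - (U + 2) Φ`
    have h6 : (U + 2) * (-(s ^ 4 + s ^ 3 + s ^ 2 + s + 1) - (U - 2)) = 3 := by
      linear_combination e2 - d * h5 + (-(s ^ 4 + s ^ 3 + s ^ 2 + s + 1)) * hdγ
    have hdg : (d : ℤ) * γ > 0 := by positivity
    rcases dvd_three h6 with h7 | h7 | h7 | h7
    · omega
    · rw [h7] at h6
      have h8 : U = -3 := by omega
      rw [h8] at h6
      linarith
    · omega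
    · rw [h7] at h6
      have h8 : U = -5 := by omega
      rw [h8] at h6
      linarith
  · have h5' : j * γ = s ^ 2 + 2 * s + 2 := by rw [h5]; ring
    have hj := h.j_cases (j := j) hγ0 (Int.natCast_nonneg e) (by rw [h5', h1]; ring)
    refine h.zeroB hdz hj ?_
    rw [← h5', ← h4]
    -- `j U = - d j γ - 2 j`
    linear_combination ((d : ℤ) * j * γ * j + 3 * j * j + j * (j * (-U - 2))) * hdγ - (j ^ 2) * e1

/-- `v ∣ M`, `M` divides `v |U - 1| / d` -/
theorem SixN.l3_char (h : SixN p q s c c5 M) {u d T N v w : ℕ} {U : ℤ} (hU : U = u ∨ U = -(u : ℤ)) (hU2 : U ≠ -2)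
    (h2 : 2 ≤ u) (hd : d = 1 ∨ d = 3) (hw : v * w = u) (e1 : (d : ℤ) * N = U ^ 2 + U + 1)
    (e2 : d * T = v * (U - 1).natAbs) (hMT : M ∣ T) (uN : Up p s c N) : False := by
  obtain ⟨hUsq, hUle, hUge⟩ := sgn_facts hU
  have hdz : (d : ℤ) = 1 ∨ (d : ℤ) = 3 := by rcases hd with h1 | h1 <;> rw [h1] <;> norm_num
  have hd0 : (d : ℤ) ≠ 0 := by rcases hdz with h1 | h1 <;> rw [h1] <;> norm_num
  have hw0 : 0 < w := by
    rcases Nat.eq_zero_or_pos w with h0 | h0
    · rw [h0, mul_zero] at hw; omega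
    · exact h0
  have hv0 : 0 < v := by
    rcases Nat.eq_zero_or_pos v with h0 | h0
    · rw [h0, zero_mul] at hw; omega
    · exact h0
  have hwv : v ≤ u := by rw [← hw]; exact Nat.le_mul_of_pos_right _ hw0
  -- `d w T = U (U - 1)`
  have e3 : (d : ℤ) * (w * T) = U * (U - 1) := by
    have h3 : (d : ℤ) * T = v * |U - 1| := by
      have := congrArg (Nat.cast : ℕ → ℤ) e2
      push_cast at this
      exact this
    have h4 : (u : ℤ) = v * w := by exact_mod_cast hw.symm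
    have h5 : (u : ℤ) * |U - 1| = U * (U - 1) := by
      rcases hU with h6 | h6
      · rw [abs_of_nonneg (by omega), h6]
      · rw [abs_of_nonpos (by omega)]
        rw [h6]; ring
    rw [← h5, h4]
    linear_combination w * h3
  -- the number `u (u ± 1)`
  have hY : d * (w * T) = u * (u + 1) ∨ d * (w * T) = u * (u - 1) := by
    rcases hU with h6 | h6
    · right
      rw [h6] at e3
      have h7 : ((d * (w * T) : ℕ) : ℤ) = ((u * (u - 1) : ℕ) : ℤ) := by
        push_cast [Nat.cast_sub (show 1 ≤ u by omega)]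
        exact e3
      exact_mod_cast h7
    · left
      rw [h6] at e3
      have h7 : ((d * (w * T) : ℕ) : ℤ) = ((u * (u + 1) : ℕ) : ℤ) := by
        push_cast
        rw [e3]; ring
      exact_mod_cast h7
  have hMY : M ∣ d * (w * T) := (hMT.mul_left w).mul_left d
  obtain ⟨e, rfl⟩ := hMT
  obtain ⟨γ, hγ⟩ : ∃ γ : ℤ, γ = (N : ℤ) - w * (M * e : ℕ) := ⟨_, rfl⟩
  have hdγ : (d : ℤ) * γ = 2 * U + 1 := by rw [hγ]; linear_combination e1 - e3
  have hγ0 : γ ≠ 0 := by
    rintro rfl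
    rw [mul_zero] at hdγ
    omega
  have hT0 : 0 < M * e := by
    rcases Nat.eq_zero_or_pos (M * e) with h0 | h0
    · exfalso
      rw [h0, mul_zero] at e2
      have h3 : 0 < (U - 1).natAbs := by omega
      have := Nat.mul_pos hv0 h3
      omega
    · exact h0
  have he : 0 < e := by
    rcases Nat.eq_zero_or_pos e with h0 | h0
    · rw [h0, mul_zero] at hT0; omega
    · exact h0
  have hMT : M ≤ M * e := Nat.le_mul_of_pos_right _ he
  have hcop : Nat.Coprime N M := by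
    refine Nat.coprime_of_dvd fun r hr h1 h3 => ?_
    have h4 := h.prime_ge hr h3
    have h5 : (r : ℤ) ∣ γ := by
      rw [hγ]
      exact dvd_sub (Int.natCast_dvd_natCast.2 h1) (dvd_mul_of_dvd_right (Int.natCast_dvd_natCast.2 (h3.mul_right e)) _)
    have h6 : (r : ℤ) ∣ 3 := by
      have h7 : (3 : ℤ) = 4 * (d * N) - d * γ * (2 * U + 1) := by rw [e1, hdγ]; ring
      rw [h7]
      exact dvd_sub (dvd_mul_of_dvd_right (dvd_mul_of_dvd_right (Int.natCast_dvd_natCast.2 h1) _) _)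
        ((dvd_mul_of_dvd_right h5 _).mul_right _)
    have h7 := Int.le_of_dvd (by norm_num) h6
    omega
  have hdN : (u : ℤ) ^ 2 ≤ 3 * N + u := by
    rw [← hUsq]
    rcases hdz with h1 | h1 <;> rw [h1] at e1 <;> linarith
  have hdN' : u ^ 2 ≤ 3 * N + u := by exact_mod_cast hdN
  have hwT : M * e ≤ w * (M * e) := Nat.le_mul_of_pos_left _ hw0
  have hTN : ((w * (M * e) : ℕ) : ℤ) ≤ N + 2 * u := by
    have h3 : ((w * (M * e) : ℕ) : ℤ) = N - γ := by rw [hγ]; push_cast; ring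
    rw [h3]
    have h4 : -(2 * (u : ℤ)) ≤ γ := by
      rcases hdz with h1 | h1 <;> rw [h1] at hdγ <;> omega
    linarith
  have hTN' : w * (M * e) ≤ N + 2 * u := by exact_mod_cast hTN
  have hbig : q ^ 3 < N := h.big_of (u := u) (by omega) hdN'
  have hq3' : q = 3 → 72 < N := by
    intro h3
    by_contra hN
    have hu18 : u < 18 := by
      by_contra hcon
      have : 18 * 18 ≤ u ^ 2 := by rw [sq]; exact Nat.mul_le_mul (by omega) (by omega)
      have h6 : u ^ 2 ≤ 216 + u := by omega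
      have h7 : u * 17 ≤ u ^ 2 - u := by
        rw [sq]
        have : u * 18 ≤ u * u := Nat.mul_le_mul le_rfl (by omega)
        omega
      omega
    have hM : M = 121 ∨ M = 61 ∨ M = 781 ∨ M = 521 := by rcases h.three h3 with h4 | h4 <;> omega
    have h4 := chk_b3 hM h2 (by omega)
    rcases hY with h1 | h1 <;> rw [h1] at hMY
    · exact h4.1 hMY
    · exact h4.2 hMY
  have hrel : (-(w : ℤ)) * (M * e : ℕ) + 1 * N = γ := by rw [hγ]; ring
  rcases h.bracket1 uN hcop hbig hq3' (Or.inl rfl) hrel with h1 | ⟨h1, h4⟩ | ⟨h1, j, h4, h5⟩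
  · refine h.small_b h2 hY hMY ?_
    obtain ⟨B, hB⟩ : ∃ B : ℕ, B = 2 * (c5 * (q + 1) + 1) := ⟨_, rfl⟩
    have h4 : (N : ℤ) ≤ B * |γ| := by rw [hB]; push_cast; exact h1
    rw [← hB]
    have h5 : (d : ℤ) * |γ| ≤ 2 * u + 1 := by
      have h6 : (d : ℤ) * |γ| = |2 * U + 1| := by
        rw [← hdγ, abs_mul, abs_of_nonneg (by positivity : (0 : ℤ) ≤ d)]
      rw [h6, abs_le]
      omega
    have h6 : (u : ℤ) ^ 2 - u + 1 ≤ B * (2 * u + 1) := by
      calc (u : ℤ) ^ 2 - u + 1 ≤ d * N := by rw [e1, hUsq]; linarith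
        _ ≤ d * (B * |γ|) := by gcongr
        _ = B * (d * |γ|) := by ring
        _ ≤ B * (2 * u + 1) := by gcongr
    have h7 : (u : ℤ) < 2 * B + 2 := by
      by_contra hcon
      push Not at hcon
      nlinarith
    have h8 : u < 2 * B + 2 := by exact_mod_cast h7
    omega
  · have hphi := h.phi
    have hge := h.phi_ge
    have h4' : (N : ℤ) = -(γ * (s * (s + 1) * (s ^ 2 + 1))) := by linarith
    have h6 : (2 * U + 1) * (-4 * (s * (s + 1) * (s ^ 2 + 1)) - (2 * U + 1)) = 3 := by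
      linear_combination 4 * e1 - 4 * d * h4' + (4 * (s * (s + 1) * (s ^ 2 + 1))) * hdγ
    rcases dvd_three h6 with h7 | h7 | h7 | h7 <;> omega
  · have h5' : j * γ = -(s ^ 2 + 2 * s + 2) := by rw [h5]; ring
    have h6 : (c5 : ℤ) * γ = (w * e) * (j * γ) := by rw [h5', h1]; ring
    have hj := h.j_cases (j := j) hγ0 (by positivity) h6
    refine h.zeroC hdz hj ?_
    have h7 : s ^ 2 + 2 * s + 2 = -(j * γ) := by linarith
    rw [h7, ← h4]
    linear_combination ((d : ℤ) * j * γ * j + j * j * (2 * U + 1)) * hdγ - 4 * (j ^ 2) * e1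

end Cfsg.Agent.R2.Spec.X7.N6
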