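import Cfsg.Agent.R2.Spec.X7.N6.STwo
import Cfsg.Agent.R2.Spec.X7.N6.SChk

/-!
# S3435, box X7, `n = 6`, packet N6-S (helper8): `L₃(u)`, `U₃(u)`, the numbers

* `SixN.bracket1` : the bracket lemma with `|β| = 1`;
* `SixN.five_small` : the values of `M` for `c₅ = 5`, `q ≤ 46`;
* `SixN.l3_one`, `SixN.l3_two`, `SixN.l3_char` : `M` divides one of the three tori.
-/

set_option autoImplicit false
set_option maxHeartbeats 1000000

namespace Cfsg.Agent.R2.Spec.X7.N6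

variable {p q : ℕ} {s : ℤ} {c c5 M : ℕ}

/-- the bracket lemma with `|β| = 1` -/
theorem SixN.bracket1 (h : SixN p q s c c5 M) {e N : ℕ} (hN : Up p s c N) (hcop : Nat.Coprime N M)
    (hbig : q ^ 3 < N) (hq3 : q = 3 → 72 < N) {α β γ : ℤ} (hβ : β = 1 ∨ β = -1)
    (hrel : α * (M * e : ℕ) + β * N = γ) :
    (N : ℤ) ≤ 2 * (c5 * (q + 1) + 1) * |γ| ∨
      (c5 * γ = α * e ∧ -β * N = γ * (s * (s + 1) * (s ^ 2 + 1))) ∨
      (c5 * γ = α * e * (s ^ 2 + 2 * s + 2) ∧ ∃ j : ℤ, (N : ℤ) * j = (s ^ 3 - 1) * (s + 1) ∧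
        j * γ = -(β * (s ^ 2 + 2 * s + 2))) := by
  have hlo := h.lo_nat
  have hq := h.q3
  have hβ1 : |β| = 1 := by rcases hβ with h1 | h1 <;> rw [h1] <;> norm_num
  rcases h.bracket' hN hcop hbig hq3 hrel with h1 | h1 | h1 | h1
  · exact Or.inl h1
  · exfalso
    rw [hβ1] at h1
    have h2 := h.big
    have h4 : (3 : ℤ) ≤ q := by exact_mod_cast hq
    nlinarith
  · exfalso
    have h1 := h1.1
    rw [hβ1] at h1
    have h2 : M < 2 * 1 * ((q + 1) ^ 2 + 1) := by exact_mod_cast h1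
    rcases hlo with ⟨h5, h6⟩ | ⟨h5, h6, h9⟩
    · obtain ⟨k, hk⟩ : ∃ k, q = k + 3 := ⟨q - 3, by omega⟩
      rw [hk] at h2 h6
      rw [show k + 3 - 1 = k + 2 by omega] at h6
      have h7 : ((k + 3) ^ 3 + (k + 3)) * (k + 2) = 2 * 1 * ((k + 3 + 1) ^ 2 + 1) +
        (k ^ 4 + 11 * k ^ 3 + 44 * k ^ 2 + 70 * k + 26) := by ring
      omega
    · obtain ⟨l, hl⟩ : ∃ l, q = l + 9 := ⟨q - 9, by omega⟩
      rw [hl] at h2 h6
      rw [show l + 9 - 1 = l + 8 by omega] at h6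
      have h7 : ((l + 9) ^ 3 + (l + 9)) * (l + 8) = 5 * (2 * 1 * ((l + 9 + 1) ^ 2 + 1)) +
        (l ^ 4 + 35 * l ^ 3 + 450 * l ^ 2 + 2490 * l + 4894) := by ring
      omega
  · exact Or.inr (h.zero_pm hβ h1)

/-- the numbers with `c₅ = 5` and `q ≤ 46` -/
lemma SixN.five_small (h : SixN p q s c c5 M) (h5 : c5 = 5) (hq : q ≤ 46) :
    (q = 9 ∧ M = 1181) ∨ (q = 11 ∧ M = 3221) ∨ (q = 19 ∧ M = 24761) ∨ (q = 21 ∧ M = 40841) ∨
      (q = 29 ∧ M = 136741) ∨ (q = 31 ∧ M = 190861) ∨ (q = 39 ∧ M = 451121) ∨ (q = 41 ∧ M = 579281) := by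
  obtain ⟨h6, h9⟩ := h.five h5
  have hphi := h.phi
  rw [h5] at hphi
  push_cast at hphi
  have hsv : s = -9 ∨ s = 11 ∨ s = -19 ∨ s = 21 ∨ s = -29 ∨ s = 31 ∨ s = -39 ∨ s = 41 := by
    rcases h.hs with h1 | h1 <;> omega
  have hqs := h.hs
  rcases hsv with h1 | h1 | h1 | h1 | h1 | h1 | h1 | h1 <;> rw [h1] at hphi hqs <;> norm_num at hphi <;> omega

lemma SixN.one_small (h : SixN p q s c c5 M) (h5 : c5 = 1) (hq : q ≤ 6) :
    (q = 3 ∧ (M = 121 ∨ M = 61)) ∨ (q = 5 ∧ (M = 781 ∨ M = 521)) := by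
  have hphi := h.phi
  rw [h5] at hphi
  push_cast at hphi
  have hodd := h.odd_q
  rw [Nat.odd_iff] at hodd
  have hq3 := h.q3
  have hsv : q = 3 ∨ q = 5 := by omega
  have hqs := h.hs
  rcases hsv with h1 | h1 <;> rw [h1] at hqs <;> rcases hqs with h2 | h2 <;> rw [h2] at hphi <;> norm_num at hphi <;> omega

/-- `M > 5 q ^ 3 / 3` etc. -/
lemma SixN.lo_lin (h : SixN p q s c c5 M) : q ^ 3 + (q ^ 3 + 2 * q) < M ∨ (8 * (q ^ 3 + q) < 5 * M ∧ 9 ≤ q) := by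
  have hq3 := h.q3
  rcases h.lo_nat with ⟨h5, h6⟩ | ⟨h5, h6, h9⟩
  · left
    have : (q ^ 3 + q) * 2 ≤ (q ^ 3 + q) * (q - 1) := Nat.mul_le_mul le_rfl (by omega)
    omega
  · right
    have : (q ^ 3 + q) * 8 ≤ (q ^ 3 + q) * (q - 1) := Nat.mul_le_mul le_rfl (by omega)
    omega

lemma SixN.q_cases (h : SixN p q s c c5 M) : q = 3 ∨ q = 5 ∨ 7 ≤ q := by
  have h1 := h.q3
  have h2 := h.odd_q
  rw [Nat.odd_iff] at h2
  omega

lemma SixN.small_a (h : SixN p q s c c5 M) {u Y : ℕ} (h2 : 2 ≤ u)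
    (hY : Y = u ^ 2 + u + 1 ∨ Y = u ^ 2 - u + 1 ∨ Y = u ^ 2 - 1) (hMY : M ∣ Y)
    (hub : u ≤ 2 * (c5 * (q + 1) + 1) + 2) : False := by
  have hsq : 2 * 2 ≤ u ^ 2 := by rw [sq]; exact Nat.mul_le_mul h2 h2
  have hY0 : 0 < Y := by
    rcases hY with h1 | h1 | h1 <;> omega
  have hYle : Y ≤ u ^ 2 + u + 1 := by
    rcases hY with h1 | h1 | h1 <;> omega
  have hMle := (Nat.le_of_dvd hY0 hMY).trans hYle
  have hmono : ∀ b : ℕ, u ≤ b → u ^ 2 + u + 1 ≤ b ^ 2 + b + 1 := fun b hb => by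
    have := Nat.pow_le_pow_left hb 2
    omega
  have hfin : ¬ (¬ M ∣ u ^ 2 + u + 1 ∧ ¬ M ∣ u ^ 2 - u + 1 ∧ ¬ M ∣ u ^ 2 - 1) := by
    rintro ⟨h3, h4, h5⟩
    rcases hY with h1 | h1 | h1 <;> rw [h1] at hMY
    · exact h3 hMY
    · exact h4 hMY
    · exact h5 hMY
  rcases h.lo_nat with ⟨h5, h6⟩ | ⟨h5, h6, h9⟩
  · rw [h5] at hub
    rcases h.q_cases with h7 | h7 | h7
    · rcases h.one_small h5 (by omega) with h8 | h8
      · rcases chk_a3 (u := u) h8.2 h2 (by omega) with h10 | h10 | h10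
        · omega
        · omega
        · exact hfin h10
      · omega
    · have h8 := hmono 16 (by omega)
      rw [h7] at h6
      norm_num at h6
      omega
    · have h8 := hmono (2 * q + 6) (by omega)
      obtain ⟨k, hk⟩ : ∃ k, q = k + 7 := ⟨q - 7, by omega⟩
      rw [hk] at h6 h8
      rw [show k + 7 - 1 = k + 6 by omega] at h6
      have h9 : ((k + 7) ^ 3 + (k + 7)) * (k + 6) = (2 * (k + 7) + 6) ^ 2 + (2 * (k + 7) + 6) + 1 +
        (k ^ 4 + 27 * k ^ 3 + 270 * k ^ 2 + 1156 * k + 1679) := by ring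
      omega
  · rw [h5] at hub
    rcases Nat.lt_or_ge q 25 with h7 | h7
    · refine hfin (chk_a ?_ h2 ?_)
      · rcases h.five_small h5 (by omega) with h8 | h8 | h8 | h8 | h8 | h8 | h8 | h8 <;> omega
      · omega
    · have h8 := hmono (10 * q + 14) (by omega)
      obtain ⟨k, hk⟩ : ∃ k, q = k + 25 := ⟨q - 25, by omega⟩
      rw [hk] at h6 h8
      rw [show k + 25 - 1 = k + 24 by omega] at h6
      have h9 : ((k + 25) ^ 3 + (k + 25)) * (k + 24) = 5 * ((10 * (k + 25) + 14) ^ 2 + (10 * (k + 25) + 14) + 1) +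
        (k ^ 4 + 99 * k ^ 3 + 3176 * k ^ 2 + 34224 * k + 25795) := by ring
      omega

lemma SixN.small_b (h : SixN p q s c c5 M) {u Y : ℕ} (h2 : 2 ≤ u)
    (hY : Y = u * (u + 1) ∨ Y = u * (u - 1)) (hMY : M ∣ Y)
    (hub : u ≤ 2 * (2 * (c5 * (q + 1) + 1)) + 1) : False := by
  have hY0 : 0 < Y := by
    rcases hY with h1 | h1 <;> rw [h1]
    · exact Nat.mul_pos (by omega) (by omega)
    · exact Nat.mul_pos (by omega) (by omega)
  have hYle : Y ≤ u * (u + 1) := by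
    rcases hY with h1 | h1 <;> rw [h1]
    exact Nat.mul_le_mul le_rfl (by omega)
  have hMle := (Nat.le_of_dvd hY0 hMY).trans hYle
  have hmono : ∀ b : ℕ, u ≤ b → u * (u + 1) ≤ b * (b + 1) := fun b hb => Nat.mul_le_mul hb (by omega)
  have hfin : ¬ (¬ M ∣ u * (u + 1) ∧ ¬ M ∣ u * (u - 1)) := by
    rintro ⟨h3, h4⟩
    rcases hY with h1 | h1 <;> rw [h1] at hMY
    · exact h3 hMY
    · exact h4 hMY
  rcases h.lo_nat with ⟨h5, h6⟩ | ⟨h5, h6, h9⟩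
  · rw [h5] at hub
    rcases h.q_cases with h7 | h7 | h7
    · refine hfin (chk_b3 ?_ h2 (by omega))
      rcases h.one_small h5 (by omega) with h8 | h8 <;> omega
    · refine hfin (chk_b3 ?_ h2 (by omega))
      rcases h.one_small h5 (by omega) with h8 | h8 <;> omega
    · have h8 := hmono (4 * q + 9) (by omega)
      obtain ⟨k, hk⟩ : ∃ k, q = k + 7 := ⟨q - 7, by omega⟩
      rw [hk] at h6 h8
      rw [show k + 7 - 1 = k + 6 by omega] at h6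
      have h9 : ((k + 7) ^ 3 + (k + 7)) * (k + 6) = (4 * (k + 7) + 9) * (4 * (k + 7) + 9 + 1) +
        (k ^ 4 + 27 * k ^ 3 + 258 * k ^ 2 + 938 * k + 694) := by ring
      omega
  · rw [h5] at hub
    rcases Nat.lt_or_ge q 47 with h7 | h7
    · have h8 := h.five_small h5 (by omega)
      refine hfin (chk_b ?_ h2 ?_)
      · rcases h8 with h8 | h8 | h8 | h8 | h8 | h8 | h8 | h8 <;> omega
      · rcases h8 with h8 | h8 | h8 | h8 | h8 | h8 | h8 | h8 <;> omega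
    · have h8 := hmono (20 * q + 25) (by omega)
      obtain ⟨k, hk⟩ : ∃ k, q = k + 47 := ⟨q - 47, by omega⟩
      rw [hk] at h6 h8
      rw [show k + 47 - 1 = k + 46 by omega] at h6
      have h9 : ((k + 47) ^ 3 + (k + 47)) * (k + 46) = 5 * ((20 * (k + 47) + 25) * (20 * (k + 47) + 25 + 1)) +
        (k ^ 4 + 187 * k ^ 3 + 11114 * k ^ 2 + 215658 * k + 117070) := by ring
      omega

end Cfsg.Agent.R2.Spec.X7.N6
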