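import Cfsg.Agent.R2.Spec.X7.N6.Core

/-!
# Box X7, `n = 6` (helper14, S3435): the numeric part of the zero cases

* `zG` : `(y - 1) Φ₅(s) = y ^ m - 1`, `y = ± u`;
* `zF` : `6 Φ₅(s) = 5 ^ m + 5`;
* `zP` : `u ^ k + 1 = 2 Φ₅(s)`.
-/

set_option autoImplicit false
set_option maxRecDepth 100000

namespace Cfsg.Agent.R2.Spec.X7.N6

/-! ### Finite checks -/

/-- `Φ₅(q)` -/
def P1 (q : ℕ) : ℕ := q ^ 4 + q ^ 3 + q ^ 2 + q + 1

/-- `Φ₅(-q)` -/
def P2 (q : ℕ) : ℕ := q ^ 3 * (q - 1) + q * (q - 1) + 1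

/-- the check for `zG` : no power `u ^ m`, `5 ≤ m ≤ 33`, is equal to one of the four numbers -/
def gchk (q u : ℕ) : Bool :=
  (List.range 34).all fun m => Nat.blt m 5 ||
    (!Nat.beq ((u - 1) * P1 q + 1) (u ^ m) && !Nat.beq ((u - 1) * P2 q + 1) (u ^ m) &&
      !Nat.beq ((u + 1) * P1 q) (u ^ m + 1) && !Nat.beq ((u + 1) * P2 q) (u ^ m + 1))

def gall : Bool := (List.range 98).all fun q => Nat.blt q 3 || Nat.beq (q % 2) 0 ||
  (List.range q).all fun u => Nat.blt u 2 || gchk q u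

theorem gall_true : gall = true := by decide +kernel

/-- the check for `zF` -/
def fchk (P : ℕ) : Bool := (List.range 22).all fun m => !Nat.beq (6 * P) (5 ^ m + 5)

def fall : Bool := (List.range 2161).all fun d => Nat.blt d 2 || !Nat.beq (2160 % d) 0 ||
  (fchk (P1 (d + 1)) && (Nat.blt d 4 || fchk (P2 (d - 1))))

theorem fall_true : fall = true := by decide +kernel

/-- binary search: no `x` with `x ^ k = N` between `lo` and `hi` -/
def srch (k N : ℕ) : ℕ → ℕ → ℕ → Bool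
  | 0, _, _ => false
  | n + 1, lo, hi =>
    if hi ≤ lo + 1 then true
    else if ((lo + hi) / 2) ^ k < N then srch k N n ((lo + hi) / 2) hi
    else if N < ((lo + hi) / 2) ^ k then srch k N n lo ((lo + hi) / 2)
    else false

theorem srch_spec {k N : ℕ} (n : ℕ) : ∀ lo hi : ℕ, srch k N n lo hi = true → lo ^ k < N → N < hi ^ k → ∀ x, x ^ k ≠ N := by
  induction n with
  | zero =>
    intro lo hi h
    rw [srch] at h
    exact absurd h (by decide)
  | succ n ih =>
    intro lo hi h h1 h2 x hx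
    rw [srch] at h
    split_ifs at h with h3 h4 h5
    · have h6 : lo < x := by
        by_contra hc
        push Not at hc
        have := Nat.pow_le_pow_left hc k
        omega
      have h7 : x < hi := by
        by_contra hc
        push Not at hc
        have := Nat.pow_le_pow_left hc k
        omega
      omega
    · exact ih _ _ h h4 h2 x hx
    · exact ih _ _ h h1 h5 x hx

/-- no `k`-th power, `3 ≤ k ≤ 33` -/
def pchk (N : ℕ) : Bool := (List.range 34).all fun k => Nat.blt k 3 ||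
  (decide (N < (270000 / 2 ^ (k - 3) + 40) ^ k) && srch k N 20 1 (270000 / 2 ^ (k - 3) + 40))

def pall : Bool := (List.range 12).all fun f => Nat.beq f 0 || (List.range 9505).all fun d =>
  Nat.blt d 2 || !Nat.beq ((864 * f) % d) 0 ||
    (pchk (2 * P1 (d + 1) - 1) && (Nat.blt d 4 || pchk (2 * P2 (d - 1) - 1)))

theorem pall_true : pall = true := by decide +kernel

/-- the check for `m = 4` -/
def g4all : Bool := (List.range 110).all fun q => Nat.blt q 3 || Nat.beq (q % 2) 0 ||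
  (List.range 528).all fun u => Nat.blt u 2 ||
    (!Nat.beq ((u + 1) * (u * u + 1)) (P1 q) && !Nat.beq ((u + 1) * (u * u + 1)) (P2 q))

theorem g4all_true : g4all = true := by decide +kernel

theorem beqf {a b : ℕ} : Nat.beq a b = false ↔ a ≠ b := by
  rw [← Bool.not_eq_true, Nat.beq_eq]

theorem P1_pos (q : ℕ) : 1 ≤ P1 q := by
  unfold P1
  omega

theorem gall_spec {q u m : ℕ} (h3 : 3 ≤ q) (hq : q ≤ 97) (ho : q % 2 = 1) (hu : 2 ≤ u) (huq : u < q) (h5 : 5 ≤ m)
    (hm : m ≤ 33) : (u - 1) * P1 q + 1 ≠ u ^ m ∧ (u - 1) * P2 q + 1 ≠ u ^ m ∧ (u + 1) * P1 q ≠ u ^ m + 1 ∧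
      (u + 1) * P2 q ≠ u ^ m + 1 := by
  have h := gall_true
  rw [gall, List.all_eq_true] at h
  have h1 := h q (List.mem_range.2 (by omega))
  rw [Bool.or_eq_true, Bool.or_eq_true] at h1
  have h2 : ((List.range q).all fun u => Nat.blt u 2 || gchk q u) = true := by
    rcases h1 with (h1 | h1) | h1
    · rw [Nat.blt_eq] at h1
      omega
    · rw [Nat.beq_eq] at h1
      omega
    · exact h1
  rw [List.all_eq_true] at h2
  have h4 := h2 u (List.mem_range.2 huq)
  rw [Bool.or_eq_true] at h4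
  have h6 : gchk q u = true := by
    rcases h4 with h4 | h4
    · rw [Nat.blt_eq] at h4
      omega
    · exact h4
  rw [gchk, List.all_eq_true] at h6
  have h7 := h6 m (List.mem_range.2 (by omega))
  rw [Bool.or_eq_true, Nat.blt_eq] at h7
  have h8 := h7.resolve_left (by omega)
  simp only [Bool.and_eq_true, Bool.not_eq_true', beqf, ne_eq] at h8
  exact ⟨h8.1.1.1, h8.1.1.2, h8.1.2, h8.2⟩

theorem g4_spec {q u : ℕ} (h3 : 3 ≤ q) (hq : q ≤ 109) (ho : q % 2 = 1) (hu : 2 ≤ u) (hu' : u < 528) :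
    (u + 1) * (u * u + 1) ≠ P1 q ∧ (u + 1) * (u * u + 1) ≠ P2 q := by
  have h := g4all_true
  rw [g4all, List.all_eq_true] at h
  have h1 := h q (List.mem_range.2 (by omega))
  rw [Bool.or_eq_true, Bool.or_eq_true, Nat.blt_eq, Nat.beq_eq] at h1
  have h2 := h1.resolve_left (by omega)
  rw [List.all_eq_true] at h2
  have h4 := h2 u (List.mem_range.2 hu')
  rw [Bool.or_eq_true, Nat.blt_eq] at h4
  have h8 := h4.resolve_left (by omega)
  simp only [Bool.and_eq_true, Bool.not_eq_true', beqf, ne_eq] at h8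
  exact h8

theorem fall_spec {d m : ℕ} (hd2 : 2 ≤ d) (hd : d ∣ 2160) (hm : m ≤ 21) :
    6 * P1 (d + 1) ≠ 5 ^ m + 5 ∧ (4 ≤ d → 6 * P2 (d - 1) ≠ 5 ^ m + 5) := by
  have h := fall_true
  rw [fall, List.all_eq_true] at h
  have h1 := h d (List.mem_range.2 (by have := Nat.le_of_dvd (by norm_num) hd; omega))
  have h0 : 2160 % d = 0 := Nat.mod_eq_zero_of_dvd hd
  simp only [Bool.or_eq_true, Bool.not_eq_true', Bool.and_eq_true, Nat.blt_eq, beqf, ne_eq] at h1
  have h2 : fchk (P1 (d + 1)) = true ∧ (d < 4 ∨ fchk (P2 (d - 1)) = true) := by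
    rcases h1 with (h1 | h1) | h1
    · omega
    · exact absurd h0 h1
    · exact h1
  have key : ∀ P, fchk P = true → 6 * P ≠ 5 ^ m + 5 := by
    intro P hP
    rw [fchk, List.all_eq_true] at hP
    have h7 := hP m (List.mem_range.2 (by omega))
    simp only [Bool.not_eq_true', beqf, ne_eq] at h7
    exact h7
  exact ⟨key _ h2.1, fun h4 => key _ (h2.2.resolve_left (by omega))⟩

theorem pchk_spec {N k x : ℕ} (h : pchk N = true) (hN : 1 < N) (h3 : 3 ≤ k) (h31 : k ≤ 33) : x ^ k ≠ N := by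
  rw [pchk, List.all_eq_true] at h
  have h7 := h k (List.mem_range.2 (by omega))
  rw [Bool.or_eq_true, Nat.blt_eq, Bool.and_eq_true, decide_eq_true_iff] at h7
  have h8 := h7.resolve_left (by omega)
  exact srch_spec 20 _ _ h8.2 (by rw [one_pow]; exact hN) h8.1 x

theorem pall_spec {f d k x : ℕ} (hf1 : 1 ≤ f) (hf : f ≤ 11) (hd2 : 2 ≤ d) (hd : d ∣ 864 * f) (h3 : 3 ≤ k) (h31 : k ≤ 33) :
    x ^ k ≠ 2 * P1 (d + 1) - 1 ∧ (4 ≤ d → x ^ k ≠ 2 * P2 (d - 1) - 1) := by
  have h := pall_true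
  rw [pall, List.all_eq_true] at h
  have h1 := h f (List.mem_range.2 (by omega))
  rw [Bool.or_eq_true, Nat.beq_eq] at h1
  have h2 := h1.resolve_left (by omega)
  rw [List.all_eq_true] at h2
  have h4 := h2 d (List.mem_range.2 (by have := Nat.le_of_dvd (by omega) hd; omega))
  have h0 : (864 * f) % d = 0 := Nat.mod_eq_zero_of_dvd hd
  simp only [Bool.or_eq_true, Bool.not_eq_true', Bool.and_eq_true, Nat.blt_eq, beqf, ne_eq] at h4
  have h5 : pchk (2 * P1 (d + 1) - 1) = true ∧ (d < 4 ∨ pchk (2 * P2 (d - 1) - 1) = true) := by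
    rcases h4 with (h1 | h1) | h1
    · omega
    · exact absurd h0 h1
    · exact h1
  refine ⟨pchk_spec h5.1 ?_ h3 h31, fun h4 => pchk_spec (h5.2.resolve_left (by omega)) ?_ h3 h31⟩
  · unfold P1
    have : 1 ≤ (d + 1) ^ 4 := Nat.one_le_pow _ _ (by omega)
    omega
  · unfold P2
    have h6 : 1 ≤ (d - 1) * (d - 1 - 1) := Nat.mul_pos (by omega) (by omega)
    omega

end Cfsg.Agent.R2.Spec.X7.N6
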