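import Cfsg.Agent.R2.Spec.X7.N6.Core

/-!
# Box X7, `n = 6` (helper15, S3435): the zero cases, family by family
-/

set_option autoImplicit false
set_option maxHeartbeats 1000000

namespace Cfsg.Agent.R2.Spec.X7.N6

variable {p q : ℕ} {s : ℤ} {c c5 M : ℕ}

/-- the hypotheses for the zero cases -/
structure Z0 (p q : ℕ) (s : ℤ) (c c5 M u e : ℕ) : Prop where
  h : SixN p q s c c5 M
  q11 : 11 ≤ q
  q41 : c5 = 5 → 41 ≤ q
  u2 : 2 ≤ u
  cop : IsCoprime s (u : ℤ)
  he : (c * e : ℤ) ∣ c5 * (s - 1)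

namespace Z0

variable {u e : ℕ}

lemma cop_s1 (s : ℤ) : IsCoprime s (s - 1) := ⟨1, -1, by ring⟩

lemma unit_false (z : Z0 p q s c c5 M u e) (h : IsUnit s) : False := by
  have h1 := Int.natAbs_of_isUnit h
  have h2 := z.h.abs_s
  have h3 := z.q11
  have h4 : (s.natAbs : ℤ) = |s| := Int.natCast_natAbs s
  rw [h1, h2] at h4
  norm_cast at h4
  omega

lemma cop_c5 (z : Z0 p q s c c5 M u e) : IsCoprime s (c5 : ℤ) := (cop_s1 s).of_isCoprime_of_dvd_right z.h.c5_dvd

lemma cop_e (z : Z0 p q s c c5 M u e) : IsCoprime s (e : ℤ) := by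
  have h1 : IsCoprime s (c5 * (s - 1)) := z.cop_c5.mul_right (cop_s1 s)
  exact h1.of_isCoprime_of_dvd_right ((dvd_mul_left _ _).trans z.he)

lemma c5_cases (z : Z0 p q s c c5 M u e) : (c5 : ℤ) = 1 ∨ (c5 : ℤ) = 5 := by
  rcases z.h.c5_or with h | h <;> rw [h] <;> norm_num

lemma s_abs (z : Z0 p q s c c5 M u e) : 11 ≤ s ∨ s ≤ -11 := by
  have h1 : (11 : ℤ) ≤ q := by exact_mod_cast z.q11
  rcases z.h.hs with h2 | h2
  · left; linarith
  · right; linarith

lemma s_abs5 (z : Z0 p q s c c5 M u e) (h5 : c5 = 5) : 41 ≤ s ∨ s ≤ -41 := by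
  have h1 : (41 : ℤ) ≤ q := by exact_mod_cast z.q41 h5
  rcases z.h.hs with h2 | h2
  · left; linarith
  · right; linarith

lemma e_pos (z : Z0 p q s c c5 M u e) : 1 ≤ e := by
  rcases Nat.eq_zero_or_pos e with h0 | h0
  · exfalso
    have he := z.he
    rw [h0] at he
    simp only [Nat.cast_zero, mul_zero, zero_dvd_iff, mul_eq_zero] at he
    rcases he with h1 | h1
    · rcases z.h.c5_or with h2 | h2 <;> rw [h2] at h1 <;> norm_num at h1
    · exact z.h.s_ne h1
  · exact h0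

/-- `u ∣ c₅` -/
lemma u_five (z : Z0 p q s c c5 M u e) (h : (u : ℤ) ∣ c5) : u = 5 ∧ c5 = 5 := by
  have h1 : u ∣ c5 := by exact_mod_cast h
  have h2 := z.u2
  rcases z.h.c5_or with h3 | h3
  · rw [h3] at h1
    have := Nat.dvd_one.mp h1
    omega
  · rw [h3] at h1
    rcases (Nat.dvd_prime (by norm_num : Nat.Prime 5)).mp h1 with h4 | h4
    · omega
    · exact ⟨h4, h3⟩

/-- the quotient `s / p` -/
lemma exists_r (z : Z0 p q s c c5 M u e) : ∃ r : ℤ, s = p * r ∧ (IsUnit r → q = p) ∧ (¬ IsUnit r → (p : ℤ) ∣ r) ∧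
    (q : ℤ) = p * |r| := by
  obtain ⟨f, hf, hq⟩ := z.h.hq
  obtain ⟨k, rfl⟩ := Nat.exists_eq_add_of_le hf
  have hp : (0 : ℤ) ≤ p := by positivity
  have habs := z.h.abs_s
  rcases z.h.hs with h1 | h1
  · refine ⟨(p : ℤ) ^ k, ?_, ?_, ?_, ?_⟩
    · rw [h1, hq]
      push_cast
      ring
    · intro h2
      have h3 := Int.natAbs_of_isUnit h2
      rw [Int.natAbs_pow, Int.natAbs_natCast] at h3
      rw [hq, pow_add, h3, pow_one, mul_one]
    · intro h2
      rcases Nat.eq_zero_or_pos k with h3 | h3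
      · rw [h3, pow_zero] at h2
        exact absurd isUnit_one h2
      · exact dvd_pow_self _ (by omega)
    · rw [abs_of_nonneg (by positivity), hq]
      push_cast
      ring
  · refine ⟨-(p : ℤ) ^ k, ?_, ?_, ?_, ?_⟩
    · rw [h1, hq]
      push_cast
      ring
    · intro h2
      have h3 := Int.natAbs_of_isUnit h2
      rw [Int.natAbs_neg, Int.natAbs_pow, Int.natAbs_natCast] at h3
      rw [hq, pow_add, h3, pow_one, mul_one]
    · intro h2
      rcases Nat.eq_zero_or_pos k with h3 | h3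
      · rw [h3, pow_zero] at h2
        exact absurd (isUnit_one.neg) h2
      · exact (dvd_pow_self _ (by omega)).neg_right
    · rw [abs_neg, abs_of_nonneg (by positivity), hq]
      push_cast
      ring

lemma p_ne (z : Z0 p q s c c5 M u e) : (p : ℤ) ≠ 0 := by exact_mod_cast z.h.hp.ne_zero

lemma sgn_mul {σ : ℤ} (hσ : σ = 1 ∨ σ = -1) : σ * σ = 1 := by rcases hσ with h | h <;> rw [h] <;> norm_num

/-- `s` divides no number `≤ 10` -/
lemma not_dvd_small (z : Z0 p q s c c5 M u e) {x : ℤ} (hx0 : x ≠ 0) (hx : |x| ≤ 10) (h : s ∣ x) : False := by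
  have h1 := Int.le_of_dvd (abs_pos.mpr hx0) ((dvd_abs _ _).mpr h)
  have h2 := Int.le_of_dvd (abs_pos.mpr hx0) ((dvd_abs _ _).mpr ((neg_dvd).mpr h))
  rcases z.s_abs with h3 | h3 <;> linarith

section A

variable {y w : ℤ} {d m N T : ℕ} {σ1 σ2 : ℤ}

/-- `L_m(u)`, `U_m(u)`, the torus of the class `m` -/
theorem zeroA1 (z : Z0 p q s c c5 M u e) (hy : y = u ∨ y = -(u : ℤ)) (hσ1 : σ1 = 1 ∨ σ1 = -1) (hσ2 : σ2 = 1 ∨ σ2 = -1)
    (hd : 1 ≤ d) (hw : (d : ℤ) * w = y - 1) (hdm : d ∣ m) (hm : 1 ≤ m) (hT : σ1 * T * (d * (y - 1)) = y ^ m - 1) (hTM : T = M * e)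
    (hz : Zero p s c c5 N e (σ1 * (y - 1)) (-(σ2 * y)) w) :
    q = p ∧ (y - 1) * (s ^ 4 + s ^ 3 + s ^ 2 + s + 1) = y ^ m - 1 := by
  have hu2 : (2 : ℤ) ≤ u := by exact_mod_cast z.u2
  have hd' : (1 : ℤ) ≤ d := by exact_mod_cast hd
  have hw0 : w ≠ 0 := by
    rintro rfl
    rw [mul_zero] at hw
    rcases hy with h | h <;> rw [h] at hw <;> linarith
  have he1 : (1 : ℤ) ≤ e := by exact_mod_cast z.e_pos
  have hsy : IsCoprime s y := by
    rcases hy with h | h
    · rw [h]; exact z.cop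
    · rw [h]; exact z.cop.neg_right
  have hσσ := sgn_mul hσ1
  have hσσ2 := sgn_mul hσ2
  have hu1 : IsUnit σ1 := by rcases hσ1 with h | h <;> rw [h]; exacts [isUnit_one, isUnit_one.neg]
  have hu2' : IsUnit σ2 := by rcases hσ2 with h | h <;> rw [h]; exacts [isUnit_one, isUnit_one.neg]
  have hdiv : ∀ {x k : ℤ}, x * w = σ1 * (y - 1) * k → x = σ1 * d * k := by
    intro x k h
    rw [← hw] at h
    have h1 : w * x = w * (σ1 * d * k) := by linear_combination h
    exact mul_left_cancel₀ hw0 h1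
  have hphi := z.h.phi
  have hsq := z.h.abs_s
  have hs11 := z.s_abs
  rcases hz with ⟨h1, j, h2, h3⟩ | ⟨h1, j, h2, h3⟩ | ⟨h1, j, h2, h3⟩ | ⟨h1, j, h2, h3⟩ | ⟨h1, j, h2, h3⟩
  · -- type 1
    exfalso
    have e1 : c5 * s = σ1 * d * (-e) := hdiv (by linear_combination h1)
    have e2 : s ∣ (d : ℤ) * e := ⟨-σ1 * c5, by linear_combination (σ1) * e1 - (d : ℤ) * e * hσσ⟩
    have e3 : s ∣ (d : ℤ) := z.cop_e.dvd_of_dvd_mul_right e2
    have e4 : IsUnit w := by
      have f1 : w ∣ y := by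
        have : y = w * (-σ2 * (c * j)) := by linear_combination σ2 * h3 - y * hσσ2
        exact ⟨_, this⟩
      have f2 : w ∣ y - 1 := ⟨d, by rw [← hw]; ring⟩
      have f3 := dvd_sub f1 f2
      rw [sub_sub_cancel] at f3
      exact isUnit_of_dvd_one f3
    have e5 : (d : ℤ) = |y - 1| := by
      rw [← hw, abs_mul, abs_of_nonneg (by linarith : (0 : ℤ) ≤ d)]
      have := Int.natAbs_of_isUnit e4
      have h5 : |w| = 1 := by
        rw [← Int.natCast_natAbs, this]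
        norm_num
      rw [h5, mul_one]
    have e6 : (q : ℤ) ≤ d := by
      rw [← hsq]
      have : |s| ∣ (d : ℤ) := (abs_dvd _ _).mpr e3
      exact Int.le_of_dvd (by linarith) this
    have e7 : (d : ℤ) ≤ u + 1 := by
      rw [e5]
      rcases hy with h | h
      · rw [h, abs_of_nonneg (by linarith)]; linarith
      · rw [h, show -(u : ℤ) - 1 = -(u + 1) by ring, abs_neg, abs_of_nonneg (by linarith)]
    have hqu : q ≤ u + 1 := by
      have : (q : ℤ) ≤ u + 1 := e6.trans e7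
      exact_mod_cast this
    have hm9 : 9 ≤ m := by
      have f1 : d ≤ m := Nat.le_of_dvd (by omega) hdm
      have f2 : (11 : ℤ) ≤ d := by
        have : (11 : ℤ) ≤ q := by exact_mod_cast z.q11
        linarith
      have f3 : 11 ≤ d := by exact_mod_cast f2
      omega
    -- `T d |y - 1| = |y ^ m - 1|` : `T d = M e d = M c5 q`
    have e8 : (d : ℤ) * e = c5 * q := by
      have f1 : |(c5 : ℤ) * s| = |σ1 * d * (-e)| := by rw [e1]
      rw [abs_mul, abs_mul, abs_mul, hsq, abs_of_nonneg (by positivity : (0 : ℤ) ≤ c5),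
        abs_of_nonneg (by positivity : (0 : ℤ) ≤ d), abs_neg, abs_of_nonneg (by positivity : (0 : ℤ) ≤ e)] at f1
      have f2 : |σ1| = 1 := by rcases hσ1 with h | h <;> rw [h] <;> norm_num
      rw [f2] at f1
      linarith
    have e9 : |y ^ m - 1| = (c5 * M) * q * d := by
      rw [← hT, hTM, abs_mul, abs_mul, abs_mul, abs_of_nonneg (by positivity : (0 : ℤ) ≤ d), ← e5]
      have f2 : |σ1| = 1 := by rcases hσ1 with h | h <;> rw [h] <;> norm_num
      rw [f2, abs_of_nonneg (by positivity : (0 : ℤ) ≤ ((M * e : ℕ) : ℤ))]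
      push_cast
      linear_combination (M : ℤ) * d * e8
    have e10 : (u : ℤ) ^ m - 1 ≤ |y ^ m - 1| := by
      have f1 : |y ^ m| = (u : ℤ) ^ m := by
        rw [abs_pow]
        rcases hy with h | h
        · rw [h, abs_of_nonneg (by linarith)]
        · rw [h, abs_neg, abs_of_nonneg (by linarith)]
      have f2 := abs_sub_abs_le_abs_sub (y ^ m) 1
      rw [f1, abs_one] at f2
      exact f2
    have hQ : (11 : ℤ) ≤ q := by exact_mod_cast z.q11
    have hhi := z.h.hi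
    -- `c5 M ≤ 2 q ^ 4`
    have e11 : (c5 * M : ℤ) ≤ 2 * (q : ℤ) ^ 4 := by
      by_contra hcon
      push Not at hcon
      have f0 : (0 : ℤ) < (q : ℤ) ^ 4 := by positivity
      nlinarith
    have e12 : (u : ℤ) ^ m ≤ 2 * (q : ℤ) ^ 5 * (u + 1) + 1 := by
      have f1 : (c5 * M : ℤ) * q * d ≤ 2 * (q : ℤ) ^ 4 * q * (u + 1) := by
        have g1 : (c5 * M : ℤ) * q ≤ 2 * (q : ℤ) ^ 4 * q := mul_le_mul_of_nonneg_right e11 (by positivity)
        have g2 : (0 : ℤ) ≤ 2 * (q : ℤ) ^ 4 * q := by positivity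
        have g3 : (0 : ℤ) ≤ d := by linarith
        calc (c5 * M : ℤ) * q * d ≤ 2 * (q : ℤ) ^ 4 * q * d := mul_le_mul_of_nonneg_right g1 g3
          _ ≤ 2 * (q : ℤ) ^ 4 * q * (u + 1) := mul_le_mul_of_nonneg_left e7 g2
      rw [← e9] at f1
      have f3 : 2 * (q : ℤ) ^ 4 * q * (u + 1) = 2 * (q : ℤ) ^ 5 * (u + 1) := by ring
      linarith
    have hqu' : (q : ℤ) ≤ u + 1 := by exact_mod_cast hqu
    have hu10 : (10 : ℤ) ≤ u := by linarith
    have e13 : (u : ℤ) ^ 9 ≤ (u : ℤ) ^ m := pow_le_pow_right₀ (by linarith) hm9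
    have e14 : (q : ℤ) ^ 5 ≤ (2 * u) ^ 5 := pow_le_pow_left₀ (by linarith) (by linarith) 5
    have e15 : (u : ℤ) ^ 9 ≤ 2 * (2 * u) ^ 5 * (u + 1) + 1 := by
      have : 2 * (q : ℤ) ^ 5 * (u + 1) ≤ 2 * (2 * u) ^ 5 * (u + 1) := by
        have g : (0 : ℤ) ≤ u + 1 := by linarith
        nlinarith
      linarith
    obtain ⟨k, hk⟩ : ∃ k : ℤ, (u : ℤ) = 10 + k := ⟨u - 10, by ring⟩
    have hk0 : 0 ≤ k := by linarith
    rw [hk] at e15
    have : 0 < (10 + k) ^ 9 - (2 * (2 * (10 + k)) ^ 5 * (10 + k + 1) + 1) := by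
      ring_nf
      positivity
    linarith
  · exfalso
    have e2 : s ∣ y * (s - 1) := ⟨σ2 * (j * w), by linear_combination (-σ2) * h3 - (y * (s - 1)) * hσσ2⟩
    exact z.unit_false ((hsy.mul_right (cop_s1 s)).isUnit_of_dvd' dvd_rfl e2)
  · have e1 : (c5 : ℤ) = σ1 * d * e := hdiv (by linear_combination h1)
    have hpos : σ1 = 1 := by
      rcases hσ1 with h | h
      · exact h
      · exfalso
        rw [h] at e1
        have : (0 : ℤ) < d * e := by positivity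
        rcases z.c5_cases with h5 | h5 <;> rw [h5] at e1 <;> linarith
    obtain ⟨r, hr, hru, -, -⟩ := z.exists_r
    have hp0 := z.p_ne
    have e2 : r * c * j * w = σ2 * y * (s - 1) := by
      refine mul_left_cancel₀ hp0 ?_
      have : s * c * j * w = σ2 * y * p * (s - 1) := by linear_combination h3
      rw [hr] at this ⊢
      linear_combination this
    have hrs : r ∣ s := ⟨p, by rw [hr]; ring⟩
    have e3 : r ∣ y * (s - 1) := ⟨σ2 * (c * j * w), by linear_combination (-σ2) * e2 - (y * (s - 1)) * hσσ2⟩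
    have e4 : IsCoprime r (y * (s - 1)) := (hsy.mul_right (cop_s1 s)).of_isCoprime_of_dvd_left hrs
    refine ⟨hru (e4.isUnit_of_dvd' dvd_rfl e3), ?_⟩
    rw [hpos] at e1 hT
    rw [← hT, hTM, ← hphi, e1]
    push_cast
    ring
  · exfalso
    have e1 : (c5 : ℤ) = σ1 * d * (e * (s ^ 2 + 2 * s + 2)) := hdiv (by linear_combination h1)
    have e2 : s ^ 2 + 2 * s + 2 ∣ (c5 : ℤ) := ⟨σ1 * d * e, by linear_combination e1⟩
    have e3 : (c5 : ℤ) ≤ 5 := by rcases z.c5_cases with h | h <;> linarith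
    have e4 : (0 : ℤ) < c5 := by rcases z.c5_cases with h | h <;> linarith
    have e5 := Int.le_of_dvd e4 e2
    rcases hs11 with h | h <;> nlinarith
  · exfalso
    have e1 : (c5 : ℤ) = σ1 * d * (e * (s + 1)) := hdiv (by linear_combination h1)
    have e2 : s + 1 ∣ (c5 : ℤ) := ⟨σ1 * d * e, by linear_combination e1⟩
    have e3 : (c5 : ℤ) ≤ 5 := by rcases z.c5_cases with h | h <;> linarith
    have e4 : (0 : ℤ) < c5 := by rcases z.c5_cases with h | h <;> linarith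
    have e5 := Int.le_of_dvd e4 e2
    have e6 := Int.le_of_dvd e4 ((neg_dvd).mpr e2)
    rcases hs11 with h | h <;> linarith

/-- `L_m(u)`, `U_m(u)`, the torus of the class `m - 1` -/
theorem zeroA2 (z : Z0 p q s c c5 M u e) (hy : y = u ∨ y = -(u : ℤ)) (hσ1 : σ1 = 1 ∨ σ1 = -1) (hσ2 : σ2 = 1 ∨ σ2 = -1)
    (hd : 1 ≤ d) (hw : (d : ℤ) * w = y - 1) (hm : 1 ≤ m) (hT : σ2 * T * d = y ^ m - 1) (hTM : T = M * e)
    (hz : Zero p s c c5 N e (-(σ2 * y)) (σ1 * (y - 1)) w) :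
    q = p ∧ u = 5 ∧ c5 = 5 ∧ y = -5 ∧ m % 2 = 1 ∧ (5 : ℤ) ^ m + 1 = 6 * M := by
  have hu2 : (2 : ℤ) ≤ u := by exact_mod_cast z.u2
  have hd' : (1 : ℤ) ≤ d := by exact_mod_cast hd
  have hw0 : w ≠ 0 := by
    rintro rfl
    rw [mul_zero] at hw
    rcases hy with h | h <;> rw [h] at hw <;> linarith
  have he1 : (1 : ℤ) ≤ e := by exact_mod_cast z.e_pos
  have hsy : IsCoprime s y := by
    rcases hy with h | h
    · rw [h]; exact z.cop
    · rw [h]; exact z.cop.neg_right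
  have hyu : (u : ℤ) ∣ y := by
    rcases hy with h | h
    · rw [h]
    · rw [h]; exact (dvd_refl _).neg_right
  have hσσ := sgn_mul hσ1
  have hσσ2 := sgn_mul hσ2
  have hwy : IsCoprime (u : ℤ) w := by
    have f1 : IsCoprime (u : ℤ) (y - 1) := by
      rcases hy with h | h
      · rw [h]; exact ⟨1, -1, by ring⟩
      · rw [h]; exact ⟨-1, -1, by ring⟩
    exact f1.of_isCoprime_of_dvd_right ⟨d, by rw [← hw]; ring⟩
  -- `u = 5 = c5`
  have five : ∀ {k : ℤ}, (c5 : ℤ) * s * w = y * k → u = 5 ∧ c5 = 5 := by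
    intro k hk
    apply z.u_five
    have f1 : (u : ℤ) ∣ (c5 : ℤ) * s * w := by rw [hk]; exact hyu.mul_right _
    have f2 := hwy.dvd_of_dvd_mul_right f1
    exact (z.cop.symm).dvd_of_dvd_mul_right f2
  have five' : ∀ {k : ℤ}, (c5 : ℤ) * w = y * k → u = 5 ∧ c5 = 5 := by
    intro k hk
    exact five (k := s * k) (by linear_combination s * hk)
  have hdy : u = 5 → |w| ≤ 6 ∧ (d : ℤ) ≤ 6 := by
    intro h5
    have f1 : |y - 1| ≤ 6 := by
      rcases hy with h | h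
      · rw [h, h5]; norm_num
      · rw [h, h5]; norm_num
    rw [← hw, abs_mul, abs_of_nonneg (by linarith : (0 : ℤ) ≤ d)] at f1
    have f2 : 1 ≤ |w| := Int.one_le_abs hw0
    constructor <;> nlinarith
  have hphi := z.h.phi
  have hsq := z.h.abs_s
  rcases hz with ⟨h1, j, h2, h3⟩ | ⟨h1, j, h2, h3⟩ | ⟨h1, j, h2, h3⟩ | ⟨h1, j, h2, h3⟩ | ⟨h1, j, h2, h3⟩
  · exfalso
    obtain ⟨g1, g2⟩ := five (k := σ2 * e) (by linear_combination h1)
    -- `5 s w = σ2 y e`, `y = ± 5`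
    have g3 : s ∣ (e : ℤ) := by
      rcases hy with h | h
      · rw [h, g1, g2] at h1
        push_cast at h1
        exact ⟨σ2 * w, by linarith [show (5 : ℤ) * e = 5 * (s * (σ2 * w)) by linear_combination (-σ2) * h1 - (5 * (e : ℤ)) * hσσ2]⟩
      · rw [h, g1, g2] at h1
        push_cast at h1
        exact ⟨-σ2 * w, by linarith [show (5 : ℤ) * e = 5 * (s * (-σ2 * w)) by linear_combination (σ2) * h1 - (5 * (e : ℤ)) * hσσ2]⟩
    exact z.unit_false (z.cop_e.isUnit_of_dvd' dvd_rfl g3)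
  · exfalso
    obtain ⟨g1, g2⟩ := five' (k := -σ2 * e) (by linear_combination h1)
    have g3 : s * j = -(σ1 * d * (s - 1)) := by
      refine mul_right_cancel₀ hw0 ?_
      rw [← hw] at h3
      linear_combination h3
    have g4 : s ∣ (d : ℤ) * (s - 1) := ⟨-σ1 * j, by linear_combination (σ1) * g3 - ((d : ℤ) * (s - 1)) * hσσ⟩
    have g5 : s ∣ (d : ℤ) := (cop_s1 s).dvd_of_dvd_mul_right g4
    refine z.not_dvd_small (by linarith) ?_ g5
    rw [abs_of_nonneg (by linarith)]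
    linarith [(hdy g1).2]
  · obtain ⟨g1, g2⟩ := five' (k := -σ2 * e) (by linear_combination h1)
    obtain ⟨r, hr, hru, hrp, hqr⟩ := z.exists_r
    have hp0 := z.p_ne
    have g3 : r * c * j = -(σ1 * d * (s - 1)) := by
      refine mul_right_cancel₀ hw0 (mul_left_cancel₀ hp0 ?_)
      rw [← hw] at h3
      rw [hr] at h3 ⊢
      linear_combination h3
    have hrs : r ∣ s := ⟨p, by rw [hr]; ring⟩
    have g4 : r ∣ (d : ℤ) * (s - 1) := ⟨-σ1 * (c * j), by linear_combination (σ1) * g3 - ((d : ℤ) * (s - 1)) * hσσ⟩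
    have g5 : r ∣ (d : ℤ) := ((cop_s1 s).of_isCoprime_of_dvd_left hrs).dvd_of_dvd_mul_right g4
    have g6 : |r| ≤ 6 := (Int.le_of_dvd (by linarith) ((abs_dvd _ _).mpr g5)).trans (hdy g1).2
    have hqp : q = p := by
      apply hru
      by_contra hnu
      have f1 : (p : ℤ) ≤ |r| := by
        have f2 : r ≠ 0 := by
          rintro rfl
          exact z.unit_false (by
            exfalso
            rw [mul_zero] at hr
            rcases z.s_abs with h | h <;> linarith)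
        exact Int.le_of_dvd (abs_pos.mpr f2) ((dvd_abs _ _).mpr (hrp hnu))
      have f3 : (41 : ℤ) ≤ q := by exact_mod_cast z.q41 g2
      have f4 : (0 : ℤ) ≤ p := by positivity
      nlinarith
    have g7 : 5 * w = -σ2 * y * e := by
      rw [g2] at h1
      push_cast at h1
      linear_combination h1
    rcases hy with h | h
    · exfalso
      rw [h, g1] at g7 hT hw
      push_cast at g7 hT hw
      have g8 : w = -σ2 * e := by linarith
      rcases hσ2 with h9 | h9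
      · rw [h9] at g8
        have : (d : ℤ) * w < 0 := by
          rw [g8]
          nlinarith
        linarith
      · rw [h9] at hT
        have f1 : (5 : ℤ) ^ m ≥ 1 := one_le_pow₀ (by norm_num)
        have f2 : (0 : ℤ) < T := by
          rw [hTM]
          have := z.h.M_pos
          have := z.e_pos
          positivity
        nlinarith
    · rw [h, g1] at g7 hT hw
      push_cast at g7 hT hw
      have g8 : w = σ2 * e := by linarith
      have hσ : σ2 = -1 := by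
        rcases hσ2 with h9 | h9
        · exfalso
          rw [h9] at g8
          have : 0 < (d : ℤ) * w := by
            rw [g8]
            nlinarith
          linarith
        · exact h9
      rw [hσ] at g8 hT
      have g9 : (d : ℤ) * e = 6 := by
        rw [g8] at hw
        linarith
      have g10 : (-5 : ℤ) ^ m - 1 = -(6 * M) := by
        rw [← hT, hTM]
        push_cast
        linear_combination (-(M : ℤ)) * g9
      rcases Nat.even_or_odd m with hev | hod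
      · exfalso
        rw [hev.neg_pow] at g10
        have f1 : (5 : ℤ) ^ m ≥ 1 := one_le_pow₀ (by norm_num)
        have f2 : (0 : ℤ) < M := by exact_mod_cast z.h.M_pos
        linarith
      · rw [hod.neg_pow] at g10
        refine ⟨hqp, g1, g2, by rw [h, g1]; norm_num, Nat.odd_iff.mp hod, by linarith⟩
  · exfalso
    obtain ⟨g1, g2⟩ := five' (k := -σ2 * e * (s ^ 2 + 2 * s + 2)) (by linear_combination h1)
    have g3 : s ^ 2 + 2 * s + 2 ∣ (c5 : ℤ) * w := ⟨-(σ2 * y) * e, by linear_combination h1⟩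
    have g4 : (c5 : ℤ) * w ≠ 0 := mul_ne_zero (by rw [g2]; norm_num) hw0
    have g5 := Int.le_of_dvd (abs_pos.mpr g4) ((dvd_abs _ _).mpr g3)
    rw [abs_mul, g2] at g5
    push_cast at g5
    have g6 := (hdy g1).1
    rw [abs_of_nonneg (by norm_num : (0 : ℤ) ≤ 5)] at g5
    rcases z.s_abs with h | h <;> nlinarith
  · exfalso
    obtain ⟨g1, g2⟩ := five' (k := -σ2 * e * (s + 1)) (by linear_combination h1)
    have hy5 : y = 5 ∨ y = -5 := by
      rcases hy with h | h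
      · left; rw [h, g1]; norm_num
      · right; rw [h, g1]; norm_num
    have g3 : s + 1 ∣ w := by
      rw [g2] at h1
      push_cast at h1
      rcases hy5 with h | h
      · rw [h] at h1
        exact ⟨-σ2 * e, by linarith⟩
      · rw [h] at h1
        exact ⟨σ2 * e, by linarith⟩
    have g5 := Int.le_of_dvd (abs_pos.mpr hw0) ((dvd_abs _ _).mpr g3)
    have g5' := Int.le_of_dvd (abs_pos.mpr hw0) ((dvd_abs _ _).mpr ((neg_dvd).mpr g3))
    have g6 := (hdy g1).1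
    rcases z.s_abs5 g2 with h | h <;> linarith

end A

/-- the symplectic and odd orthogonal groups, `PΩ⁺_{2m}`, `m` even -/
theorem zeroB (z : Z0 p q s c c5 M u e) {ε γ : ℤ} {g N T : ℕ} (hε : ε = 1 ∨ ε = -1) (hγ : γ * g = 2) (hTM : T = M * e)
    (hz : Zero p s c c5 N e ε (-ε) γ) :
    q = p ∧ ε = 1 ∧ (T : ℤ) * g = 2 * (s ^ 4 + s ^ 3 + s ^ 2 + s + 1) := by
  have he1 : (1 : ℤ) ≤ e := by exact_mod_cast z.e_pos
  have hεε := sgn_mul hε
  have hg0 : (0 : ℤ) ≤ g := by positivity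
  have hγ0 : 0 < γ := by
    by_contra hcon
    push Not at hcon
    nlinarith
  have hγ2 : γ ≤ 2 := Int.le_of_dvd (by norm_num) ⟨g, hγ.symm⟩
  have hphi := z.h.phi
  rcases hz with ⟨h1, j, h2, h3⟩ | ⟨h1, j, h2, h3⟩ | ⟨h1, j, h2, h3⟩ | ⟨h1, j, h2, h3⟩ | ⟨h1, j, h2, h3⟩
  · exfalso
    have e2 : s ∣ (e : ℤ) := ⟨-ε * (c5 * γ), by linear_combination (ε) * h1 - (e : ℤ) * hεε⟩
    exact z.unit_false (z.cop_e.isUnit_of_dvd' dvd_rfl e2)
  · exfalso
    have e2 : s ∣ s - 1 := ⟨ε * (j * γ), by linear_combination (-ε) * h3 - (s - 1) * hεε⟩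
    exact z.unit_false ((cop_s1 s).isUnit_of_dvd' dvd_rfl e2)
  · have hpos : ε = 1 := by
      rcases hε with h | h
      · exact h
      · exfalso
        rw [h] at h1
        rcases z.c5_cases with h5 | h5 <;> rw [h5] at h1 <;> nlinarith
    obtain ⟨r, hr, hru, -, -⟩ := z.exists_r
    have hp0 := z.p_ne
    have e2 : r * c * j * γ = (s - 1) := by
      refine mul_left_cancel₀ hp0 ?_
      have : s * c * j * γ = p * (s - 1) := by rw [hpos] at h3; linear_combination h3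
      rw [hr] at this ⊢
      linear_combination this
    have hrs : r ∣ s := ⟨p, by rw [hr]; ring⟩
    have e3 : r ∣ s - 1 := ⟨c * j * γ, by linear_combination -e2⟩
    refine ⟨hru (((cop_s1 s).of_isCoprime_of_dvd_left hrs).isUnit_of_dvd' dvd_rfl e3), hpos, ?_⟩
    rw [hpos] at h1
    rw [hTM, ← hphi]
    push_cast
    linear_combination (-(M : ℤ) * g) * h1 + (c5 : ℤ) * M * hγ
  · exfalso
    have e2 : s ^ 2 + 2 * s + 2 ∣ (c5 : ℤ) * γ := ⟨ε * e, by linear_combination h1⟩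
    have e4 : (0 : ℤ) < c5 * γ := by rcases z.c5_cases with h | h <;> rw [h] <;> linarith
    have e5 := Int.le_of_dvd e4 e2
    have e3 : (c5 : ℤ) * γ ≤ 10 := by rcases z.c5_cases with h | h <;> rw [h] <;> linarith
    rcases z.s_abs with h | h <;> nlinarith
  · exfalso
    have e2 : s + 1 ∣ (c5 : ℤ) * γ := ⟨ε * e, by linear_combination h1⟩
    have e4 : (0 : ℤ) < c5 * γ := by rcases z.c5_cases with h | h <;> rw [h] <;> linarith
    have e5 := Int.le_of_dvd e4 e2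
    have e6 := Int.le_of_dvd e4 ((neg_dvd).mpr e2)
    rcases z.h.c5_or with h | h
    · rw [h] at e5 e6
      push_cast at e5 e6
      rcases z.s_abs with h' | h' <;> linarith
    · rw [h] at e5 e6
      push_cast at e5 e6
      rcases z.s_abs5 h with h' | h' <;> linarith

/-- an odd number dividing `g ≤ 4`, `g ∈ {1, 2, 4}` -/
lemma odd_dvd_four {x : ℤ} {g : ℕ} (hg : g ∣ 4) (hx : Odd x) (h : x ∣ (g : ℤ)) : IsUnit x := by
  have h1 : x ∣ 4 := h.trans (by exact_mod_cast hg)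
  have h2 : IsCoprime x 4 := by
    have : IsCoprime x 2 := by
      obtain ⟨k, hk⟩ := hx
      exact ⟨1, -k, by rw [hk]; ring⟩
    have h3 := this.mul_right this
    norm_num at h3
    exact h3
  exact h2.isUnit_of_dvd' dvd_rfl h1

/-- `T = T_m` or `T_2m`, `b = u ± 1` -/
theorem zeroC1 (z : Z0 p q s c c5 M u e) {γ : ℤ} {g N b : ℕ} (hg : g ∣ 4) (hg0 : 1 ≤ g) (hb : 1 ≤ b)
    (hγ : γ * g = (b : ℤ) ^ 2) (hz : Zero p s c c5 N e (-(b : ℤ)) u γ) : False := by
  have he1 : (1 : ℤ) ≤ e := by exact_mod_cast z.e_pos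
  have hb1 : (1 : ℤ) ≤ b := by exact_mod_cast hb
  have hg1 : (1 : ℤ) ≤ g := by exact_mod_cast hg0
  have hb0 : (b : ℤ) ≠ 0 := by linarith
  have hγ0 : 0 < γ := by
    by_contra hcon
    push Not at hcon
    nlinarith [sq_nonneg (b : ℤ)]
  have hc50 : (0 : ℤ) < c5 := by rcases z.c5_cases with h | h <;> rw [h] <;> norm_num
  have hg4 : (g : ℤ) ≤ 4 := by exact_mod_cast Nat.le_of_dvd (by norm_num) hg
  have hsmall : s ∣ (g : ℤ) → False := fun h => z.not_dvd_small (by linarith) (by rw [abs_of_nonneg (by linarith)]; linarith) h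
  rcases hz with ⟨h1, j, h2, h3⟩ | ⟨h1, j, h2, h3⟩ | ⟨h1, j, h2, h3⟩ | ⟨h1, j, h2, h3⟩ | ⟨h1, j, h2, h3⟩
  · have e1 : c5 * s * b = g * e := by
      refine mul_left_cancel₀ hb0 ?_
      linear_combination (g : ℤ) * h1 - (c5 : ℤ) * s * hγ
    have e2 : s ∣ (g : ℤ) * e := ⟨c5 * b, by linear_combination -e1⟩
    exact hsmall (z.cop_e.dvd_of_dvd_mul_right e2)
  · have : 0 < (c5 : ℤ) * γ := by positivity
    nlinarith
  · have : 0 < (c5 : ℤ) * γ := by positivity
    nlinarith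
  · have : 0 < (c5 : ℤ) * γ := by positivity
    have h5 : 0 < s ^ 2 + 2 * s + 2 := by nlinarith [sq_nonneg (s + 1)]
    have h6 : 0 < (b : ℤ) * e * (s ^ 2 + 2 * s + 2) := by positivity
    nlinarith
  · -- `s ^ 2 j b ^ 2 = - g u p (s ^ 2 - 1)`
    obtain ⟨r, hr, -, -, -⟩ := z.exists_r
    have hp0 := z.p_ne
    have e1 : (p : ℤ) * r ^ 2 * j * b ^ 2 = -(g * u * (s ^ 2 - 1)) := by
      refine mul_left_cancel₀ hp0 ?_
      have : s ^ 2 * j * b ^ 2 = -(g * u * p * (s ^ 2 - 1)) := by linear_combination (g : ℤ) * h3 - s ^ 2 * j * hγ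
      rw [hr] at this ⊢
      linear_combination this
    have hps : (p : ℤ) ∣ s := ⟨r, hr⟩
    have e2 : (p : ℤ) ∣ (g : ℤ) * (u * (s ^ 2 - 1)) := ⟨-(r ^ 2 * j * b ^ 2), by linear_combination e1⟩
    have e3 : IsCoprime (p : ℤ) (u * (s ^ 2 - 1)) := by
      refine (z.cop.of_isCoprime_of_dvd_left hps).mul_right ?_
      have : IsCoprime s (s ^ 2 - 1) := ⟨s, -1, by ring⟩
      exact this.of_isCoprime_of_dvd_left hps
    have e4 := e3.dvd_of_dvd_mul_right e2
    have hodd : Odd (p : ℤ) := by exact_mod_cast z.h.hp.odd_of_ne_two z.h.hp2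
    have h5 := odd_dvd_four hg hodd e4
    have h6 := Int.natAbs_of_isUnit h5
    rw [Int.natAbs_natCast] at h6
    exact z.h.hp.one_lt.ne' h6

/-- `T = T'`, `b = u + 1` (`PΩ⁺_{2m}`, `m` odd) or `b = u - 1` (`PΩ⁻_{2m}`) -/
theorem zeroC2 (z : Z0 p q s c c5 M u e) {γ : ℤ} {g N b : ℕ} (hg : g ∣ 4) (hg0 : 1 ≤ g) (hb : b = u + 1 ∨ b + 1 = u)
    (hγ : γ * g = (b : ℤ) ^ 2) (hz : Zero p s c c5 N e u (-(b : ℤ)) γ) :
    q = p ∧ u = 5 ∧ c5 = 5 ∧ (b : ℤ) ^ 2 = g * e := by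
  have hu2 : (2 : ℤ) ≤ u := by exact_mod_cast z.u2
  have he1 : (1 : ℤ) ≤ e := by exact_mod_cast z.e_pos
  have hb1 : (1 : ℤ) ≤ b := by
    have := z.u2
    have : 1 ≤ b := by rcases hb with h | h <;> omega
    exact_mod_cast this
  have hub : IsCoprime (u : ℤ) b := by
    rcases hb with h | h
    · rw [h]; push_cast; exact ⟨-1, 1, by ring⟩
    · rw [← h]; push_cast; exact ⟨1, -1, by ring⟩
  have hg1 : (1 : ℤ) ≤ g := by exact_mod_cast hg0
  have hb0 : (b : ℤ) ≠ 0 := by linarith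
  have hg4 : (g : ℤ) ≤ 4 := by exact_mod_cast Nat.le_of_dvd (by norm_num) hg
  have hsmall : s ∣ (g : ℤ) → False := fun h => z.not_dvd_small (by linarith) (by rw [abs_of_nonneg (by linarith)]; linarith) h
  have five : ∀ {k : ℤ}, (c5 : ℤ) * γ = u * k → (u = 5 ∧ c5 = 5) ∧ (b : ℤ) ^ 2 = g * k := by
    intro k hk
    have f0 : (c5 : ℤ) * b ^ 2 = u * (g * k) := by linear_combination (g : ℤ) * hk - (c5 : ℤ) * hγ
    have f1 : (u : ℤ) ∣ (c5 : ℤ) * b ^ 2 := ⟨_, f0⟩
    obtain ⟨g1, g2⟩ := z.u_five ((hub.pow_right (n := 2)).dvd_of_dvd_mul_right f1)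
    refine ⟨⟨g1, g2⟩, ?_⟩
    rw [g1, g2] at f0
    push_cast at f0
    linarith
  have hb6 : u = 5 → (b : ℤ) ^ 2 ≤ 36 := by
    intro h5
    have h6 : b ≤ 6 := by rcases hb with h | h <;> omega
    have h7 : (b : ℤ) ≤ 6 := by exact_mod_cast h6
    nlinarith
  have hb2 : (0 : ℤ) < (b : ℤ) ^ 2 := by positivity
  rcases hz with ⟨h1, j, h2, h3⟩ | ⟨h1, j, h2, h3⟩ | ⟨h1, j, h2, h3⟩ | ⟨h1, j, h2, h3⟩ | ⟨h1, j, h2, h3⟩
  · exfalso
    have f0 : (c5 : ℤ) * s * b ^ 2 = u * (-(g * e)) := by linear_combination (g : ℤ) * h1 - (c5 : ℤ) * s * hγ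
    have f1 : (u : ℤ) ∣ (c5 : ℤ) * s * b ^ 2 := ⟨_, f0⟩
    obtain ⟨g1, g2⟩ := z.u_five (z.cop.symm.dvd_of_dvd_mul_right ((hub.pow_right (n := 2)).dvd_of_dvd_mul_right f1))
    rw [g1, g2] at f0
    push_cast at f0
    have f2 : s ∣ (g : ℤ) * e := ⟨-(b : ℤ) ^ 2, by linarith⟩
    exact hsmall (z.cop_e.dvd_of_dvd_mul_right f2)
  · exfalso
    obtain ⟨⟨g1, g2⟩, g3⟩ := five (k := e) h1
    have e1 : s * j * b = g * (s - 1) := by
      refine mul_left_cancel₀ hb0 ?_
      linear_combination (g : ℤ) * h3 - s * j * hγ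
    have f2 : s ∣ (g : ℤ) * (s - 1) := ⟨j * b, by linear_combination -e1⟩
    exact hsmall ((cop_s1 s).dvd_of_dvd_mul_right f2)
  · obtain ⟨⟨g1, g2⟩, g3⟩ := five (k := e) h1
    obtain ⟨r, hr, hru, -, -⟩ := z.exists_r
    have hp0 := z.p_ne
    have e1 : r * c * j * b = g * (s - 1) := by
      refine mul_left_cancel₀ hb0 (mul_left_cancel₀ hp0 ?_)
      have : s * c * j * b ^ 2 = g * b * p * (s - 1) := by linear_combination (g : ℤ) * h3 - s * c * j * hγ
      rw [hr] at this ⊢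
      linear_combination this
    have hrs : r ∣ s := ⟨p, by rw [hr]; ring⟩
    have f2 : r ∣ (g : ℤ) * (s - 1) := ⟨c * j * b, by linear_combination -e1⟩
    have f3 := ((cop_s1 s).of_isCoprime_of_dvd_left hrs).dvd_of_dvd_mul_right f2
    have hodd : Odd r := by
      have h4 := z.h.odd_s
      rw [hr] at h4
      exact (Int.odd_mul.mp h4).2
    exact ⟨hru (odd_dvd_four hg hodd f3), g1, g2, g3⟩
  · exfalso
    obtain ⟨⟨g1, g2⟩, g3⟩ := five (k := e * (s ^ 2 + 2 * s + 2)) (by linear_combination h1)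
    have f1 : s ^ 2 + 2 * s + 2 ∣ (b : ℤ) ^ 2 := ⟨g * e, by linear_combination g3⟩
    have f2 := Int.le_of_dvd hb2 f1
    have f3 := hb6 g1
    rcases z.s_abs with h | h <;> nlinarith
  · exfalso
    obtain ⟨⟨g1, g2⟩, g3⟩ := five (k := e * (s + 1)) (by linear_combination h1)
    have f1 : s + 1 ∣ (b : ℤ) ^ 2 := ⟨g * e, by linear_combination g3⟩
    have f2 := Int.le_of_dvd hb2 f1
    have f2' := Int.le_of_dvd hb2 ((neg_dvd).mpr f1)
    have f3 := hb6 g1
    rcases z.s_abs5 g2 with h | h <;> linarith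

/-- `T = T''` (`PΩ⁻_{2m}`, `m` even) -/
theorem zeroC3 (z : Z0 p q s c c5 M u e) {γ : ℤ} {g N : ℕ} (hg : g ∣ 4) (hg0 : 1 ≤ g)
    (hγ : γ * g = -((u : ℤ) + 1) ^ 2) (hz : Zero p s c c5 N e u (-((u : ℤ) + 1)) γ) : False := by
  have hu2 : (2 : ℤ) ≤ u := by exact_mod_cast z.u2
  have he1 : (1 : ℤ) ≤ e := by exact_mod_cast z.e_pos
  have hub : IsCoprime (u : ℤ) (u + 1) := ⟨-1, 1, by ring⟩
  have hg1 : (1 : ℤ) ≤ g := by exact_mod_cast hg0
  have hg4 : (g : ℤ) ≤ 4 := by exact_mod_cast Nat.le_of_dvd (by norm_num) hg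
  have hγ0 : γ < 0 := by
    by_contra hcon
    push Not at hcon
    nlinarith [sq_nonneg ((u : ℤ) + 1)]
  have hc50 : (0 : ℤ) < c5 := by rcases z.c5_cases with h | h <;> rw [h] <;> norm_num
  have hsmall : s ∣ (g : ℤ) → False := fun h => z.not_dvd_small (by linarith) (by rw [abs_of_nonneg (by linarith)]; linarith) h
  rcases hz with ⟨h1, j, h2, h3⟩ | ⟨h1, j, h2, h3⟩ | ⟨h1, j, h2, h3⟩ | ⟨h1, j, h2, h3⟩ | ⟨h1, j, h2, h3⟩
  · have f0 : (c5 : ℤ) * s * (u + 1) ^ 2 = u * (g * e) := by linear_combination (-(g : ℤ)) * h1 + (c5 : ℤ) * s * hγ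
    have f1 : (u : ℤ) ∣ (c5 : ℤ) * s * (u + 1) ^ 2 := ⟨_, f0⟩
    obtain ⟨g1, g2⟩ := z.u_five (z.cop.symm.dvd_of_dvd_mul_right ((hub.pow_right (n := 2)).dvd_of_dvd_mul_right f1))
    rw [g1, g2] at f0
    push_cast at f0
    have f2 : s ∣ (g : ℤ) * e := ⟨36, by linarith⟩
    exact hsmall (z.cop_e.dvd_of_dvd_mul_right f2)
  · nlinarith [mul_pos hc50 (neg_pos.mpr hγ0)]
  · nlinarith [mul_pos hc50 (neg_pos.mpr hγ0)]
  · have h5 : 0 < s ^ 2 + 2 * s + 2 := by nlinarith [sq_nonneg (s + 1)]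
    have h6 : 0 < (u : ℤ) * e * (s ^ 2 + 2 * s + 2) := by positivity
    nlinarith [mul_pos hc50 (neg_pos.mpr hγ0)]
  · have f0 : (c5 : ℤ) * (u + 1) ^ 2 = u * (-(g * (e * (s + 1)))) := by
      linear_combination (-(g : ℤ)) * h1 + (c5 : ℤ) * hγ
    have f1 : (u : ℤ) ∣ (c5 : ℤ) * (u + 1) ^ 2 := ⟨_, f0⟩
    obtain ⟨g1, g2⟩ := z.u_five ((hub.pow_right (n := 2)).dvd_of_dvd_mul_right f1)
    rw [g1, g2] at f0
    push_cast at f0
    have f3 : s + 1 ∣ 36 := ⟨-(g * e), by linarith⟩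
    have f2 := Int.le_of_dvd (by norm_num) f3
    have f2' := Int.le_of_dvd (by norm_num) ((neg_dvd).mpr f3)
    rcases z.s_abs5 g2 with h | h <;> linarith

end Z0

end Cfsg.Agent.R2.Spec.X7.N6
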